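import Cfsg.Agent.CharDeep.Cover
import Cfsg.Agent.CharDeep.MGroup
import Cfsg.Agent.CharDeep.Extend
import Cfsg.Agent.Solv.MinNormal
import Cfsg.Agent.Loc.PGrp

/-! Berger's theorem: a quasi-primitive character of a finite solvable group is primitive
(`not_induced`).  `QP χ` only asks for homogeneous restrictions to normal subgroups containing
`Z(χ)`; it passes to the cofactor of a cover (`QP.cover`). -/

universe u

namespace Cfsg.Agent.CH.Berger

open Cfsg.Agent.Char Cfsg.Agent.CharDeep Subgroup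
open scoped ComplexConjugate

variable {G : Type*} [Group G]

theorem gt_bot [Finite G] [Group.IsSolvable G] {H : Subgroup G} (hH : H ≠ ⊤) (h0 : H ≠ ⊥) :
    ∃ K : Subgroup G, K.Normal ∧ K ≠ ⊥ ∧ (K ⊔ H ≠ ⊤ ∨ K ⊔ H = ⊤ ∧ K ⊓ H = ⊥ ∧ ∃ Q ≤ H,
      H ≤ normalizer (Q : Set G) ∧ (Nat.card Q).Coprime (Nat.card K) ∧
      ¬ Q ≤ centralizer (K : Set G)) := by
  by_contra! hc
  have h1 : ∀ K : Subgroup G, K.Normal → K ≤ H → K = ⊥ := fun K hK e => by
    by_contra h2
    exact hH (by rw [← (hc K hK h2).1, sup_eq_right.2 e])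
  have : Nontrivial G := by
    by_contra e
    exact hH (by have := not_nontrivial_iff_subsingleton.1 e; exact Subsingleton.elim _ _)
  obtain ⟨p, K, hp, hK, hK0, hKc, -, hKp, hmin⟩ := Solv.exists_normal_elementary G
  obtain ⟨h2, h3⟩ := hc K hK hK0
  have hn : ∀ L ≤ K, H ≤ normalizer (L : Set G) → L.Normal := fun L hL e =>
    Solv.normal_of_le_normalizer_of_sup_eq_top ((le_centralizer K).trans
      ((centralizer_le hL).trans (centralizer_le_normalizer _))) e h2
  have h4 : K ⊓ H = ⊥ := h1 _ (hn _ inf_le_left (Solv.le_normalizer_inf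
    le_normalizer_of_normal le_normalizer)) inf_le_right
  obtain ⟨q, Q, hq, hQ, hQ0, hQH, -, -, hQq⟩ :=
    Solv.exists_invariant_elementary_le H H le_normalizer h0
  have : Fact p.Prime := ⟨hp⟩
  have : Fact q.Prime := ⟨hq⟩
  have h5 : Q ≤ centralizer (K : Set G) := by
    by_cases e : q = p
    · subst e
      have h5 := Loc.inf_centralizer_ne_bot hQq hKp le_normalizer_of_normal hK0
      rw [← le_centralizer_iff, ← inf_eq_left]
      exact (hmin _ (hn _ inf_le_left (Solv.le_normalizer_inf le_normalizer_of_normal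
        (Solv.le_normalizer_centralizer hQ))) inf_le_left).resolve_left h5
    · exact h3 h2 h4 Q hQH hQ (IsPGroup.coprime_card_of_ne q p e _ _ hQq hKp)
  exact hQ0 (h1 Q (Solv.normal_of_le_normalizer_of_sup_eq_top
    ((le_centralizer_iff.1 h5).trans (centralizer_le_normalizer _)) hQ h2) hQH)

theorem gt {G : Type u} [Group G] [Finite G] [Group.IsSolvable G] {Z H : Subgroup G} [Z.Normal] (hH : H ≠ ⊤)
    (hZ : Z < H) :
    ∃ K : Subgroup G, K.Normal ∧ Z < K ∧ (K ⊔ H ≠ ⊤ ∨ K ⊔ H = ⊤ ∧ Z.relIndex K = H.index ∧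
      ∃ Q ≤ H, H ≤ normalizer (Q : Set G) ∧ (Z.relIndex Q).Coprime (Z.relIndex K) ∧
      ¬ ∀ x ∈ Q, ∀ k ∈ K, x * k * x⁻¹ * k⁻¹ ∈ Z) := by
  obtain ⟨G', _, f, hf, rfl⟩ : ∃ (G' : Type u) (_ : Group G') (f : G →* G'),
      Function.Surjective f ∧ f.ker = Z :=
    ⟨_, _, _, QuotientGroup.mk'_surjective Z, QuotientGroup.ker_mk' Z⟩
  have := Finite.of_surjective f hf
  have := Group.isSolvable_of_surjective hf
  have h1 : (H.map f).comap f = H := comap_map_eq_self hZ.le
  have hr : ∀ L : Subgroup G', f.ker.relIndex (L.comap f) = Nat.card L := fun L => by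
    rw [relIndex_ker, map_comap_eq_self_of_surjective hf]
  obtain ⟨K, hK, hK0, h2⟩ := gt_bot (H := H.map f) (fun e => hH (by rw [← h1, e, comap_top]))
    fun e => hZ.not_ge ((Subgroup.map_eq_bot_iff _).1 e)
  have h3 : K.comap f ⊔ H = (K ⊔ H.map f).comap f := by rw [← comap_sup_eq f _ _ hf, h1]
  refine ⟨K.comap f, hK.comap f, lt_of_le_of_ne (ker_le_comap f K) fun e => hK0 ?_,
    h2.imp (fun e e' => e ?_) fun ⟨e1, e2, Q, e3, e4, e5, e6⟩ => ⟨by rw [h3, e1, comap_top], ?_,
      Q.comap f, h1 ▸ comap_mono e3, ?_, by rwa [hr, hr], fun e => e6 fun x hx => ?_⟩⟩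
  · rw [← Subgroup.card_eq_one, ← hr, ← e, relIndex_self]
  · exact comap_injective hf (by rw [← h3, e', comap_top])
  · rw [hr, ← h1, index_comap_of_surjective _ hf]
    exact (isComplement'_of_disjoint_and_mul_eq_univ (disjoint_iff.2 e2)
      (by rw [← normal_mul, e1, coe_top])).index_eq_card.symm
  · rw [← h1]
    exact (comap_mono e4).trans (le_normalizer_comap f)
  · obtain ⟨x, rfl⟩ := hf x
    intro k hk'
    obtain ⟨k, rfl⟩ := hf k
    have h4 : f (x * k * x⁻¹ * k⁻¹) = 1 := e x hx k hk'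
    simp only [map_mul, map_inv, mul_inv_eq_one] at h4
    exact (mul_inv_eq_iff_eq_mul.1 h4).symm

theorem irr_of_mul [Fintype G] {α β : G → ℂ} (hα : IsCharacter G α) (hβ : IsCharacter G β)
    (h : IsIrrCharacter G (α * β)) : IsIrrCharacter G α := by
  obtain ⟨φ, hφ, h1⟩ := hα.isClassFunction.exists_irr_classInner_ne_zero
    (by rintro rfl; exact h.ne_zero (zero_mul _))
  obtain ⟨ρ, hρ, rfl⟩ := hα.exists_add_of_classInner_ne_zero hφ h1
  have hβ0 : β 1 ≠ 0 := fun e => h.apply_one_ne_zero (by simp [e])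
  obtain ⟨ξ, hξ, h2⟩ := (hφ.isCharacter.mul hβ).isClassFunction.exists_irr_classInner_ne_zero
    fun e => mul_ne_zero hφ.apply_one_ne_zero hβ0 (congrFun e 1)
  obtain ⟨a, ha⟩ := (hφ.isCharacter.mul hβ).exists_nat_classInner hξ.isCharacter
  obtain ⟨b, hb⟩ := (hρ.mul hβ).exists_nat_classInner hξ.isCharacter
  have h3 := h.eq_of_classInner_ne_zero hξ (by
    rw [add_mul, classInner_add_left, ha, hb, ← Nat.cast_add, Nat.cast_ne_zero]
    rw [ha, Nat.cast_ne_zero] at h2
    omega)
  have h4 := (hφ.isCharacter.mul hβ).apply_one_re_le_of_classInner_ne_zero hξ h2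
  rw [← h3] at h4
  simp only [Pi.mul_apply, Pi.add_apply, hφ.apply_one_eq_charDegree, hρ.apply_one_eq_charDegree,
    hβ.apply_one_eq_charDegree] at h4 hβ0
  have h5 : (charDegree φ + charDegree ρ) * charDegree β ≤ charDegree φ * charDegree β := by
    exact_mod_cast h4
  have h6 : charDegree ρ = 0 := by
    have := Nat.pos_of_ne_zero (Nat.cast_ne_zero.1 hβ0)
    nlinarith
  rwa [hρ.eq_zero_of_apply_one (by rw [hρ.apply_one_eq_charDegree, h6, Nat.cast_zero]), add_zero]

theorem mem_of_norm [Fintype G] (H : Subgroup G) {θ : H → ℂ} (hθ : IsCharacter H θ)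
    (h0 : θ 1 ≠ 0) {g : G} (hg : ‖indFun H θ g‖ = ‖indFun H θ 1‖) : g ∈ H := by
  by_contra hgH
  have h1 : ∀ y : G, ‖extendByZero H θ y‖ ≤ ‖θ 1‖ := by
    intro y
    by_cases hy : y ∈ H
    · rw [extendByZero_of_mem H θ hy]; exact hθ.norm_apply_le _
    · rw [extendByZero_of_not_mem H θ hy, norm_zero]; exact norm_nonneg _
  rw [indFun_apply', indFun_apply', norm_mul, norm_mul] at hg
  have h2 := mul_left_cancel₀ (norm_ne_zero_iff.2 (inv_ne_zero (card_ne_zero' H))) hg
  have h3 : ‖∑ x : G, extendByZero H θ (x * g * x⁻¹)‖ < ∑ _x : G, ‖θ 1‖ := by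
    refine (norm_sum_le _ _).trans_lt (Finset.sum_lt_sum (fun x _ => h1 _) ⟨1, by simp, ?_⟩)
    simpa [extendByZero_of_not_mem H θ hgH] using h0
  rw [h2] at h3
  simp [extendByZero_one] at h3

theorem charCenter_comp {A : Type*} [Group A] {f : A →* G} (hf : Function.Surjective f)
    (χ : G → ℂ) : charCenter (fun a => χ (f a)) = (charCenter χ).comap f := by
  ext a
  refine exists_congr fun ω => and_congr_right fun _ => ⟨fun h x => ?_, fun h x => ?_⟩
  · obtain ⟨x, rfl⟩ := hf x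
    simpa using h x
  · simpa using h (f x)

theorem mem_charCenter_iff [Finite G] {χ : G → ℂ} (hχ : IsIrrCharacter G χ) {N : Subgroup G}
    {θ : N → ℂ} (hθ : IsIrrCharacter N θ) {e : ℂ} (he : (fun n : N => χ n) = e • θ) (n : N) :
    n ∈ charCenter θ ↔ (n : G) ∈ charCenter χ := by
  have h1 : χ 1 = e * θ 1 := congrFun he 1
  have h2 : χ n = e * θ n := congrFun he n
  have h3 : ‖e‖ ≠ 0 := norm_ne_zero_iff.2 (left_ne_zero_of_mul (h1 ▸ hχ.apply_one_ne_zero))
  rw [hθ.isCharacter.mem_charCenter, hχ.isCharacter.mem_charCenter, h1, h2, norm_mul, norm_mul,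
    mul_right_inj' h3]

/-- Quasi-primitivity above the centre of the character. -/
def QP (χ : G → ℂ) : Prop := ∀ N : Subgroup G, N.Normal → charCenter χ ≤ N →
  ∃ (θ : N → ℂ) (e : ℂ), IsIrrCharacter N θ ∧ (fun n : N => χ n) = e • θ

theorem exists_of_unique [Fintype G] {χ : G → ℂ} (hχ : IsCharacter G χ) (h0 : χ 1 ≠ 0)
    (h : ∀ φ ψ, IsIrrCharacter G φ → IsIrrCharacter G ψ → classInner χ φ ≠ 0 →
      classInner χ ψ ≠ 0 → φ = ψ) : ∃ (θ : G → ℂ) (e : ℂ), IsIrrCharacter G θ ∧ χ = e • θ := by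
  obtain ⟨φ, hφ, h1⟩ := hχ.isClassFunction.exists_irr_classInner_ne_zero
    (by rintro rfl; exact h0 rfl)
  obtain ⟨m, hm, e⟩ := hχ.exists_nat_coeff
  refine ⟨φ, m ⟨φ, hφ⟩, hφ, e.trans (Finset.sum_eq_single _ (fun ψ _ hψ => ?_) (by simp))⟩
  rw [← hm, of_not_not fun e => hψ (Subtype.ext (h _ _ ψ.2 hφ e h1)), zero_smul]

theorem eq_of_smul [Fintype G] {χ θ φ : G → ℂ} {e : ℂ} (hθ : IsIrrCharacter G θ)
    (he : χ = e • θ) (hφ : IsIrrCharacter G φ) (h : classInner χ φ ≠ 0) : φ = θ := by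
  rw [he, classInner_smul_left] at h
  exact (hθ.eq_of_classInner_ne_zero hφ (right_ne_zero_of_mul h)).symm

variable {A : Type*} [Group A] {f : A →* G}

theorem QP.hom_comp {χ : G → ℂ} (h : QP χ) (hf : Function.Surjective f) (N : Subgroup A)
    (hN : N.Normal) (hZ : (charCenter χ).comap f ≤ N) :
    ∃ (θ : N → ℂ) (e : ℂ), IsIrrCharacter N θ ∧ (fun n : N => χ (f n)) = e • θ := by
  obtain ⟨θ, e, hθ, he⟩ := h (N.map f) (hN.map f hf)
    (by rw [← map_comap_eq_self_of_surjective hf (charCenter χ)]; exact map_mono hZ)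
  exact ⟨_, e, hθ.comp_of_surjective _ (f.subgroupMap_surjective N),
    funext fun n => congrFun he (f.subgroupMap N n)⟩

theorem QP.comp {χ : G → ℂ} (h : QP χ) (hf : Function.Surjective f) : QP fun a => χ (f a) :=
  fun N hN hZ => h.hom_comp hf N hN (charCenter_comp hf χ ▸ hZ)

theorem QP.of_comp [Finite A] {χ : G → ℂ} (hχ : IsIrrCharacter G χ) (hf : Function.Surjective f)
    (h : QP fun a => χ (f a)) : QP χ := fun N hN hZ => by
  have := Finite.of_surjective f hf
  have := Fintype.ofFinite N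
  have := Fintype.ofFinite (N.comap f)
  obtain ⟨θ, e, hθ, he⟩ := h (N.comap f) (hN.comap f) (charCenter_comp hf χ ▸ comap_mono hZ)
  have hs := f.subgroupComap_surjective_of_surjective N hf
  refine exists_of_unique (hχ.isCharacter.restrict N) hχ.apply_one_ne_zero fun φ ψ hφ hψ e1 e2 => ?_
  rw [← CharDeep.classInner_comp_of_surjective _ hs] at e1 e2
  have h1 := (eq_of_smul hθ he (hφ.comp_of_surjective _ hs) e1).trans
    (eq_of_smul hθ he (hψ.comp_of_surjective _ hs) e2).symm
  ext n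
  obtain ⟨n, rfl⟩ := hs n
  exact congrFun h1 n

section
variable [Finite A] {K : Subgroup G} [K.Normal] {θ : K → ℂ} {π : A →* G} {ι : K →* A}
  {τ β : A → ℂ} {lam : π.ker →* ℂˣ} (h : IsCover K θ π ι τ lam) (hθ : IsIrrCharacter K θ)
  (hβ : IsIrrCharacter A β) (h1 : ∀ n : K, β (ι n) = β 1)
include h hβ h1

theorem comap_le (h2 : ∀ (z : π.ker) (x : A), β (z * x) = (lam z : ℂ)⁻¹ * β x) :
    K.comap π ≤ charCenter β := by
  rw [← h.range_sup_ker, sup_le_iff]
  refine ⟨?_, fun z hz => ⟨_, inv_ne_zero (lam ⟨z, hz⟩).ne_zero, h2 ⟨z, hz⟩⟩⟩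
  rintro _ ⟨n, rfl⟩
  exact charKer_le_charCenter _ (hβ.isCharacter.mem_charKer.2 (h1 n))

include hθ in
theorem QP.cover {χ : G → ℂ} (hq : QP χ) (hZ : charCenter χ ≤ K) (h2 : K.comap π ≤ charCenter β)
    (h3 : ∀ x, χ (π x) = β x * τ x) : QP β := fun N hN hle => by
  have := Fintype.ofFinite N
  obtain ⟨η, e, hη, he⟩ := hq.hom_comp h.surj N hN ((comap_mono hZ).trans (h2.trans hle))
  have hr : ι.range ≤ N := le_sup_left.trans (h.range_sup_ker.le.trans (h2.trans hle))
  have := h.normal_range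
  have hτ := h.τ_char.restrict N
  have hτ' : IsIrrCharacter (ι.range.subgroupOf N) fun n => τ (n : N) :=
    isIrr_subOf hr (h.isIrr_res_range hθ)
  have h4 : ∀ φ, IsIrrCharacter N φ → classInner (fun n : N => β n) φ ≠ 0 →
      (∀ n ∈ ι.range.subgroupOf N, φ n = φ 1) ∧ (φ * fun n : N => τ n) = η := fun φ hφ e => by
    have h4 : ∀ n ∈ ι.range.subgroupOf N, φ n = φ 1 := fun n ⟨k, hk⟩ =>
      (hβ.isCharacter.restrict N).apply_eq_of_classInner_ne_zero hφ e (by
        rw [← show ι k = n from hk]; exact h1 k)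
    have h5 := gallagher_irr' _ hτ hτ' hφ h4
    refine ⟨h4, eq_of_smul hη he h5 ?_⟩
    obtain ⟨ρ, hρ, e'⟩ := (hβ.isCharacter.restrict N).exists_add_of_classInner_ne_zero hφ e
    obtain ⟨b, hb⟩ := (hρ.mul hτ).exists_nat_classInner h5.isCharacter
    rw [show (fun n : N => χ (π n)) = (φ + ρ) * fun n : N => τ n from
      funext fun n => by rw [h3, ← e']; rfl, add_mul, classInner_add_left, h5.classInner_self, hb]
    exact_mod_cast (by omega : 1 + b ≠ 0)
  exact exists_of_unique (hβ.isCharacter.restrict N) hβ.apply_one_ne_zero fun φ ψ hφ hψ e1 e2 =>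
    gallagher_inj' _ hτ hτ' hφ (h4 φ hφ e1).1 hψ (h4 ψ hψ e2).1
      ((h4 φ hφ e1).2.trans (h4 ψ hψ e2).2.symm)

end

theorem not_induced (n : ℕ) : ∀ (G : Type u) [Group G] [Fintype G] [Group.IsSolvable G]
    (χ : G → ℂ), IsIrrCharacter G χ → QP χ → (charCenter χ).index = n → ∀ H : Subgroup G, H ≠ ⊤ →
    ∀ ψ : H → ℂ, IsCharacter H ψ → indFun H ψ ≠ χ := by
  induction n using Nat.strong_induction_on with
  | _ n ih =>
  intro G _ _ _ χ hχ hq hn H hH ψ hψ e
  classical
  set Z := charCenter χ with hZ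
  have := hχ.isClassFunction.normal_charCenter
  have hψi := isIrr_of_isIrr_indFun H hψ (e ▸ hχ)
  have hdeg : charDegree χ = H.index * charDegree ψ := charDegree_eq_of_apply_one (by
    rw [← e, indFun_one, hψ.apply_one_eq_charDegree, Nat.cast_mul])
  have hZH : Z < H := by
    refine lt_of_le_of_ne (fun z hz => mem_of_norm H hψ hψi.apply_one_ne_zero ?_) fun e' => ?_
    · rw [e]; exact hχ.isCharacter.mem_charCenter.1 hz
    · have h1 := hχ.charDegree_sq_le_index H e'.ge
      have h2 := hψi.charDegree_pos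
      have h3 := one_lt_index_of_ne_top hH
      rw [hdeg] at h1
      nlinarith [Nat.le_mul_of_pos_right H.index h2]
  obtain ⟨K, hK, hZK, hcase⟩ := gt hH hZH
  obtain ⟨θ, c, hθ, hc⟩ := hq K hK hZK.le
  have hc0 : c ≠ 0 := left_ne_zero_of_mul ((show χ 1 = c * θ 1 from congrFun hc 1) ▸
    hχ.apply_one_ne_zero)
  have hinv : ∀ g, conjN K g θ = θ := fun g => smul_right_injective _ hc0 (by
    simp only [← conjN_smul, ← hc, conjN_res K hχ.isClassFunction])
  obtain ⟨Γ, _, _, π, ι, τ, lam, h⟩ := exists_isCover K hθ hinv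
  have := Fintype.ofFinite Γ
  have : Group.IsSolvable Γ := by
    have : Group.IsSolvable π.ker := Group.isSolvable_of_comm fun a b =>
      Subtype.ext (mem_center_iff.1 (h.ker_le b.2) a)
    exact Group.isSolvable_of_ker_le_range π.ker.subtype π (by simp)
  obtain ⟨β, hβ, h1, h2, h3⟩ := h.exists_mul hθ hχ (by
    rw [hc, classInner_smul_left, hθ.classInner_self, mul_one]; exact hc0)
  have h4 := comap_le h hβ h1 h2
  have hqβ := hq.cover h hθ hβ h1 hZK.le h4 h3
  have hlt : (charCenter β).index < n := by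
    have h5 := index_antitone h4
    rw [index_comap_of_surjective _ h.surj] at h5
    exact h5.trans_lt (hn ▸ index_strictAnti hZK)
  have hrn := h.normal_range
  have hτ := h.isIrr_τ hθ
  have hχπ : (fun x => χ (π x)) = β * τ := funext h3
  have hχi := hχ.comp_of_surjective π h.surj
  have hτr := h.isIrr_res_range hθ
  have hrK : ι.range ≤ K.comap π := le_sup_left.trans h.range_sup_ker.le
  have hβr : ∀ x ∈ ι.range, β x = β 1 := by rintro _ ⟨k, rfl⟩; exact h1 k
  rcases hcase with hA | ⟨hB, hI, Q, hQH, hQn, hcop, hQ⟩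
  · have e' := (indFun_indFun_of_le H (K ⊔ H) le_sup_right ψ).trans e
    have hψ' := isCharacter_indFun _ (isCharacter_subOf H (K ⊔ H) hψ)
    generalize indFun (H.subgroupOf (K ⊔ H)) _ = ψ' at e' hψ'
    set U := (K ⊔ H).comap π
    have hrU : ι.range ≤ U := hrK.trans (comap_mono le_sup_left)
    have e1 := indFun_comap π h.surj _ ψ' U (fun u => ψ' (π.subgroupComap _ u))
      (fun _ => Iff.rfl) fun _ => rfl
    rw [e'] at e1
    have hξ := isIrr_of_isIrr_indFun U (hψ'.comp (π.subgroupComap _)) (e1 ▸ hχi)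
    have hτU := isIrr_subOf hrU hτr
    obtain ⟨γ, hγ, hγ1, hγ2⟩ := gallagher_surj' (ι.range.subgroupOf U) (h.τ_char.restrict U) hτU hξ (by
      obtain ⟨ν, hν, h5⟩ := exists_irr_under (ι.range.subgroupOf U) hξ
      have h6 := classInner_comp_ne_zero_of_constituent (ι.range.subgroupOf U).subtype
        (hχi.isCharacter.restrict U) hξ (by
          rw [← classInner_indFun_right U _ hχi.isClassFunction, e1, hχi.classInner_self]
          exact one_ne_zero) hν.isCharacter h5
      rwa [eq_of_smul (e := β 1) hτU (funext fun n =>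
        (h3 _).trans (congrArg (· * _) (hβr _ n.2))) hν h6] at h5)
    have e2 : indFun U γ * τ = β * τ := by
      rw [← hχπ, ← e1, hγ2]
      exact (indFun_mul_res U γ hτ.isClassFunction).symm
    refine ih _ hlt Γ β hβ hqβ rfl U (fun e3 => hA (comap_injective h.surj e3)) γ hγ.isCharacter
      (gallagher_inj' ι.range h.τ_char hτr (irr_of_mul (isCharacter_indFun U hγ.isCharacter)
        h.τ_char (e2 ▸ hχπ ▸ hχi)) (fun x hx => indFun_apply_eq_of_normal U γ _ hrU
          (fun m hm => hγ1 ⟨m, hrU hm⟩ hm) hx) hβ hβr e2)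
  set U := H.comap π
  have e1 := indFun_comap π h.surj _ ψ U (fun u => ψ (π.subgroupComap _ u))
    (fun _ => Iff.rfl) fun _ => rfl
  rw [e] at e1
  have hξ := hψ.comp (π.subgroupComap H)
  obtain ⟨β', hβ', hβ1⟩ := hβ.exists_quotient ι.range hβr
  let f := (QuotientGroup.mk' ι.range).comp U.subtype
  have hf : Function.Surjective f := fun y => by
    obtain ⟨y, rfl⟩ := QuotientGroup.mk_surjective y
    obtain ⟨k, hk, x, hx, e2⟩ := mem_sup_of_normal_left.1 (hB.ge (mem_top (π y)))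
    refine ⟨⟨(ι ⟨k, hk⟩)⁻¹ * y, ?_⟩, ?_⟩
    · rw [mem_comap, map_mul, map_inv, h.π_ι, ← e2, inv_mul_cancel_left]; exact hx
    · simp [f, (QuotientGroup.eq_one_iff _).2 (show ι ⟨k, hk⟩ ∈ ι.range from ⟨_, rfl⟩)]
  have e2 : β = fun x => β' (QuotientGroup.mk' ι.range x) := funext fun x => (hβ1 x).symm
  have e3 : (fun u : U => β u) = fun u => β' (f u) := funext fun x => (hβ1 x).symm
  have hβU : IsIrrCharacter U fun u : U => β u := e3 ▸ hβ'.comp_of_surjective f hf
  have hs := QuotientGroup.mk'_surjective ι.range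
  have hqU : QP fun u : U => β u := e3 ▸ (QP.of_comp hβ' hs (e2 ▸ hqβ)).comp hf
  have hiU : (charCenter fun u : U => β u).index < n := by
    rwa [e3, charCenter_comp hf, index_comap_of_surjective _ hf,
      ← index_comap_of_surjective _ hs, ← charCenter_comp hs, ← e2]
  have hZθ : Z.subgroupOf K ≤ charCenter θ := fun k hk => (mem_charCenter_iff hχ hθ hc k).2 hk
  have hτU := h.τ_char.restrict U
  have e4 : ((fun u : U => conj (τ u)) * fun u => ψ (π.subgroupComap H u)) = fun u : U => β u := by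
    refine eq_of_constituent_of_re_le (hτU.conj.mul hξ) hβU ?_ ?_
    · rw [mul_comm, classInner_mul_left]
      have h5 := classInner_indFun_left U (fun u => ψ (π.subgroupComap H u)) hχi.isClassFunction
      rw [e1, hχi.classInner_self] at h5
      simp only [Complex.conj_conj, mul_comm (τ _), ← h3]
      exact h5 ▸ one_ne_zero
    · have h5 := hθ.charDegree_sq_le_index _ hZθ
      have h6 := h3 1
      have h7 := hθ.charDegree_pos
      rw [← relIndex, hI] at h5
      simp only [Pi.mul_apply, OneMemClass.coe_one, map_one, h.τ_one, hχ.apply_one_eq_charDegree,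
        hθ.apply_one_eq_charDegree, hψ.apply_one_eq_charDegree, hβ.apply_one_eq_charDegree,
        map_natCast] at h6 ⊢
      have h8 : charDegree χ = charDegree β * charDegree θ := by exact_mod_cast h6
      have h9 : charDegree θ * charDegree ψ ≤ charDegree β := by
        refine Nat.le_of_mul_le_mul_right ?_ h7
        rw [← h8, hdeg]
        nlinarith [Nat.zero_le (charDegree ψ)]
      exact_mod_cast h9
  have hτi : IsIrrCharacter U fun u : U => τ u := by
    simpa using (irr_of_mul hτU.conj hξ (e4 ▸ hβU)).conj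
  let N := (Q.comap π).subgroupOf U
  have : N.Normal := (normal_subgroupOf_iff_le_normalizer (comap_mono hQH)).2
    ((comap_mono hQn).trans (le_normalizer_comap π))
  obtain ⟨ν, hν, h5⟩ := exists_irr_under N hτi
  by_cases hνi : ∀ g, conjN N g ν = ν
  swap
  · obtain ⟨T, δ, hT, -, hδ, e5⟩ := exists_indFun_of_not_invariant N hτi hν h5 hνi
    refine ih _ hiU U _ hβU hqU rfl T hT _ (hδ.isCharacter.conj.mul (hξ.restrict T)) ?_
    refine (indFun_mul_res T _ hξ.isClassFunction).trans (Eq.trans ?_ e4)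
    rw [indFun_conj, e5]
    rfl
  have h6 := res_eq_smul_of_invariant N hτi hν hνi h5
  have hZτ : Z.comap π ≤ charCenter τ := fun z hz => by
    have h7 := h.inv_mul_mem_ker ⟨z, hZK.le hz⟩
    have h8 := (charCenter τ).mul_mem (hτ.isCharacter.mem_charCenter (g := ι ⟨π z, hZK.le hz⟩).2 (by
      rw [h.τ_ι, h.τ_one]; exact hθ.isCharacter.mem_charCenter.1 (hZθ hz)))
      ⟨_, (lam ⟨_, h7⟩).ne_zero, h.τ_mul ⟨_, h7⟩⟩
    rwa [mul_inv_cancel_left] at h8
  have h7 : charDegree ν ∣ Z.relIndex Q := by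
    have h7 := hν.charDegree_dvd_index_of_le_charCenter (((Z.comap π).subgroupOf U).subgroupOf N)
      fun x hx => (mem_charCenter_iff hτi hν h6 x).2 (hτU.mem_charCenter.2
        (hτ.isCharacter.mem_charCenter.1 (hZτ hx)))
    rwa [← relIndex, relIndex_subgroupOf (comap_mono hQH), relIndex_comap,
      map_comap_eq_self_of_surjective h.surj] at h7
  have h8 : charDegree ν ∣ Z.relIndex K :=
    (charDegree_dvd_mul_index N hν hτi h5).1.trans (by
      rw [show charDegree (fun u : U => τ u) = charDegree θ from charDegree_eq_of_apply_one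
        (h.τ_one.trans hθ.apply_one_eq_charDegree)]
      exact hθ.charDegree_dvd_index_of_le_charCenter _ hZθ)
  have h9 := le_charCenter_of_res_eq_smul N hτU hν.isCharacter (by
    rw [hν.apply_one_eq_charDegree, Nat.eq_one_of_dvd_coprimes hcop h7 h8, Nat.cast_one]) h6
  refine hQ fun x hx k hk => ?_
  obtain ⟨x, rfl⟩ := h.surj x
  have h10 := hτ.isCharacter.mem_charKer.1 (hτ.isCharacter.commutator_mem_charKer
    (hτ.isCharacter.mem_charCenter.2 (hτU.mem_charCenter.1 (h9 (x := ⟨x, hQH hx⟩) hx)))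
    (ι ⟨k, hk⟩))
  rw [h.conj_ι, ← map_inv ι, ← map_mul ι, h.τ_ι, h.τ_one] at h10
  exact (mem_charCenter_iff hχ hθ hc _).1 (hθ.isCharacter.mem_charCenter.2 (congrArg _ h10))

end Cfsg.Agent.CH.Berger
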