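import Cfsg.Agent.CH.Dl1

/-! Derived lengths of stabilisers: the definitions shared by the later files. -/

set_option autoImplicit false

namespace Cfsg.Agent.CH.Kc

open Subgroup Reg

/-- Bound for the derived length of a solvable completely reducible group on `n` vectors. -/
def lam (n : ℕ) : ℕ :=
  if n ≤ 2 then 0 else if n ≤ 3 then 1 else if n ≤ 8 then 2 else if n ≤ 63 then 4
  else if n ≤ 4095 then 6 else 8

/-- Completely reducible action. -/
def CR (G V : Type) [Group G] [AddCommGroup V] [DistribMulAction G V] : Prop :=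
  ∀ U : AddSubgroup V, Inv G U → U ≠ ⊤ → ∃ M, MinInv G M ∧ ¬ M ≤ U

/-- Pairwise inequivalent vectors whose stabilisers have bounded derived length. -/
def Sta (G V : Type) [Group G] [MulAction G V] {a : ℕ} (cost : Fin a → ℕ) : Prop :=
  ∃ y : Fin a → V, (∀ k l, ∀ g : G, g • y k = y l → k = l) ∧
    ∀ k, ds (MulAction.stabilizer G (y k)) (cost k) ≤ aK G V

/-- Pairwise inequivalent colourings of the cosets of `H` of bounded cost. -/
def Tr {G : Type} [Group G] (H : Subgroup G) {a b : ℕ} (ca : Fin a → ℕ) (cb : Fin b → ℕ) : Prop :=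
  ∃ c : Fin b → G ⧸ H → Fin a, (∀ i j, ∀ g : G, (∀ ω, c j (g • ω) = c i ω) → i = j) ∧
    ∀ i ω, ca (c i ω) ≤ cb i ∧
      ds (Pres G (c i)) (cb i - ca (c i ω)) ≤ MulAction.stabilizer G ω

end Cfsg.Agent.CH.Kc
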