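import Cfsg.Agent.CH.Dl2

/-! Derived lengths of small solvable linear and primitive groups. -/

set_option autoImplicit false

namespace Cfsg.Agent.CH.Kc

open Subgroup Reg
open scoped IsMulCommutative commutatorElement

theorem lam_spec (n : ℕ) : (n ≤ 2 ∧ lam n = 0) ∨ (n = 3 ∧ lam n = 1) ∨
    (4 ≤ n ∧ n ≤ 8 ∧ lam n = 2) ∨ (9 ≤ n ∧ n ≤ 63 ∧ lam n = 4) ∨
    (64 ≤ n ∧ n ≤ 4095 ∧ lam n = 6) ∨ (4096 ≤ n ∧ lam n = 8) := by
  unfold lam
  split_ifs <;> omega

theorem lam_mono {a b : ℕ} (h : a ≤ b) : lam a ≤ lam b := by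
  have := lam_spec a
  have := lam_spec b
  omega

theorem lam_imp {a t : ℕ} (ha : 2 ≤ a) (ht : 2 ≤ t) (h : a ^ t ≤ 4095 ^ 2) :
    lam t + 1 + lam a ≤ lam (a ^ t) := by
  have k : ∀ A T : ℕ, 0 < A → A ≤ a → T ≤ t → A ^ T ≤ a ^ t := fun A T h0 h1 h2 =>
    (Nat.pow_le_pow_left h1 T).trans (Nat.pow_le_pow_right (by omega) h2)
  have h1 := k 2 2 (by norm_num)
  have h2 := k 2 4 (by norm_num)
  have h3 := k 2 9 (by norm_num)
  have h4 := k 2 64 (by norm_num)
  have h5 := k 3 2 (by norm_num)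
  have h6 := k 3 4 (by norm_num)
  have h7 := k 3 9 (by norm_num)
  have h8 := k 9 2 (by norm_num)
  have h9 := k 9 4 (by norm_num)
  have h10 := k 9 9 (by norm_num)
  have h11 := k 64 2 (by norm_num)
  have h12 := k 64 4 (by norm_num)
  have h13 := k 4096 2 (by norm_num)
  clear k
  generalize a ^ t = x at *
  norm_num at h1 h2 h3 h4 h5 h6 h7 h8 h9 h10 h11 h12 h13 h
  have := lam_spec x
  rcases lam_spec a with h0 | h0 | h0 | h0 | h0 | h0 <;>
    rcases lam_spec t with h0' | h0' | h0' | h0' | h0' | h0' <;> omega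

theorem lam_prim {e x : ℕ} (he : 2 ≤ e) (h3 : 3 ^ e ≤ x) (h4 : e = 3 → 64 ≤ x)
    (h : x ≤ 4095 ^ 2) : e ^ 2 ≤ 4095 ^ 2 ∧ 1 ≤ lam (e ^ 2) ∧ lam (e ^ 2) + 2 ≤ lam x := by
  have h1 : e ≤ 15 := by
    by_contra h1
    have := (Nat.pow_le_pow_right (by norm_num) (show 16 ≤ e by omega)).trans h3
    omega
  have := lam_spec x
  have := lam_spec (e ^ 2)
  interval_cases e <;> norm_num at * <;> omega

theorem ds_conj {G : Type*} [Group G] {k : ℕ} {d : G} (hd : d ∈ ds (⊤ : Subgroup G) k) (g : G) :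
    g * d * g⁻¹ ∈ ds (⊤ : Subgroup G) k :=
  ds_mem (MulAut.conj g).toMonoidHom (fun _ _ => mem_top _) hd

theorem core_fix {G : Type} [Group G] {H : Subgroup G} (ω : G ⧸ H) :
    H.normalCore ≤ MulAction.stabilizer G ω := fun _ hg => by
  rw [H.normalCore_eq_ker] at hg
  exact mem_aK.1 hg ω

/-- The inductive statement. -/
def DL (n : ℕ) : Prop :=
  ∀ (G V : Type) [Group G] [Finite G] [AddCommGroup V] [Finite V] [Nontrivial V]
    [DistribMulAction G V] [FaithfulSMul G V], Nat.card G < n → Group.IsSolvable G → Irr G V →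
    Nat.card V ≤ 4095 ^ 2 → ds (⊤ : Subgroup G) (lam (Nat.card V)) ≤ ⊥

section
variable {n : ℕ} (hn : DL n) {G V : Type} [Group G] [Finite G] [Group.IsSolvable G]
  [AddCommGroup V] [Finite V] [DistribMulAction G V]
include hn

theorem DL.irr (hc : (aK G V).index < n) (hI : Irr G V) (hV : Nat.card V ≤ 4095 ^ 2) :
    ds (⊤ : Subgroup G) (lam (Nat.card V)) ≤ aK G V := by
  rcases subsingleton_or_nontrivial V with h | h
  · exact fun g _ => mem_aK.2 fun v => Subsingleton.elim _ _
  letI := rangeAct G V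
  let f := MulAction.toPermHom G V
  haveI : Finite f.range := Finite.of_surjective _ f.rangeRestrict_surjective
  have h := hn f.range V (by rwa [index_ker] at hc)
    (Group.isSolvable_of_surjective f.rangeRestrict_surjective)
    (fun U hU => hI U fun a x hx => hU ⟨f a, a, rfl⟩ x hx) hV
  exact fun g hg => congrArg Subtype.val
    (mem_bot.1 (h (ds_mem f.rangeRestrict (fun _ _ => mem_top _) hg)))

theorem DL.min (hc : Nat.card G < n) {M : AddSubgroup V} (hM : MinInv G M)
    (hV : Nat.card M ≤ 4095 ^ 2) {g : G} (hg : g ∈ ds (⊤ : Subgroup G) (lam (Nat.card M))) :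
    ∀ z ∈ M, g • z = z := by
  letI := subAct G M hM.1
  exact fun z hz => congrArg Subtype.val (mem_aK.1 (hn.irr (V := M)
    ((Nat.le_of_dvd Nat.card_pos (index_dvd_card _)).trans_lt hc) (irr_sub hM) hV hg) ⟨z, hz⟩)

theorem DL.cr (hc : Nat.card G < n) (hS : CR G V) (hV : Nat.card V ≤ 4095 ^ 2) :
    ds (⊤ : Subgroup G) (lam (Nat.card V)) ≤ aK G V := by
  let S : AddSubgroup V :=
    { carrier := {z | ∀ g ∈ ds (⊤ : Subgroup G) (lam (Nat.card V)), g • z = z}
      add_mem' := fun {a b} ha hb x hx => by rw [smul_add, ha x hx, hb x hx]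
      zero_mem' := fun x _ => smul_zero _
      neg_mem' := fun {a} ha x hx => by rw [smul_neg, ha x hx] }
  by_cases h : S = ⊤
  · exact fun g hg => mem_aK.2 fun v => (h ▸ AddSubgroup.mem_top v : v ∈ S) g hg
  obtain ⟨M, hM, hMS⟩ := hS S (fun a v hv g hg => by
    have := hv _ (ds_conj hg a⁻¹)
    rwa [inv_inv, mul_smul, mul_smul, inv_smul_eq_iff] at this) h
  have h1 : Nat.card M ≤ Nat.card V := AddSubgroup.card_le_card_addGroup M
  exact absurd (fun z hz g hg => hn.min hc hM (h1.trans hV) (ds_anti _ (lam_mono h1) hg) z hz) hMS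

omit [AddCommGroup V] [Finite V] [DistribMulAction G V] in
theorem DL.prim (hc : Nat.card G ≤ n) {H : Subgroup G} (hH : IsCoatom H)
    (ht : H.index ≤ 4095 ^ 2) : ds (⊤ : Subgroup G) (lam H.index + 1) ≤ H.normalCore := by
  let π := QuotientGroup.mk' H.normalCore
  have hd : Nat.card (G ⧸ H.normalCore) ∣ Nat.card G := Subgroup.card_quotient_dvd_card _
  have hH' := SolvStr.isCoatom_map_mk' hH H.normalCore_le
  obtain ⟨N, _, _, hN0, hinf, hcent, hNH, hirr⟩ := exists_min_normal hH' (normalCore_map_eq_bot H)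
  letI := conjAct N
  have hidx : (H.map π).index = H.index := SolvStr.index_map_mk' H.normalCore_le
  have hk : aK (G ⧸ H.normalCore) (Additive N) = centralizer (N : Set _) :=
    Subgroup.ext fun _ => mem_aK_conj N
  have hNc : N ≤ centralizer (N : Set _) := le_centralizer N
  have h3 : Nat.card (Additive N) ≤ H.index := (card_le_index hinf).trans_eq hidx
  have h := hn.irr (G := G ⧸ H.normalCore) (V := Additive N) (by
    refine lt_of_lt_of_le ?_ ((Nat.le_of_dvd Nat.card_pos hd).trans hc)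
    rw [hk, ← (centralizer (N : Set _)).card_mul_index]
    exact lt_mul_of_one_lt_left (Nat.pos_of_ne_zero index_ne_zero_of_finite)
      ((one_lt_card_iff_ne_bot _).2 fun e => hN0 (eq_bot_iff.2 (e ▸ hNc))))
    (fun U hU => irr_conj hirr U fun a => hU a) (h3.trans ht)
  have h4 : centralizer (N : Set _) ≤ N := fun g hg => by
    obtain ⟨t, h5, k, h6, rfl⟩ := hNH g
    have h7 : k ∈ centralizer (N : Set _) ⊓ H.map π :=
      ⟨(mul_mem_cancel_left (hNc h5)).1 hg, h6⟩
    rw [hcent, mem_bot] at h7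
    rwa [h7, mul_one]
  have h5 := ds_step (((ds_anti _ (lam_mono h3)).trans h).trans (hk.trans_le h4))
    (ds_one fun x hx y hy => hNc hy x hx)
  exact fun g hg => (QuotientGroup.eq_one_iff g).1
    (mem_bot.1 (h5 (ds_mem π (fun _ _ => mem_top _) hg)))

end

theorem DL.step {n : ℕ} (hn : DL n) : DL (n + 1) := by
  intro G V _ _ _ _ _ _ _ hc hG hI hV0
  have hc' : Nat.card G ≤ n := by omega
  obtain ⟨U, F, -, hmax, hB, hS⟩ := exists_St3 (G := G)
  haveI := hS.un
  haveI := hS.fn
  haveI : IsMulCommutative U := ⟨⟨fun a b => Subtype.ext (hS.cm (hS.le b.2) a.2).eq⟩⟩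
  by_cases hblock : ∃ κ ∈ KR V U, κ ≠ 0 ∧ ¬ Function.Injective κ
  · obtain ⟨κ, h1, h2, h3⟩ := hblock
    obtain ⟨H, e, hH, he0, hee, heH, heG⟩ := exists_block hI h1 h2 h3
    haveI : Fintype (G ⧸ H) := Fintype.ofFinite _
    have hlt : Nat.card H < Nat.card G := by
      by_contra h
      exact hH.1 (Subgroup.eq_top_of_le_card H (not_lt.1 h))
    have hW := block_min hI e hee heH heG
    have hcard := card_block hI e he0 hee heH heG
    have ht : 2 ≤ H.index := one_lt_index_of_ne_top hH.1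
    have ha : 2 ≤ Nat.card e.range := (AddSubgroup.one_lt_card_iff_ne_bot _).2
      fun h => he0 (AddMonoidHom.range_eq_bot_iff.1 h)
    rw [hcard] at hV0 ⊢
    have h4 := (col hI e he0 hee heH heG (κ := Unit) (fun _ => 0) (fun _ => zero_mem _)
      (fun _ _ _ _ _ => rfl)).2 (fun _ => lam (Nat.card e.range))
      (lam H.index + 1 + lam (Nat.card e.range)) (fun _ => ()) (fun _ g hg z hz => by
        obtain ⟨h5, h6⟩ := ds_sub inf_le_left hg
        exact hn.min (hlt.trans_le hc') hW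
          ((Nat.le_self_pow (by omega) _).trans hV0) (ds_mono le_top _ h6) z hz)
      fun ω => ⟨by omega, by
        rw [Nat.add_sub_cancel]
        exact ((ds_mono le_top _).trans (hn.prim hc' hH
          ((Nat.lt_pow_self ha).le.trans hV0))).trans (core_fix ω)⟩
    exact ((ds_anti _ (lam_imp ha ht hV0)).trans (ds_mono (fun g _ => by simp) _)).trans h4
  obtain ⟨K, _, _, _, ι, hι⟩ := exists_Sc (V := V) (N := U) fun κ h3 h4 =>
    by_contra fun h5 => hblock ⟨κ, h3, h4, h5⟩
  haveI := Fintype.ofFinite K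
  obtain ⟨p, _, ⟨f, hf⟩, hp, hq⟩ := FiniteField.card' K
  rw [← Nat.card_eq_fintype_card, PNat.mk_coe] at hq
  haveI : Module.Finite K V := Module.Finite.of_finite
  have hV := Module.natCard_eq_pow_finrank (K := K) (V := V)
  have hd : 0 < Module.finrank K V := Module.finrank_pos
  have hs := index_le hS hι hp hq
  have hu := card_dvd hι
  have hq1 : 1 < Nat.card K := Finite.one_lt_card
  have hs' : 2 ^ (centralizer (U : Set G)).index ≤ Nat.card K :=
    hq ▸ (Nat.pow_le_pow_right two_pos hs).trans (Nat.pow_le_pow_left hp.two_le _)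
  have hU1 : ds U 1 ≤ ⊥ := ds_one fun x hx y hy => (hS.cm (hS.le hy) hx).eq
  have hqV : Nat.card K ≤ Nat.card V := hV ▸ Nat.le_self_pow hd.ne' _
  by_cases hFU : F ≤ U
  · have hA : centralizer (U : Set G) ≤ U := (centralizer_le hFU).trans hS.self
    by_cases h3 : Nat.card V ≤ 3
    · have h4 : (centralizer (U : Set G)).index = 1 := by
        have := index_ne_zero_of_finite (H := centralizer (U : Set G))
        by_contra h
        have := (Nat.pow_le_pow_right two_pos
          (show 2 ≤ (centralizer (U : Set G)).index by omega)).trans hs'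
        omega
      rw [index_eq_one] at h4
      rw [h4] at hA
      by_cases h2 : Nat.card V ≤ 2
      · rw [show Nat.card K - 1 = 1 by omega, Nat.dvd_one, card_eq_one] at hu
        exact (ds_le _ _).trans (hA.trans_eq hu)
      · rw [show lam (Nat.card V) = 1 by rw [lam, if_neg h2, if_pos h3]]
        exact (ds_mono hA 1).trans hU1
    · exact (ds_anti _ (lam_mono (show 4 ≤ _ by omega))).trans
        (ds_step ((ds_cent hS hι).trans hA) hU1)
  obtain ⟨e, -, he2, hed, hr, hlt, N, _, _, _, hN, -, hCF, hcr⟩ := prim0 hS hι hmax hB hFU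
  letI := conjAct N
  have hr' : ∀ r, r.Prime → r ∣ e → r < Nat.card K := fun r h1 h2 => by
    have := Nat.le_of_dvd (by omega) ((hr r h1 h2).trans hu)
    omega
  have hqe : Nat.card K ^ e ≤ Nat.card V := hV ▸ Nat.pow_le_pow_right (by omega) hed
  obtain ⟨h1, h2, h3⟩ := lam_prim he2 ((Nat.pow_le_pow_left (by
      have := (Nat.minFac_prime (show e ≠ 1 by omega)).two_le
      have := hr' _ (Nat.minFac_prime (show e ≠ 1 by omega)) e.minFac_dvd
      omega) _).trans hqe)
    (by
      rintro rfl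
      exact (Nat.pow_le_pow_left (hr' 3 Nat.prime_three dvd_rfl) 3).trans hqe) hV0
  have hN' : Nat.card (Additive N) = e ^ 2 := hN
  have h4 := hn.cr (G := G ⧸ U) (V := Additive N) (hlt.trans_le hc') hcr (hN' ▸ h1)
  rw [hN'] at h4
  have h5 : ds (⊤ : Subgroup G) (lam (e ^ 2)) ≤ F := le_trans (le_inf
    (fun g hg => (mem_aK_conj N).1 (h4 (ds_mem (QuotientGroup.mk' U) (fun _ _ => mem_top _) hg)))
    ((ds_anti _ h2).trans (ds_cent hS hι))) hCF
  exact (ds_anti _ h3).trans (ds_step h5 (ds_step (a := 1) (commutator_le.2 hS.comm) hU1))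

theorem dl (n : ℕ) : DL n := by
  induction n with
  | zero => intro G V _ _ _ _ _ _ _ hc; omega
  | succ n ih => exact ih.step

theorem dl_cr {G V : Type} [Group G] [Finite G] [Group.IsSolvable G] [AddCommGroup V] [Finite V]
    [DistribMulAction G V] (hS : CR G V) (hV : Nat.card V ≤ 4095 ^ 2) :
    ds (⊤ : Subgroup G) (lam (Nat.card V)) ≤ aK G V := (dl _).cr (Nat.lt_succ_self _) hS hV

theorem dprim {G : Type} [Group G] [Finite G] [Group.IsSolvable G] {H : Subgroup G}
    (hH : IsCoatom H) (ht : H.index ≤ 4095 ^ 2) :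
    ds (⊤ : Subgroup G) (lam H.index + 1) ≤ H.normalCore := (dl _).prim le_rfl hH ht

end Cfsg.Agent.CH.Kc
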