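import Cfsg.Agent.CH.Dl2
import Cfsg.Agent.S3360

/-! Derived lengths of stabilisers: the primitive case. -/

set_option autoImplicit false
set_option linter.style.haveILetI false

namespace Cfsg.Agent.CH.Kc

open Subgroup Reg
open scoped IsMulCommutative commutatorElement

/-- The derived length bound for completely reducible groups. -/
def DLCR : Prop :=
  ∀ (G V : Type) [Group G] [Finite G] [Group.IsSolvable G] [AddCommGroup V] [Finite V]
    [DistribMulAction G V], CR G V → Nat.card V ≤ 4095 ^ 2 →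
    ds (⊤ : Subgroup G) (lam (Nat.card V)) ≤ aK G V

theorem orb5 {G V : Type} [Group G] [Finite G] [MulAction G V] [Finite V] (S : Set V)
    (h : 4 * Nat.card G < S.ncard) :
    ∃ y : Fin 5 → V, (∀ k, y k ∈ S) ∧ ∀ k l, ∀ g : G, g • y k = y l → k = l := by
  classical
  haveI := Fintype.ofFinite G
  let f : V → MulAction.orbitRel.Quotient G V := Quotient.mk _
  have h1 := Finset.card_le_mul_card_image (f := f) S.toFinite.toFinset (Nat.card G)
    fun b _ => by
      obtain ⟨v, rfl⟩ := Quotient.mk_surjective b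
      rw [Nat.card_eq_fintype_card, ← Finset.card_univ]
      refine le_trans (Finset.card_le_card fun w hw => ?_)
        (Finset.card_image_le (f := fun g : G => g • v))
      obtain ⟨g, hg⟩ := Quotient.exact (Finset.mem_filter.1 hw).2
      exact Finset.mem_image.2 ⟨g, Finset.mem_univ _, hg⟩
  rw [← Set.ncard_eq_toFinset_card] at h1
  have h2 : 5 ≤ (S.toFinite.toFinset.image f).card := by
    by_contra h2
    have := h1.trans (Nat.mul_le_mul_left _ (show _ ≤ 4 by omega))
    omega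
  obtain ⟨T, hT, hT5⟩ := Finset.exists_subset_card_eq h2
  let σ := (T.equivFinOfCardEq hT5).symm
  choose y hy hy' using fun k : Fin 5 => Finset.mem_image.1 (hT (σ k).2)
  refine ⟨y, fun k => by simpa using hy k, fun k l g hg => σ.injective (Subtype.ext ?_)⟩
  rw [← hy', ← hy']
  exact (Quotient.sound ⟨g, hg⟩ : f (y l) = f (y k)).symm

theorem sta_two {G V : Type} [Group G] [AddCommGroup V] [DistribMulAction G V] [Nontrivial V]
    (h : ds (⊤ : Subgroup G) 6 ≤ ⊥) : Sta G V ![6, 6] := by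
  obtain ⟨v, hv⟩ := exists_ne (0 : V)
  refine ⟨![0, v], fun k l g => ?_, fun k => ?_⟩
  · fin_cases k <;> fin_cases l <;> simp [hv, hv.symm, smul_eq_zero_iff_eq]
  · fin_cases k <;> exact (ds_mono le_top 6).trans (h.trans bot_le)

theorem ds_gamma {G V E : Type} [Group G] [AddCommGroup V] [DistribMulAction G V]
    [FaithfulSMul G V] [Field E] [Finite E] (e : V ≃+ E)
    (h : ∀ g : G, ∃ (a : E) (σ : E ≃+* E), ∀ v : V, e (g • v) = a * σ (e v)) :
    ds (⊤ : Subgroup G) 2 ≤ ⊥ := by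
  have h0 : ∀ (g : G) (a : E) (σ : E → E), (∀ v : V, e (g • v) = a * σ (e v)) → a ≠ 0 := by
    rintro g a σ h rfl
    have := h (e.symm 1)
    rw [zero_mul, map_eq_zero_iff _ e.injective, smul_eq_zero_iff_eq,
      map_eq_zero_iff _ e.symm.injective] at this
    exact one_ne_zero this
  let L : Subgroup G :=
    { carrier := {g | ∃ a : E, ∀ v : V, e (g • v) = a * e v}
      mul_mem' := by
        rintro a b ⟨x, hx⟩ ⟨y, hy⟩
        exact ⟨x * y, fun v => by rw [mul_smul, hx, hy, mul_assoc]⟩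
      one_mem' := ⟨1, fun v => by rw [one_smul, one_mul]⟩
      inv_mem' := by
        rintro a ⟨x, hx⟩
        refine ⟨x⁻¹, fun v => ?_⟩
        rw [eq_inv_mul_iff_mul_eq₀ (h0 a x id hx), ← hx, smul_inv_smul] }
  refine ds_step (a := 1) (b := 1) (T := L) (commutator_le.2 fun g _ k _ => ?_) (ds_one ?_)
  · obtain ⟨a, σ, ha⟩ := h g
    obtain ⟨b, τ, hb⟩ := h k
    obtain ⟨i, hi⟩ := aut_pow σ.toRingHom
    obtain ⟨j, hj⟩ := aut_pow τ.toRingHom
    have hc : ∀ x, σ (τ x) = τ (σ x) := fun x => by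
      by_cases hx : x = 0
      · simp [hx]
      have e1 : τ x = x ^ j := hj x hx
      have e2 : σ x = x ^ i := hi x hx
      rw [e1, e2, map_pow, map_pow, e1, e2, ← pow_mul, ← pow_mul, mul_comm]
    have ha0 := h0 g a σ ha
    have hb0 := h0 k b τ hb
    have hτ : τ a ≠ 0 := by simpa using ha0
    refine ⟨a * σ b / (b * τ a), fun w => ?_⟩
    obtain ⟨v, rfl⟩ : ∃ v, w = k • g • v := ⟨g⁻¹ • k⁻¹ • w, by simp⟩
    rw [commutatorElement_def, mul_smul, mul_smul, mul_smul, inv_smul_smul, inv_smul_smul, ha, hb,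
      hb, ha, map_mul, map_mul, hc]
    field_simp
  · rintro x ⟨a, ha⟩ y ⟨b, hb⟩
    exact FaithfulSMul.eq_of_smul_eq_smul (α := V) fun v => e.injective (by
      rw [mul_smul, mul_smul, ha, hb, hb, ha, mul_left_comm])

theorem numA (t : ℕ) : 5 * (t + 64) ^ 8 ≤ 3 ^ (t + 62) := by
  induction t with
  | zero => norm_num
  | succ t ih =>
    have h3 : (64 * (t + 1 + 64)) ^ 8 ≤ (65 * (t + 64)) ^ 8 := Nat.pow_le_pow_left (by omega) _
    rw [mul_pow, mul_pow] at h3
    rw [show t + 1 + 62 = t + 62 + 1 from by omega, pow_succ 3]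
    omega

theorem numB (t : ℕ) : 625 * (t + 256) ^ 32 ≤ 3 ^ (t + 248) := by
  induction t with
  | zero => norm_num
  | succ t ih =>
    have h3 : (256 * (t + 1 + 256)) ^ 32 ≤ (257 * (t + 256)) ^ 32 :=
      Nat.pow_le_pow_left (by omega) _
    rw [mul_pow, mul_pow] at h3
    rw [show t + 1 + 248 = t + 248 + 1 from by omega, pow_succ 3]
    omega

section
variable {G V K : Type} [Group G] [Finite G] [Group.IsSolvable G] [AddCommGroup V] [Finite V]
  [DistribMulAction G V] [FaithfulSMul G V] [Field K] [Finite K] [Module K V] [Nontrivial V]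
  {U F : Subgroup G} [U.Normal] [F.Normal] {ι : G → K} (hS : St U F) (hc : Sc V U ι)
  (hmax : ∀ B : Subgroup G, B.Normal → B ≤ centralizer (B : Set G) → B ≤ centralizer (U : Set G) →
    B ≤ U)
  (hB : ∀ a ∈ centralizer (U : Set G), (∀ x ∈ F, ⁅a, x⁆ ∈ U) → a ∈ F)

include hS hc hB in
omit [Finite G] [Group.IsSolvable G] [Finite K] [U.Normal] [F.Normal] in
theorem fix_four {x : G} (hx : x ≠ 1) : Nat.card (Fix V x) ^ 4 ≤ Nat.card V ^ 3 := by
  have h1 : ∀ u ∈ U, u ≠ 1 → Nat.card (Fix V u) = 1 := fun u hu h => by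
    rw [AddSubgroup.card_eq_one, eq_bot_iff]
    exact fun v hv => by_contra fun h0 => h (hc.eq_one hu h0 hv)
  have h2 : ∀ x y : G, ⁅y, x⁆ ∈ U → ⁅y, x⁆ ≠ 1 → Nat.card (Fix V x) ^ 2 ≤ Nat.card V :=
    fun x y h h' => by simpa [h1 _ h h'] using card_Fix_sq (V := V) x y
  have h3 : ∀ x ∈ F, x ∉ U → Nat.card (Fix V x) ^ 2 ≤ Nat.card V := fun x hx h => by
    obtain ⟨y, hy, h'⟩ : ∃ y ∈ F, ⁅y, x⁆ ≠ 1 := by
      by_contra h'
      push Not at h'
      exact h (hS.self fun y hy => commutatorElement_eq_one_iff_mul_comm.1 (h' y hy))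
    exact h2 x y (hS.comm y hy x hx) h'
  have hV : 0 < Nat.card V := Nat.card_pos
  have h4 : ∀ a, a ^ 2 ≤ Nat.card V → a ^ 4 ≤ Nat.card V ^ 3 := fun a h =>
    calc a ^ 4 = (a ^ 2) ^ 2 := by ring
      _ ≤ Nat.card V ^ 2 := Nat.pow_le_pow_left h 2
      _ ≤ _ := Nat.pow_le_pow_right hV (by norm_num)
  by_cases hU : x ∈ U
  · rw [h1 x hU hx, one_pow]
    exact Nat.pow_pos hV
  by_cases hF : x ∈ F
  · exact h4 _ (h3 x hF hU)
  by_cases hA : x ∈ centralizer (U : Set G)
  · obtain ⟨y, hy, h'⟩ : ∃ y ∈ F, ⁅x, y⁆ ∉ U := by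
      by_contra h'
      push Not at h'
      exact hF (hB x hA h')
    have h5 := h3 ⁅y, x⁆ (by
      rw [commutatorElement_def, mul_assoc, mul_assoc, ← mul_assoc x]
      exact F.mul_mem hy (hS.fn.conj_mem _ (F.inv_mem hy) x)) fun h =>
        h' (commutatorElement_inv y x ▸ U.inv_mem h)
    calc Nat.card (Fix V x) ^ 4 = (Nat.card (Fix V x) ^ 2) ^ 2 := by ring
      _ ≤ (Nat.card V * Nat.card (Fix V ⁅y, x⁆)) ^ 2 := Nat.pow_le_pow_left (card_Fix_sq x y) 2
      _ = Nat.card V ^ 2 * Nat.card (Fix V ⁅y, x⁆) ^ 2 := by ring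
      _ ≤ Nat.card V ^ 2 * Nat.card V := Nat.mul_le_mul_left _ h5
      _ = _ := by ring
  · obtain ⟨u, hu, h'⟩ : ∃ u ∈ U, ⁅u, x⁆ ≠ 1 := by
      by_contra h'
      push Not at h'
      exact hA fun y hy => commutatorElement_eq_one_iff_mul_comm.1 (h' y hy)
    refine h4 _ (h2 x u ?_ h')
    rw [commutatorElement_def, mul_assoc, mul_assoc, ← mul_assoc x]
    exact U.mul_mem hu (hS.un.conj_mem _ (U.inv_mem hu) x)

include hS hc hmax hB in
theorem prim1_of (hD : DLCR) (hI : Irr G V) :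
    Sta G V ![6, 6] ∨ Sta G V ![7, 7, 8] ∨ Sta G V (fun _ : Fin 5 => 9) := by
  classical
  have h0 := ds_cent hS hc
  have hU1 : ds U 1 ≤ ⊥ := ds_one fun x hx y hy => (hS.cm (hS.le hy) hx).eq
  by_cases hFU : F ≤ U
  · refine .inl (sta_two ((ds_anti _ (show 1 + 1 ≤ 6 by norm_num)).trans
      (ds_step (h0.trans fun a ha => hFU (hB a ha fun x hx => ?_)) hU1)))
    rw [commutatorElement_eq_one_iff_mul_comm.2 (ha x (hFU hx)).symm]
    exact U.one_mem
  haveI : Module.Finite K V := Module.Finite.of_finite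
  obtain ⟨e, he, he2, hed, hr, -, N, _, _, _, hN, -, hCF, hcr⟩ := prim0 hS hc hmax hB hFU
  letI := conjAct N
  let π := QuotientGroup.mk' U
  have hF1 : ds F 1 ≤ U := commutator_le.2 hS.comm
  have hdl : ∀ l, e ≤ 4095 → lam (e ^ 2) ≤ l → 1 ≤ l → ds (⊤ : Subgroup G) (l + 1) ≤ U :=
    fun l h1 h2 h3 => by
      have h4 := hD (G ⧸ U) (Additive N) hcr (hN.trans_le (Nat.pow_le_pow_left h1 2))
      refine ds_step (fun g hg => hCF ⟨?_, h0 (ds_anti _ h3 hg)⟩) hF1
      exact (mem_aK_conj N).1 (h4 (ds_anti _ (show lam (Nat.card N) ≤ l from hN ▸ h2)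
        (ds_mem π (fun _ _ => mem_top _) hg)))
  have hst : ∀ l, ds (⊤ : Subgroup G) l ≤ U → ∀ v : V, v ≠ 0 →
      ds (MulAction.stabilizer G v) l ≤ aK G V := fun l h v hv g hg => by
    rw [hc.eq_one (h (ds_mono le_top l hg)) hv (ds_le _ _ hg)]
    exact one_mem _
  by_cases h7 : e ≤ 7
  · refine .inl (sta_two (ds_step (hdl 4 (by omega) ?_ (by norm_num)) hU1))
    have : e ^ 2 ≤ 63 := by nlinarith
    unfold lam
    split_ifs <;> omega
  haveI := Fintype.ofFinite K
  obtain ⟨p, _, ⟨f, hf⟩, hp, hq⟩ := FiniteField.card' K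
  rw [← Nat.card_eq_fintype_card, PNat.mk_coe] at hq
  have hV := Module.natCard_eq_pow_finrank (K := K) (V := V)
  have hs := index_le hS hc hp hq
  have hu := card_dvd hc
  have hq1 : 1 < Nat.card K := Finite.one_lt_card
  have hu' : Nat.card U < Nat.card K := by
    have := Nat.le_of_dvd (by omega) hu
    omega
  have hs' : (centralizer (U : Set G)).index ≤ Nat.card K :=
    hq ▸ hs.trans (Nat.lt_pow_self hp.one_lt).le
  obtain ⟨r, hr1, hr2⟩ := Nat.exists_prime_and_dvd (show e ≠ 1 by omega)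
  have h3 : 3 ≤ Nat.card K := by
    have := Nat.le_of_dvd Nat.card_pos (hr r hr1 hr2)
    have := hr1.two_le
    omega
  have hVe : Nat.card K ^ e ≤ Nat.card V := hV ▸ Nat.pow_le_pow_right (by omega) hed
  by_cases h63 : e ≤ 63
  · have h4 : ds (⊤ : Subgroup G) 7 ≤ U := hdl 6 (by omega) (by
      have : e ^ 2 ≤ 4095 := by nlinarith
      unfold lam
      split_ifs <;> omega) (by norm_num)
    by_cases htr : ∀ v w : V, v ≠ 0 → w ≠ 0 → ∃ g : G, g • v = w
    · haveI := Fact.mk hp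
      letI : Module (ZMod p) V := AddCommGroup.zmodModule fun v => by
        rw [← Nat.cast_smul_eq_nsmul K, CharP.cast_eq_zero, zero_smul]
      haveI : SMulCommClass G (ZMod p) V :=
        ⟨fun g c v => ZMod.map_smul (DistribSMul.toAddMonoidHom V g) c v⟩
      rcases S3360.result p inferInstance (DistribMulAction.toModuleAut (ZMod p) V (S := G))
        (fun a b h => FaithfulSMul.eq_of_smul_eq_smul (α := V) fun v =>
          LinearEquiv.congr_fun h v) htr with ⟨E, _, _, ε, h⟩ | h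
      · exact .inl (sta_two ((ds_anti _ (by norm_num)).trans (ds_gamma ε h)))
      · have h5 : 3 ^ 8 ≤ Nat.card V :=
          ((Nat.pow_le_pow_left h3 8).trans (Nat.pow_le_pow_right (by omega) (by omega))).trans hVe
        simp only [Set.mem_insert_iff, Set.mem_singleton_iff] at h
        omega
    push Not at htr
    obtain ⟨v, w, hv, hw, h⟩ := htr
    have h' : ∀ g : G, g • w ≠ v := fun g e => h g⁻¹ (inv_smul_eq_iff.2 e.symm)
    refine .inr (.inl ⟨![v, w, 0], fun k l g => ?_, fun k => ?_⟩)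
    · fin_cases k <;> fin_cases l <;> simp [hv, hw, hv.symm, hw.symm, h g, h' g, smul_eq_zero_iff_eq]
    · fin_cases k
      · exact hst 7 h4 v hv
      · exact hst 7 h4 w hw
      · exact (ds_mono le_top 8).trans ((ds_step h4 hU1).trans bot_le)
  refine .inr (.inr ?_)
  have hb : F.relIndex (centralizer (U : Set G)) ≤ e ^ 6 := by
    obtain ⟨x, hx⟩ := gen3 (fi3 _) (Nat.lt_succ_self _) inferInstance hcr
    refine (Nat.card_le_card_of_injective (fun (ω : centralizer (U : Set G) ⧸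
      F.subgroupOf (centralizer (U : Set G))) (i : Fin 3) => π ω.out • x i) fun a b h => ?_).trans ?_
    · rw [← QuotientGroup.out_eq' a, ← QuotientGroup.out_eq' b, QuotientGroup.eq, mem_subgroupOf]
      refine hCF ⟨(mem_aK_conj N).1 (mem_aK.2 (hx _ fun i => ?_)), (a.out⁻¹ * b.out).2⟩
      change π ((a.out : G)⁻¹ * b.out) • x i = x i
      rw [map_mul, map_inv, mul_smul, inv_smul_eq_iff]
      exact (congrFun h i).symm
    · rw [Nat.card_fun, Nat.card_eq_fintype_card (α := Fin 3), Fintype.card_fin]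
      change Nat.card N ^ 3 ≤ _
      rw [hN, ← pow_mul]
  have hG : Nat.card G ≤ Nat.card K ^ 2 * e ^ 8 := by
    rw [← U.card_mul_index, ← relIndex_mul_index (hS.le.trans hS.cent),
      ← relIndex_mul_relIndex U F _ hS.le hS.cent, he]
    refine (Nat.mul_le_mul hu'.le (Nat.mul_le_mul (Nat.mul_le_mul_left _ hb) hs')).trans_eq ?_
    ring
  have hG0 : 0 < Nat.card G := Nat.card_pos
  by_cases h255 : e ≤ 255
  · have h4 : ds (⊤ : Subgroup G) 9 ≤ U := hdl 8 (by omega) (by
      unfold lam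
      split_ifs <;> omega) (by norm_num)
    have h5 : 5 * Nat.card G ≤ Nat.card V := by
      obtain ⟨t, rfl⟩ := Nat.exists_eq_add_of_le' (show 64 ≤ e by omega)
      have h6 := (numA t).trans (Nat.pow_le_pow_left h3 _)
      calc 5 * Nat.card G ≤ Nat.card K ^ 2 * (5 * (t + 64) ^ 8) := by nlinarith
        _ ≤ Nat.card K ^ 2 * Nat.card K ^ (t + 62) := Nat.mul_le_mul_left _ h6
        _ = Nat.card K ^ (t + 64) := by ring
        _ ≤ _ := hVe
    have h6 : 1 < Nat.card G := by
      by_contra h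
      haveI := Finite.card_le_one_iff_subsingleton.1 (not_lt.1 h)
      exact hFU fun x _ => Subsingleton.elim 1 x ▸ U.one_mem
    obtain ⟨y, hy, hy'⟩ := orb5 (G := G) ({0}ᶜ : Set V) (by
      have := Set.ncard_add_ncard_compl ({0} : Set V)
      rw [Set.ncard_singleton] at this
      omega)
    exact ⟨y, hy', fun k => hst 9 h4 _ (hy k)⟩
  have h5 : (5 * Nat.card G) ^ 4 ≤ Nat.card V := by
    obtain ⟨t, rfl⟩ := Nat.exists_eq_add_of_le' (show 256 ≤ e by omega)
    have h6 := (numB t).trans (Nat.pow_le_pow_left h3 _)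
    calc (5 * Nat.card G) ^ 4 ≤ (5 * (Nat.card K ^ 2 * (t + 256) ^ 8)) ^ 4 :=
          Nat.pow_le_pow_left (Nat.mul_le_mul_left _ hG) _
      _ = Nat.card K ^ 8 * (625 * (t + 256) ^ 32) := by ring
      _ ≤ Nat.card K ^ 8 * Nat.card K ^ (t + 248) := Nat.mul_le_mul_left _ h6
      _ = Nat.card K ^ (t + 256) := by rw [← pow_add, show 8 + (t + 248) = t + 256 by omega]
      _ ≤ _ := hVe
  have h6 : ∀ x : G, x ≠ 1 → 5 * Nat.card G * Nat.card (Fix V x) ≤ Nat.card V := fun x hx => by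
    refine (Nat.pow_le_pow_iff_left (show 4 ≠ 0 by norm_num)).1 ?_
    rw [mul_pow]
    exact (Nat.mul_le_mul h5 (fix_four hS hc hB hx)).trans_eq (by ring)
  haveI := Fintype.ofFinite G
  haveI := Fintype.ofFinite V
  let T : Finset V := (Finset.univ.erase (1 : G)).biUnion fun x =>
    Finset.univ.filter fun v : V => x • v = v
  have h8 : 5 * T.card ≤ Nat.card V := by
    refine Nat.le_of_mul_le_mul_left ?_ hG0
    calc Nat.card G * (5 * T.card) ≤ Nat.card G * (5 * ∑ x ∈ Finset.univ.erase (1 : G),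
          (Finset.univ.filter fun v : V => x • v = v).card) := by
          gcongr
          exact Finset.card_biUnion_le
      _ = ∑ x ∈ Finset.univ.erase (1 : G), 5 * Nat.card G * Nat.card (Fix V x) := by
          rw [Finset.mul_sum, Finset.mul_sum]
          refine Finset.sum_congr rfl fun x _ => ?_
          rw [← Fintype.card_subtype, ← Nat.card_eq_fintype_card]
          change _ * (5 * Nat.card (Fix V x)) = _
          ring
      _ ≤ (Finset.univ.erase (1 : G)).card • Nat.card V :=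
          Finset.sum_le_card_nsmul _ _ _ fun x hx => h6 x (Finset.ne_of_mem_erase hx)
      _ ≤ _ := by
          rw [smul_eq_mul, Nat.card_eq_fintype_card (α := G)]
          exact Nat.mul_le_mul_right _ (Finset.card_le_univ _)
  have h9 : 5 * Nat.card G < Nat.card V :=
    (lt_self_pow₀ (by omega) (by norm_num)).trans_le h5
  obtain ⟨y, hy, hy'⟩ := orb5 (G := G) ((T : Set V)ᶜ) (by
    have := Set.ncard_add_ncard_compl (T : Set V)
    rw [Set.ncard_coe_finset] at this
    omega)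
  refine ⟨y, hy', fun k g hg => ?_⟩
  by_cases h1 : g = 1
  · rw [h1]; exact one_mem _
  exact absurd (Finset.mem_biUnion.2 ⟨g, Finset.mem_erase.2 ⟨h1, Finset.mem_univ _⟩,
    Finset.mem_filter.2 ⟨Finset.mem_univ _, ds_le _ _ hg⟩⟩ : y k ∈ T) (hy k)

end

end Cfsg.Agent.CH.Kc
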