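import Cfsg.Agent.CH.Dl2
import Cfsg.Agent.CH.Reg6

/-! Bounds for the index of the Fitting part in the odd primitive case. -/

set_option autoImplicit false

namespace Cfsg.Agent.CH.Kc

open Subgroup Reg
open scoped IsMulCommutative commutatorElement

theorem eight_le {H V : Type} [Group H] [Finite H] [AddCommGroup V] [Finite V]
    [DistribMulAction H V] (hH : Odd (Nat.card H)) (hV : Odd (Nat.card V)) (h8 : 8 ≤ Nat.card V)
    (hS : CR H V) : 8 * (aK H V).index ≤ Nat.card V ^ 2 := by
  obtain ⟨v, w, h⟩ := Reg.gen (fi _) (Nat.lt_succ_self _) hH hS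
  have one : ∀ x : V, (∀ a : H, a • x = x → ∀ y : V, a • y = y) →
      8 * (aK H V).index ≤ Nat.card V ^ 2 := fun x hx => by
    have h1 : (aK H V).index ≤ Nat.card V := by
      rw [show aK H V = MulAction.stabilizer H x from
        le_antisymm (fun g hg => mem_aK.1 hg x) fun g hg => mem_aK.2 (hx g hg),
        MulAction.index_stabilizer]
      exact Set.ncard_le_card _
    nlinarith
  have neg : ∀ x : V, -x = x → x = 0 := fun x hx =>
    eq_one_of_sq (G := Multiplicative V) hV (g := Multiplicative.ofAdd x) (by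
      rw [← ofAdd_nsmul, two_nsmul, ofAdd_eq_one, add_eq_zero_iff_eq_neg, hx])
  by_cases h1 : v = 0
  · exact one w fun a ha => h a (by rw [h1, smul_zero]) ha
  by_cases h2 : w = 0
  · exact one v fun a ha => h a ha (by rw [h2, smul_zero])
  by_cases h3 : w = v
  · exact one v fun a ha => h a ha (h3 ▸ ha)
  by_cases h4 : w = -v
  · exact one v fun a ha => h a ha (by rw [h4, smul_neg, ha])
  let s : Bool × Bool → V := fun i => if i.1 then (if i.2 then v else -v) else if i.2 then w else -w
  let n : Bool × Bool → Bool × Bool := fun i => (i.1, !i.2)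
  have hn : ∀ i, s (n i) = -s i := by rintro ⟨_ | _, _ | _⟩ <;> simp [s, n]
  have h5 : -v ≠ v := fun e => h1 (neg v e)
  have h6 : -w ≠ w := fun e => h2 (neg w e)
  have h7 : -w ≠ v := fun e => h4 (neg_eq_iff_eq_neg.1 e)
  have hs : Function.Injective s := by
    rintro ⟨_ | _, _ | _⟩ ⟨_ | _, _ | _⟩ e <;>
      simp [s, h3, h4, h5, h6, h7, h5.symm, h6.symm, h7.symm, Ne.symm h3, Ne.symm h4] at e ⊢
  let p : (Bool × Bool) × Bool → V × V := fun i => (s i.1, s (!i.1.1, i.2))
  have key : ∀ (g : H) i j, g • p i = p j → ∀ y : V, g • y = y := fun g i j e => by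
    have e1 : g • s i.1 = s j.1 := congrArg Prod.fst e
    have e2 : g • s (!i.1.1, i.2) = s (!j.1.1, j.2) := congrArg Prod.snd e
    have e3 : g • s (n i.1) = s (n j.1) := by rw [hn, hn, smul_neg, e1]
    have e4 : g • s (n (!i.1.1, i.2)) = s (n (!j.1.1, j.2)) := by rw [hn, hn, smul_neg, e2]
    have h9 : ∀ i j : (Bool × Bool) × Bool, ∃ f : Bool × Bool → Bool × Bool,
        (∀ k, f (f (f (f k))) = k) ∧ ∀ k, (k = i.1 ∧ f k = j.1) ∨
          (k = (!i.1.1, i.2) ∧ f k = (!j.1.1, j.2)) ∨ (k = n i.1 ∧ f k = n j.1) ∨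
          (k = n (!i.1.1, i.2) ∧ f k = n (!j.1.1, j.2)) := fun i j =>
      ⟨fun k => if k.1 = i.1.1 then (j.1.1, k.2 ^^ i.1.2 ^^ j.1.2) else (!j.1.1, k.2 ^^ i.2 ^^ j.2),
        by revert i j; decide⟩
    obtain ⟨f, f4, hf⟩ := h9 i j
    have h10 : ∀ k, g • s k = s (f k) := fun k => by
      rcases hf k with ⟨a, b⟩ | ⟨a, b⟩ | ⟨a, b⟩ | ⟨a, b⟩ <;> rw [b, a] <;> assumption
    have h11 : ∀ k, g • s k = s k := fun k => smul_eq_of_sq hH (by
      rw [← mul_smul]
      exact smul_eq_of_sq hH (by rw [mul_smul, mul_smul, h10, h10, h10, h10, f4]))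
    exact h g (h11 (true, true)) (h11 (false, true))
  have hp : Function.Injective p := by
    rintro ⟨i, a⟩ ⟨j, b⟩ e
    have e1 := hs (congrArg Prod.fst e)
    have e2 := congrArg Prod.snd (hs (congrArg Prod.snd e))
    exact Prod.ext e1 e2
  have := Nat.card_le_card_of_injective (fun x : ((Bool × Bool) × Bool) × (H ⧸ aK H V) =>
    x.2.out • p x.1) fun x y e => by
      have e1 : (y.2.out⁻¹ * x.2.out) • p x.1 = p y.1 := by
        rw [mul_smul, inv_smul_eq_iff]; exact e
      have e2 := key _ _ _ e1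
      refine Prod.ext (hp (e1.symm.trans (Prod.ext (e2 _) (e2 _))).symm) ?_
      rw [← QuotientGroup.out_eq' x.2, ← QuotientGroup.out_eq' y.2]
      exact (QuotientGroup.eq.2 (mem_aK.2 e2)).symm
  simpa [Nat.card_prod, sq, index] using this

section
variable {G V K : Type} [Group G] [Finite G] [AddCommGroup V] [Finite V]
  [DistribMulAction G V] [FaithfulSMul G V] [Field K] [Finite K] [Module K V] [Nontrivial V]
  {U F : Subgroup G} [U.Normal] [F.Normal] {ι : G → K} (hS : St U F) (hc : Sc V U ι)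
  (hF : F = fittingSubgroup G ⊓ centralizer (U : Set G))
  (hmax : ∀ B : Subgroup G, B.Normal → B ≤ centralizer (B : Set G) →
      B ≤ centralizer (U : Set G) → B ≤ U)
  (hB : ∀ a ∈ centralizer (U : Set G), (∀ x ∈ F, ⁅a, x⁆ ∈ U) → a ∈ F)
include hS hc hF hmax hB

theorem b_odd' (hG : Odd (Nat.card G)) (hFU : ¬ F ≤ U) {e : ℕ} (he : U.relIndex F = e ^ 2) :
    8 * F.relIndex (centralizer (U : Set G)) ≤ e ^ 4 ∧
    (e = 3 → F.relIndex (centralizer (U : Set G)) = 1) ∧
    (e = 5 → F.relIndex (centralizer (U : Set G)) ≤ 3) ∧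
    (e = 7 → F.relIndex (centralizer (U : Set G)) ≤ 9) ∧
    (e = 9 → F.relIndex (centralizer (U : Set G)) ≤ 5) := by
  haveI : Module.Finite K V := Module.Finite.of_finite
  obtain ⟨e', he', he2, -, hr, -, N, _, _, _, hN, -, hCF, hcr⟩ := prim0 hS hc hmax hB hFU
  obtain rfl : e' = e := Nat.pow_left_injective two_ne_zero (he'.symm.trans he)
  set A := centralizer (U : Set G) with hA
  have hFA : F ≤ A := hS.cent
  refine ⟨?_, ?_⟩
  · letI := conjAct N
    have hQ := odd_of_dvd (card_quotient_dvd_card U) hG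
    have hN' : Nat.card (Additive N) = e' ^ 2 := hN
    have hNo : Odd (Nat.card (Additive N)) := odd_of_dvd (card_subgroup_dvd_card N) hQ
    have h1 := eight_le (H := G ⧸ U) (V := Additive N) hQ hNo (by
      rw [hN'] at hNo ⊢
      rcases he2.eq_or_lt with rfl | h
      · exact absurd hNo (by decide)
      · nlinarith) hcr
    rw [hN', ← pow_mul, show aK (G ⧸ U) (Additive N) = centralizer (N : Set _) from
      Subgroup.ext fun _ => mem_aK_conj N,
      ← index_comap_of_surjective _ (QuotientGroup.mk'_surjective U)] at h1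
    refine le_trans (Nat.mul_le_mul_left _ ?_) h1
    refine (relIndex_le_of_le_left hCF index_ne_zero_of_finite).trans ?_
    rw [inf_relIndex_right, ← relIndex_top_right]
    exact relIndex_le_of_le_right le_top index_ne_zero_of_finite
  have hfitA : fittingSubgroup A = F.subgroupOf A := by
    rw [← comap_map_eq_self_of_injective A.subtype_injective (fittingSubgroup A),
      Solv.map_subtype_fitting, ← hF]
    rfl
  let ι' : U →* Kˣ := MonoidHom.toHomUnits
    { toFun := fun u => ι u, map_one' := hc.one, map_mul' := fun a b => hc.mul a.2 b.2 }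
  haveI : IsCyclic U := isCyclic_of_injective ι' fun a b h =>
    Subtype.ext (hc.inj a.2 b.2 (congrArg Units.val h))
  haveI : IsCyclic (U.subgroupOf A) :=
    isCyclic_of_injective (subgroupOfEquivOfLe (hS.le.trans hFA)).toMonoidHom (MulEquiv.injective _)
  have hb := bound_b (fi _) (A := A) (odd_of_dvd (card_subgroup_dvd_card A) hG) le_rfl
    (Z := U.subgroupOf A) (fun z hz => mem_center_iff.2 fun y => Subtype.ext (y.2 z hz).symm)
    (fun h => hFU fun x hx => hS.self fun y hy => by
      have : (⟨_, hFA (hS.le (hS.comm y hy x hx))⟩ : A) ∈ U.subgroupOf A := hS.comm y hy x hx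
      rw [h] at this
      exact commutatorElement_eq_one_iff_mul_comm.1 (congrArg Subtype.val (mem_bot.1 this)))
    (by rw [hfitA]; exact fun x hx y hy => hS.comm _ hx _ hy)
    (by rw [hfitA]; exact fun x _ h => hS.self fun y hy => congrArg Subtype.val (h ⟨y, hFA hy⟩ hy))
  rw [hfitA, relIndex_subgroupOf hFA, he] at hb
  obtain ⟨-, b2, b3, b4, b5⟩ := hb
  exact ⟨fun h => b2 (by rw [h]; rfl), fun h => b3 (by rw [h]; rfl), fun h => b4 (by rw [h]; rfl),
    fun h => b5 (by rw [h]; rfl)⟩

end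

end Cfsg.Agent.CH.Kc
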