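import Cfsg.Agent.CH.Dl2

/-! Odd order: the centraliser of `U` has a regular vector (`prim2'`, given the bound `b_odd` as hypothesis `bo`; helper20). -/

set_option autoImplicit false

namespace Cfsg.Agent.CH.Kc

open Subgroup Reg
open scoped commutatorElement

theorem num7 : ∀ e, 25 ≤ e → 3 * e ^ 6 ≤ 32 * 7 ^ ((e + 2) / 3) := by
  intro e
  induction e using Nat.strong_induction_on with
  | _ e ih =>
    intro h
    by_cases h1 : e < 28
    · interval_cases e <;> norm_num
    obtain ⟨f, rfl⟩ : ∃ f, e = f + 3 := ⟨e - 3, by omega⟩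
    have h2 := ih f (by omega) (by omega)
    have h3 : (8 * (f + 3)) ^ 6 ≤ (9 * f) ^ 6 := Nat.pow_le_pow_left (by omega) 6
    rw [show (f + 3 + 2) / 3 = (f + 2) / 3 + 1 by omega, pow_succ 7]
    rw [mul_pow, mul_pow] at h3
    omega

theorem num_odd {e b u q : ℕ} (ho : Odd e) (h5 : 5 ≤ e) (u0 : 0 < u) (hr : ∀ r, r.Prime → r ∣ e → r ∣ u)
    (hq : 2 * u + 1 ≤ q) (hb : 8 * b ≤ e ^ 4) (b5 : e = 5 → b ≤ 3) (b7 : e = 7 → b ≤ 9) (b9 : e = 9 → b ≤ 5) :
    3 * (e ^ 2 * b) ≤ 4 * q ^ ((e + 2) / 3) := by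
  have k : ∀ r, r ∣ u → ∀ n, (2 * r + 1) ^ n ≤ q ^ n := fun r h n =>
    Nat.pow_le_pow_left (by have := Nat.le_of_dvd u0 h; omega) n
  by_cases h : e < 25
  · obtain ⟨m, rfl⟩ := ho
    have h1 : m < 12 := by omega
    have h2 : 2 ≤ m := by omega
    interval_cases m
    · have := k 5 (hr 5 (by norm_num) (by norm_num)) 2; have := b5 rfl; norm_num at *; omega
    · have := k 7 (hr 7 (by norm_num) (by norm_num)) 3; have := b7 rfl; norm_num at *; omega
    · have := k 3 (hr 3 (by norm_num) (by norm_num)) 3; have := b9 rfl; norm_num at *; omega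
    · have := k 11 (hr 11 (by norm_num) (by norm_num)) 4; norm_num at *; omega
    · have := k 13 (hr 13 (by norm_num) (by norm_num)) 5; norm_num at *; omega
    · have := k (3 * 5) (Nat.Coprime.mul_dvd_of_dvd_of_dvd (by norm_num) (hr 3 (by norm_num) (by norm_num))
        (hr 5 (by norm_num) (by norm_num))) 5
      norm_num at *; omega
    · have := k 17 (hr 17 (by norm_num) (by norm_num)) 6; norm_num at *; omega
    · have := k 19 (hr 19 (by norm_num) (by norm_num)) 7; norm_num at *; omega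
    · have := k 7 (hr 7 (by norm_num) (by norm_num)) 7; norm_num at *; omega
    · have := k 23 (hr 23 (by norm_num) (by norm_num)) 8; norm_num at *; omega
  have p := Nat.minFac_prime (n := e) (by omega)
  have h3 : 3 ≤ e.minFac := lt_of_le_of_ne p.two_le fun c => (Nat.not_even_iff_odd.2 ho)
    (even_iff_two_dvd.2 (c ▸ Nat.minFac_dvd e))
  have h7 := (Nat.pow_le_pow_left (show 7 ≤ 2 * e.minFac + 1 by omega) _).trans
    (k _ (hr _ p (Nat.minFac_dvd e)) ((e + 2) / 3))
  have h8 := num7 e (by omega)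
  have h9 : e ^ 2 * (8 * b) ≤ e ^ 2 * e ^ 4 := Nat.mul_le_mul_left _ hb
  rw [← pow_add, mul_left_comm] at h9
  norm_num at h9
  omega

section
variable {G V K : Type} [Group G] [Finite G] [AddCommGroup V] [Finite V] [DistribMulAction G V]
  [FaithfulSMul G V] [Field K] [Finite K] [Module K V] [Nontrivial V] {U F : Subgroup G} [U.Normal] [F.Normal]
  {ι : G → K} (hS : St U F) (hc : Sc V U ι)
  (hmax : ∀ B : Subgroup G, B.Normal → B ≤ centralizer (B : Set G) → B ≤ centralizer (U : Set G) → B ≤ U)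
  (hB : ∀ a ∈ centralizer (U : Set G), (∀ x ∈ F, ⁅a, x⁆ ∈ U) → a ∈ F)
include hS hc hmax hB

theorem prim2' (hG : Odd (Nat.card G)) (hV : Odd (Nat.card V))
    (bo : ¬ F ≤ U → ∀ {e : ℕ}, U.relIndex F = e ^ 2 → 8 * F.relIndex (centralizer (U : Set G)) ≤ e ^ 4 ∧
      (e = 3 → F.relIndex (centralizer (U : Set G)) = 1) ∧ (e = 5 → F.relIndex (centralizer (U : Set G)) ≤ 3) ∧
      (e = 7 → F.relIndex (centralizer (U : Set G)) ≤ 9) ∧ (e = 9 → F.relIndex (centralizer (U : Set G)) ≤ 5)) :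
    ∃ v : V, ∀ a ∈ centralizer (U : Set G), a • v = v → a = 1 := by
  classical
  by_cases hFU : F ≤ U
  · obtain ⟨v, hv⟩ := exists_ne (0 : V)
    exact ⟨v, fun a ha h => hc.eq_one (hFU (hB a ha fun x hx => by
      rw [commutatorElement_def]
      exact mul_mem (Normal.conj_mem ‹_› x (hFU hx) a) (inv_mem (hFU hx)))) hv h⟩
  by_contra hcon
  push Not at hcon
  have := Fintype.ofFinite G
  have := Fintype.ofFinite V
  have : Module.Finite K V := Module.Finite.of_finite
  obtain ⟨e, he, e2, hd, hr, -⟩ := prim0 hS hc hmax hB hFU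
  obtain ⟨b0, b3, b5, b7, b9⟩ := bo hFU he
  set A := centralizer (U : Set G)
  set q := Nat.card K
  set d := Module.finrank K V
  set u := Nat.card U
  have q2 : 1 < q := Finite.one_lt_card
  have u0 : 0 < u := Nat.card_pos
  have cV : Nat.card V = q ^ d := Module.natCard_eq_pow_finrank
  have sq : ∀ a : G, a ^ 2 = 1 → a = 1 := fun a h => orderOf_eq_one_iff.1 (Nat.eq_one_of_dvd_coprimes
    (Nat.coprime_two_right.2 hG) (orderOf_dvd_natCard a) (orderOf_dvd_of_pow_eq_one h))
  have hq : 2 * u + 1 ≤ q := by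
    have h1 : Odd q := by
      rw [cV] at hV
      exact (Nat.odd_pow_iff (by omega)).1 hV
    have h2 : 2 * u ∣ q - 1 := Nat.Coprime.mul_dvd_of_dvd_of_dvd
      (Nat.coprime_two_left.2 (hG.of_dvd_nat (card_subgroup_dvd_card U))) (by obtain ⟨m, hm⟩ := h1; omega) (card_dvd hc)
    have := Nat.le_of_dvd (by omega) h2
    omega
  have eo : Odd e := (hG.of_dvd_nat ((index_dvd_card (U.subgroupOf F)).trans (card_subgroup_dvd_card F))).of_dvd_nat
    (by rw [show (U.subgroupOf F).index = e ^ 2 from he]; exact dvd_pow_self e two_ne_zero)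
  have pw : ∀ x ∈ A, ∃ k, Nat.card (Fix V x) = q ^ k := fun x hx => ⟨_, Module.natCard_eq_pow_finrank (K := K) (V :=
    ({ Fix V x with smul_mem' := fun κ v hv => (hc.lin x hx κ v).trans (congrArg _ hv) } : Submodule K V))⟩
  have f3 : ∀ x ∈ F, x ∉ U → Nat.card (Fix V x) ≤ q ^ (d / 3) := fun x hx n => by
    obtain ⟨y, hy, h⟩ : ∃ y ∈ F, ⁅y, x⁆ ≠ 1 := by
      by_contra h
      push Not at h
      exact n (hS.self fun y hy => commutatorElement_eq_one_iff_mul_comm.1 (h y hy))
    have h1 := card_Fix_cube (V := V) (MonoidHom.toHomUnits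
      { toFun := fun u : U => ι u, map_one' := hc.one, map_mul' := fun a b => hc.mul a.2 b.2 })
      (fun z v => hc.act z z.2 v) hc.lin (hS.cent hx) (hS.cent hy) (hS.comm y hy x hx) fun c => h (sq _ c)
    obtain ⟨k, hk⟩ := pw x (hS.cent hx)
    rw [hk, cV, ← pow_mul, Nat.pow_le_pow_iff_right q2] at h1
    exact hk ▸ Nat.pow_le_pow_right q2.le (by omega)
  have f2 : ∀ x ∈ A, x ∉ U → Nat.card (Fix V x) ≤ q ^ (2 * d / 3) := fun x hx n => by
    by_cases h : x ∈ F
    · exact (f3 x h n).trans (Nat.pow_le_pow_right q2.le (by omega))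
    obtain ⟨y, hy, h⟩ : ∃ y ∈ F, ⁅x, y⁆ ∉ U := by
      by_contra h'
      push Not at h'
      exact h (hB x hx h')
    have h1 := (card_Fix_sq (V := V) x y).trans (Nat.mul_le_mul_left _ (f3 _ (by
      rw [← commutatorElement_inv, inv_mem_iff, commutatorElement_def]
      exact mul_mem (Normal.conj_mem ‹_› y hy x) (inv_mem hy)) (by rwa [← commutatorElement_inv, inv_mem_iff])))
    obtain ⟨k, hk⟩ := pw x hx
    rw [hk, cV, ← pow_mul, ← pow_add, Nat.pow_le_pow_iff_right q2] at h1
    exact hk ▸ Nat.pow_le_pow_right q2.le (by omega)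
  let S : Finset G := Finset.univ.filter fun x => x ∈ A ∧ x ∉ U
  have mS : ∀ x, x ∈ S ↔ x ∈ A ∧ x ∉ U := fun x => by simp [S]
  have UA : U ≤ A := hS.le.trans hS.cent
  have cS : S.card + u = u * (e ^ 2 * F.relIndex A) := by
    have h1 := (U.subgroupOf A).card_mul_index
    rw [Nat.card_congr (subgroupOfEquivOfLe UA).toEquiv] at h1
    rw [← he, relIndex_mul_relIndex U F A hS.le hS.cent, relIndex, h1,
      Nat.subtype_card (p := (· ∈ A)) (Finset.univ.filter (· ∈ A)) (by simp),
      show u = (Finset.univ.filter (· ∈ U)).card from Nat.subtype_card _ (by simp), ← Finset.card_union_of_disjoint]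
    · congr 1
      ext x
      simp only [Finset.mem_union, mS, Finset.mem_filter, Finset.mem_univ, true_and]
      exact ⟨fun h => h.elim (·.1) (UA ·), fun h => (em (x ∈ U)).symm.imp_left fun n => ⟨h, n⟩⟩
    · exact Finset.disjoint_left.2 fun x h1 h2 => ((mS x).1 h1).2 (Finset.mem_filter.1 h2).2
  have low : 2 * q ^ d ≤ ∑ x ∈ S, Nat.card (Fix V x) := by
    have h1 : ∀ v : V, 2 ≤ (S.filter fun x => x • v = v).card := fun v => by
      obtain ⟨a, ha, n, h⟩ : ∃ a ∈ A, a ∉ U ∧ a • v = v := by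
        by_cases h : v = 0
        · obtain ⟨x, hx, n⟩ := SetLike.not_le_iff_exists.1 hFU
          exact ⟨x, hS.cent hx, n, by rw [h, smul_zero]⟩
        · obtain ⟨a, ha, h1, h2⟩ := hcon v
          exact ⟨a, ha, fun c => h2 (hc.eq_one c h h1), h1⟩
      refine Finset.one_lt_card.2 ⟨a, Finset.mem_filter.2 ⟨(mS _).2 ⟨ha, n⟩, h⟩, a⁻¹, Finset.mem_filter.2
        ⟨(mS _).2 ⟨inv_mem ha, by rwa [inv_mem_iff]⟩, inv_smul_eq_iff.2 h.symm⟩, fun c => n ?_⟩
      rw [sq a (by rw [pow_two]; nth_rewrite 1 [c]; exact inv_mul_cancel a)]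
      exact one_mem _
    calc 2 * q ^ d = ∑ _v : V, 2 := by rw [← cV, Finset.sum_const, Finset.card_univ, Nat.card_eq_fintype_card, smul_eq_mul, mul_comm]
      _ ≤ ∑ v : V, (S.filter fun x => x • v = v).card := Finset.sum_le_sum fun v _ => h1 v
      _ = _ := by
        simp only [Finset.card_filter]
        rw [Finset.sum_comm]
        refine Finset.sum_congr rfl fun x _ => ?_
        rw [← Finset.card_filter, Nat.subtype_card (Finset.univ.filter fun v : V => x • v = v) (by simp [mem_Fix])]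
  by_cases e3 : e = 3
  · have h1 := b3 e3
    have h2 := low.trans (Finset.sum_le_card_nsmul S _ _ fun x hx =>
      f3 x (relIndex_eq_one.1 h1 ((mS x).1 hx).1) ((mS x).1 hx).2)
    rw [h1, e3] at cS
    have h3 : q ^ (d / 3) * q ^ 2 ≤ q ^ d := pow_add q _ _ ▸ Nat.pow_le_pow_right q2.le (by omega)
    have h4 : 0 < q ^ (d / 3) := pow_pos (by omega) _
    rw [smul_eq_mul, show S.card = 8 * u by omega] at h2
    have h5 : q ^ (d / 3) * q ^ 2 ≤ q ^ (d / 3) * (4 * u) := by nlinarith
    have := Nat.le_of_mul_le_mul_left h5 h4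
    nlinarith
  have e5 : 5 ≤ e := by obtain ⟨m, hm⟩ := eo; omega
  have h0 := num_odd eo e5 u0 hr hq b0 b5 b7 b9
  generalize e ^ 2 * F.relIndex A = n at cS h0
  let T := S.filter fun x => q ^ (d / 2) < Nat.card (Fix V x)
  have cT : T.card * u ≤ S.card := by
    rw [show u = (Finset.univ.filter (· ∈ U)).card from Nat.subtype_card _ (by simp), ← Finset.card_product]
    refine Finset.card_le_card_of_injOn (fun p => p.1 * p.2) (fun p hp => ?_) fun p hp r hr (h : p.1 * p.2 = r.1 * r.2) => ?_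
    · have h1 := Finset.mem_product.1 hp
      have h2 := (mS _).1 (Finset.mem_filter.1 h1.1).1
      have h3 := (Finset.mem_filter.1 h1.2).2
      exact (mS _).2 ⟨mul_mem h2.1 (UA h3), by rw [mul_mem_cancel_right h3]; exact h2.2⟩
    · have h1 := Finset.mem_product.1 hp
      have h2 := Finset.mem_product.1 hr
      have h3 : p.1 = r.1 := by
        by_contra n
        obtain ⟨a1, a2⟩ := Finset.mem_filter.1 h1.1
        obtain ⟨a3, a4⟩ := Finset.mem_filter.1 h2.1
        have h4 := card_mul_card_le (Fix V p.1) (Fix V r.1)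
        rw [(AddSubgroup.eq_bot_iff_forall (Fix V p.1 ⊓ Fix V r.1)).2 fun v hv => by_contra fun c => n (inv_mul_eq_one.1 (hc.eq_one (by
          rw [show p.1⁻¹ * r.1 = p.2 * r.2⁻¹ by rw [inv_mul_eq_iff_eq_mul, ← mul_assoc, h, mul_inv_cancel_right]]
          exact mul_mem (Finset.mem_filter.1 h1.2).2 (inv_mem (Finset.mem_filter.1 h2.2).2)) c (by
          rw [mul_smul, mem_Fix.1 hv.2, inv_smul_eq_iff, mem_Fix.1 hv.1]))), AddSubgroup.card_bot, mul_one] at h4
        obtain ⟨k, hk⟩ := pw _ ((mS _).1 a1).1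
        obtain ⟨l, hl⟩ := pw _ ((mS _).1 a3).1
        rw [hk, Nat.pow_lt_pow_iff_right q2] at a2
        rw [hl, Nat.pow_lt_pow_iff_right q2] at a4
        rw [hk, hl, cV, ← pow_add, Nat.pow_le_pow_iff_right q2] at h4
        omega
      exact Prod.ext h3 (mul_left_cancel (h3 ▸ h))
  have up : ∑ x ∈ S, Nat.card (Fix V x) ≤ S.card * q ^ (d / 2) + T.card * q ^ (2 * d / 3) := by
    rw [← Finset.sum_filter_add_sum_filter_not S fun x => q ^ (d / 2) < Nat.card (Fix V x), add_comm]
    refine add_le_add ((Finset.sum_le_card_nsmul _ _ _ fun x hx => not_lt.1 (Finset.mem_filter.1 hx).2).trans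
      (Nat.mul_le_mul_right _ (Finset.card_filter_le _ _))) (Finset.sum_le_card_nsmul _ _ _ fun x hx => ?_)
    have := (mS x).1 (Finset.mem_filter.1 hx).1
    exact f2 x this.1 this.2
  obtain ⟨m, rfl⟩ : ∃ m, n = m + 1 := ⟨n - 1, by rcases n with _ | n; · omega
                                                 · rfl⟩
  have c1 : S.card = m * u := by rw [mul_add, mul_comm u m] at cS; omega
  have c2 : T.card ≤ m := Nat.le_of_mul_le_mul_right (c1 ▸ cT) u0
  have c3 : q ^ (d / 2) * q ≤ q ^ (2 * d / 3) := pow_succ q _ ▸ Nat.pow_le_pow_right q2.le (by omega)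
  have c4 : q ^ (2 * d / 3) * q ^ ((e + 2) / 3) ≤ q ^ d := pow_add q _ _ ▸ Nat.pow_le_pow_right q2.le (by omega)
  have c5 : 0 < q ^ (2 * d / 3) := pow_pos (by omega) _
  rw [c1] at up
  generalize q ^ (2 * d / 3) = J at *
  generalize q ^ (d / 2) = I at *
  have c6 : 2 * (m * u * I) ≤ m * J := by
    calc 2 * (m * u * I) = m * (I * (2 * u)) := by ring
      _ ≤ m * J := Nat.mul_le_mul_left _ ((Nat.mul_le_mul_left _ (by omega)).trans c3)
  have c7 := Nat.mul_le_mul_right J c2
  have c8 := Nat.mul_le_mul_left J h0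
  nlinarith

end

end Cfsg.Agent.CH.Kc
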