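import Cfsg.Agent.CH.Dl3
import Cfsg.Agent.CH.Reg6

/-! Derived lengths of stabilisers: reductions. -/

set_option autoImplicit false

namespace Cfsg.Agent.CH.Kc

open Subgroup Reg
open scoped IsMulCommutative commutatorElement

section
variable {G V : Type} [Group G] [AddCommGroup V] [DistribMulAction G V]

theorem sta_nf {a : ℕ} {c : Fin a → ℕ}
    (h : letI := rangeAct G V; Sta (MulAction.toPermHom G V).range V c) : Sta G V c := by
  letI := rangeAct G V
  let f := MulAction.toPermHom G V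
  obtain ⟨y, h1, h2⟩ := h
  exact ⟨y, fun k l g hg => h1 k l (f.rangeRestrict g) hg, fun k g hg => mem_aK.2 fun v =>
    mem_aK.1 (h2 k (ds_mem f.rangeRestrict (fun x hx => hx) hg)) v⟩

theorem sta_tr [Finite G] [FaithfulSMul G V] (hI : Irr G V) {H : Subgroup G} (e : V →+ V)
    (he0 : e ≠ 0) (hee : ∀ x, e (e x) = e x) (heH : ∀ h ∈ H, ∀ x, e (h • x) = h • e x)
    (heG : ∀ g, g ∉ H → ∀ x, e (g • e x) = 0) {a b : ℕ} {ca : Fin a → ℕ} {cb : Fin b → ℕ}
    (hW : Inv H e.range) (h : letI := subAct H e.range hW; Sta H e.range ca) (ht : Tr H ca cb) :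
    Sta G V cb := by
  letI := subAct H e.range hW
  haveI : Fintype (G ⧸ H) := Fintype.ofFinite _
  obtain ⟨y, h1, h2⟩ := h
  obtain ⟨c, h3, h4⟩ := ht
  obtain ⟨h5, h6⟩ := col hI e he0 hee heH heG (fun k => (y k : V)) (fun k => (y k).2)
    fun k l h hh h7 => h1 k l ⟨h, hh⟩ (Subtype.ext h7)
  refine ⟨fun i => ∑ ω : G ⧸ H, ω.out • (y (c i ω) : V), fun i j g hg => h3 i j g (h5 _ _ g hg),
    fun i => (h6 ca (cb i) (c i) (fun k g hg z hz => ?_) (h4 i)).trans bot_le⟩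
  obtain ⟨h7, h8⟩ := ds_sub inf_le_left hg
  exact congrArg Subtype.val (mem_aK.1 (h2 k ((ds_mono · _ h8) fun x hx =>
    Subtype.ext (mem_subgroupOf.1 hx).2)) ⟨z, hz⟩)

theorem genv [Finite V] (hS : CR G V) (m : ℕ)
    (h : ∀ (M : AddSubgroup V) (hM : MinInv G M), M ≠ ⊥ → letI := subAct G M hM.1
      ∃ v : M, ds (MulAction.stabilizer G v) m ≤ aK G M) :
    ∃ v : V, ds (MulAction.stabilizer G v) m ≤ aK G V := by
  obtain ⟨U, ⟨hU, v, hv, h1⟩, hmax⟩ := (Set.toFinite {U : AddSubgroup V | Inv G U ∧ ∃ v ∈ U,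
    ∀ g ∈ ds (MulAction.stabilizer G v) m, ∀ z ∈ U, g • z = z}).exists_maximal
    ⟨⊥, fun a v hv => by rw [AddSubgroup.mem_bot] at hv ⊢; rw [hv, smul_zero], 0, zero_mem _,
      fun g _ z hz => by rw [AddSubgroup.mem_bot.1 hz, smul_zero]⟩
  by_cases ht : U = ⊤
  · exact ⟨v, fun g hg => mem_aK.2 fun z => h1 g hg z (ht ▸ AddSubgroup.mem_top z)⟩
  obtain ⟨M, hM, hMU⟩ := hS U hU ht
  letI := subAct G M hM.1
  obtain ⟨w, h2⟩ := h M hM (by rintro rfl; exact hMU bot_le)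
  have hbot : U ⊓ M = ⊥ := by
    rcases hM.2 (U ⊓ M) (fun a x hx => ⟨hU a x hx.1, hM.1 a x hx.2⟩) inf_le_right with h1 | h1
    · exact h1
    · exact absurd (h1 ▸ inf_le_left) hMU
  have key : ∀ g ∈ MulAction.stabilizer G (v + w), g • v = v ∧ g • (w : V) = w := fun g hg => by
    have e1 : g • v + g • (w : V) = v + w := by rw [← smul_add]; exact hg
    have h3 : g • v - v ∈ U ⊓ M := ⟨U.sub_mem (hU g v hv) hv, by
      rw [show g • v - v = w - g • (w : V) by rw [sub_eq_sub_iff_add_eq_add, e1, add_comm]]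
      exact M.sub_mem w.2 (hM.1 g w w.2)⟩
    rw [hbot, AddSubgroup.mem_bot, sub_eq_zero] at h3
    rw [h3] at e1
    exact ⟨h3, add_left_cancel e1⟩
  refine absurd (le_sup_right.trans (hmax (y := U ⊔ M) ⟨fun a x hx => ?_, v + w,
    AddSubgroup.add_mem_sup hv w.2, fun g hg x hx => ?_⟩ le_sup_left)) hMU
  · obtain ⟨y, hy, z, hz, rfl⟩ := AddSubgroup.mem_sup.1 hx
    rw [smul_add]
    exact AddSubgroup.add_mem_sup (hU a y hy) (hM.1 a z hz)
  · obtain ⟨y, hy, z, hz, rfl⟩ := AddSubgroup.mem_sup.1 hx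
    have h3 : g • z = z := congrArg Subtype.val (mem_aK.1 (h2 (ds_mono
      (fun x hx => Subtype.ext (key x hx).2) _ hg)) ⟨z, hz⟩)
    rw [smul_add, h1 g (ds_mono (fun x hx => (key x hx).1) _ hg) y hy, h3]

theorem sta_pm [Finite G] [Finite V] [Nontrivial V] (hG : Odd (Nat.card G))
    (hV : Odd (Nat.card V)) (h : Sta G V ![1]) : Sta G V ![1, 1] := by
  obtain ⟨v, hv0, hv⟩ : ∃ v : V, v ≠ 0 ∧ ds (MulAction.stabilizer G v) 1 ≤ aK G V := by
    obtain ⟨y, -, h2⟩ := h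
    by_cases h0 : y 0 = 0
    · obtain ⟨v, hv⟩ := exists_ne (0 : V)
      exact ⟨v, hv, (ds_mono (fun g _ => by simp [h0]) 1).trans (h2 0)⟩
    · exact ⟨_, h0, h2 0⟩
  have h1 : ∀ g : G, g • v ≠ -v := fun g hg => by
    have h2 : g • v = v := smul_eq_of_sq hG (by rw [hg, smul_neg, hg, neg_neg])
    have h3 := eq_one_of_sq (G := Multiplicative V) hV (g := Multiplicative.ofAdd v) (by
      rw [← ofAdd_nsmul, two_nsmul, ofAdd_eq_one, add_eq_zero_iff_eq_neg, ← hg, h2])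
    exact hv0 h3
  refine ⟨![v, -v], fun k l g hg => ?_, fun k => ?_⟩
  · fin_cases k <;> fin_cases l
    · rfl
    · exact absurd hg (h1 g)
    · exact absurd (neg_eq_iff_eq_neg.1 ((smul_neg g v).symm.trans hg)) (h1 g)
    · rfl
  · fin_cases k
    · exact hv
    · exact (ds_mono (fun g hg => neg_injective ((smul_neg g v).symm.trans hg)) 1).trans hv

end

theorem trG {G : Type} [Group G] [Finite G] (hG : Odd (Nat.card G)) {H : Subgroup G}
    (hH : IsCoatom H) : Tr H ![1, 1] ![1] := by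
  classical
  obtain ⟨D, h1, h2⟩ := gluck (fi _) hG le_rfl hH
  have h3 : ∀ x : G, (x : G ⧸ H).out ∈ D ↔ x ∈ D := fun x => by
    obtain ⟨h, hh⟩ := QuotientGroup.mk_out_eq_mul H x
    rw [hh]
    exact ⟨fun h4 => by simpa using h1 _ h4 _ (H.inv_mem h.2), fun h4 => h1 _ h4 _ h.2⟩
  refine ⟨fun _ ω => if ω.out ∈ D then 0 else 1, fun i j _ _ => Subsingleton.elim _ _,
    fun i ω => ?_⟩
  have h4 : ∀ k : Fin 2, ![1, 1] k = 1 := by decide
  have h5 : ∀ k : Fin 1, ![1] k = 1 := by decide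
  rw [h4, h5]
  refine ⟨le_rfl, fun g hg => core_fix ω (h2 g fun x hx => ?_)⟩
  have h6 : (if ((g * x : G) : G ⧸ H).out ∈ D then (0 : Fin 2) else 1) =
    if (x : G ⧸ H).out ∈ D then 0 else 1 := hg x
  rw [h3, h3, if_pos hx] at h6
  by_contra h7
  rw [if_neg h7] at h6
  exact absurd h6 (by decide)

theorem transport {G V : Type*} [Group G] [Finite G] [AddCommGroup V] [Finite V]
    [DistribMulAction G V] [FaithfulSMul G V]
    (hcr : ∀ U : AddSubgroup V, Inv G U → ∃ W, Inv G W ∧ IsCompl U W) (m : ℕ)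
    (h : ∀ (G' V' : Type) [Group G'] [Finite G'] [AddCommGroup V'] [Finite V']
      [DistribMulAction G' V'], (G' ≃* G) → Nat.card V' = Nat.card V → CR G' V' →
      ∃ v : V', ds (MulAction.stabilizer G' v) m ≤ aK G' V') :
    ∃ v : V, ds (MulAction.stabilizer G v) m ≤ ⊥ := by
  let φ : Shrink.{0} G ≃* G := Shrink.mulEquiv
  let ψ : Shrink.{0} V ≃+ V := Shrink.addEquiv
  haveI : Finite (Shrink.{0} G) := Finite.of_equiv _ φ.symm.toEquiv
  haveI : Finite (Shrink.{0} V) := Finite.of_equiv _ ψ.symm.toEquiv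
  letI : DistribMulAction (Shrink.{0} G) (Shrink.{0} V) :=
    { smul := fun g v => ψ.symm (φ g • ψ v)
      one_smul := fun v => by change ψ.symm (φ 1 • ψ v) = v; simp
      mul_smul := fun a b v => by
        change ψ.symm (φ (a * b) • ψ v) = ψ.symm (φ a • ψ (ψ.symm (φ b • ψ v)))
        simp [mul_smul]
      smul_zero := fun a => by change ψ.symm (φ a • ψ 0) = 0; simp
      smul_add := fun a x y => by
        change ψ.symm (φ a • ψ (x + y)) = ψ.symm (φ a • ψ x) + ψ.symm (φ a • ψ y)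
        simp }
  have hs : ∀ (g : Shrink.{0} G) (v : Shrink.{0} V), ψ (g • v) = φ g • ψ v := fun g v =>
    ψ.apply_symm_apply _
  obtain ⟨v, hv⟩ := h (Shrink.{0} G) (Shrink.{0} V) φ (Nat.card_congr ψ.toEquiv) fun U hU hne => by
    obtain ⟨W, hW, h1⟩ := hcr (U.comap ψ.symm.toAddMonoidHom) fun a x hx => by
      have := hU (φ.symm a) _ hx
      change ψ.symm (φ (φ.symm a) • ψ (ψ.symm x)) ∈ U at this
      change ψ.symm (a • x) ∈ U
      simpa using this
    have hW' : Inv (Shrink.{0} G) (W.comap ψ.toAddMonoidHom) := fun a x hx => by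
      change ψ (a • x) ∈ W
      rw [hs]
      exact hW _ _ hx
    have hW0 : W.comap ψ.toAddMonoidHom ≠ ⊥ := fun h0 => hne (eq_top_iff.2 fun x _ => by
      obtain ⟨y, hy, z, hz, e⟩ := AddSubgroup.mem_sup.1 (h1.sup_eq_top ▸ AddSubgroup.mem_top (ψ x))
      have h2 : ψ.symm z ∈ W.comap ψ.toAddMonoidHom := by
        change ψ (ψ.symm z) ∈ W
        simpa using hz
      rw [h0, AddSubgroup.mem_bot, EmbeddingLike.map_eq_zero_iff] at h2
      rw [h2, add_zero] at e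
      have h3 : ψ.symm y ∈ U := hy
      simpa [e] using h3)
    obtain ⟨M, ⟨hM, hM0, hMW⟩, hmin⟩ := (Set.toFinite {M | Inv (Shrink.{0} G) M ∧ M ≠ ⊥ ∧
      M ≤ W.comap ψ.toAddMonoidHom}).exists_minimal ⟨_, hW', hW0, le_rfl⟩
    refine ⟨M, ⟨hM, fun X hX hXM => (em (X = ⊥)).imp id fun h =>
      le_antisymm hXM (hmin ⟨hX, h, hXM.trans hMW⟩ hXM)⟩, fun h => hM0 (eq_bot_iff.2 fun x hx => ?_)⟩
    have h2 : ψ x ∈ U.comap ψ.symm.toAddMonoidHom ⊓ W := ⟨by
      change ψ.symm (ψ x) ∈ U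
      simpa using h hx, hMW hx⟩
    rw [h1.inf_eq_bot, AddSubgroup.mem_bot] at h2
    simpa using h2
  refine ⟨ψ v, fun g hg => FaithfulSMul.eq_of_smul_eq_smul (α := V) fun z => ?_⟩
  have h1 := mem_aK.1 (hv (ds_mem φ.symm.toMonoidHom (fun x hx => ψ.injective (by
    rw [hs]; simpa using hx)) hg)) (ψ.symm z)
  have h2 := congrArg ψ h1
  rw [hs] at h2
  simpa using h2

end Cfsg.Agent.CH.Kc
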