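import Cfsg.Agent.CH.Dl4
import Cfsg.Agent.CH.Dl5a
import Cfsg.Agent.CH.Dl6b
import Cfsg.Agent.CH.Dl7
import Cfsg.Agent.CH.Dl8

/-! Derived lengths of stabilisers: the inductions. -/

set_option autoImplicit false

namespace Cfsg.Agent.CH.Kc

open Subgroup Reg
open scoped IsMulCommutative commutatorElement

theorem irr_ind (P : ∀ (G V : Type) [Group G] [AddCommGroup V] [DistribMulAction G V], Prop)
    (Q : ℕ → Prop) (hQ : ∀ a b, a ∣ b → Q b → Q a)
    (nf : ∀ (G V : Type) [Group G] [AddCommGroup V] [DistribMulAction G V],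
      (letI := rangeAct G V; P (MulAction.toPermHom G V).range V) → P G V)
    (imp : ∀ (G V : Type) [Group G] [Finite G] [Group.IsSolvable G] [AddCommGroup V] [Finite V]
      [DistribMulAction G V] (H : Subgroup G) (W : AddSubgroup V) (hW : Inv H W), IsCoatom H →
      Nontrivial W → Q (Nat.card G) → Q (Nat.card V) → (letI := subAct H W hW; P H W) →
      (∀ (a b : ℕ) (ca : Fin a → ℕ) (cb : Fin b → ℕ),
        (letI := subAct H W hW; Sta H W ca) → Tr H ca cb → Sta G V cb) → P G V)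
    (pr : ∀ (G V K : Type) [Group G] [Finite G] [Group.IsSolvable G] [AddCommGroup V] [Finite V]
      [DistribMulAction G V] [FaithfulSMul G V] [Field K] [Finite K] [Module K V] [Nontrivial V]
      (U F : Subgroup G) [U.Normal] [F.Normal] (ι : G → K), St U F → Sc V U ι →
      F = fittingSubgroup G ⊓ centralizer (U : Set G) →
      (∀ B : Subgroup G, B.Normal → B ≤ centralizer (B : Set G) →
        B ≤ centralizer (U : Set G) → B ≤ U) →
      (∀ a ∈ centralizer (U : Set G), (∀ x ∈ F, ⁅a, x⁆ ∈ U) → a ∈ F) → Irr G V →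
      Q (Nat.card G) → Q (Nat.card V) → P G V)
    (n : ℕ) : ∀ (G V : Type) [Group G] [Finite G] [Group.IsSolvable G] [AddCommGroup V] [Finite V]
      [Nontrivial V] [DistribMulAction G V], Nat.card G < n → Irr G V → Q (Nat.card G) →
      Q (Nat.card V) → P G V := by
  induction n with
  | zero => intro G V _ _ _ _ _ _ _ hc; omega
  | succ n ih =>
  have main : ∀ (G V : Type) [Group G] [Finite G] [Group.IsSolvable G] [AddCommGroup V] [Finite V]
      [Nontrivial V] [DistribMulAction G V] [FaithfulSMul G V], Nat.card G < n + 1 → Irr G V →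
      Q (Nat.card G) → Q (Nat.card V) → P G V := by
    intro G V _ _ _ _ _ _ _ _ hc hI hG hV
    obtain ⟨U, F, hF, hmax, hB, hS⟩ := exists_St3 (G := G)
    haveI := hS.un
    haveI := hS.fn
    haveI : IsMulCommutative U := ⟨⟨fun a b => Subtype.ext (hS.cm (hS.le b.2) a.2).eq⟩⟩
    by_cases hblock : ∃ κ ∈ KR V U, κ ≠ 0 ∧ ¬ Function.Injective κ
    · obtain ⟨κ, h1, h2, h3⟩ := hblock
      obtain ⟨H, e, hH, he0, hee, heH, heG⟩ := exists_block hI h1 h2 h3
      have hlt : Nat.card H < Nat.card G := by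
        by_contra h
        exact hH.1 (Subgroup.eq_top_of_le_card H (not_lt.1 h))
      have hW := block_min hI e hee heH heG
      letI := subAct H e.range hW.1
      haveI : Nontrivial e.range := (AddSubgroup.nontrivial_iff_ne_bot _).2
        fun h => he0 (AddMonoidHom.range_eq_bot_iff.1 h)
      exact imp G V H e.range hW.1 hH inferInstance hG hV (ih H e.range (by omega) (irr_sub hW)
        (hQ _ _ (card_subgroup_dvd_card H) hG)
        (hQ _ _ (AddSubgroup.card_addSubgroup_dvd_card _) hV))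
        fun a b ca cb => sta_tr hI e he0 hee heH heG hW.1
    obtain ⟨K, _, _, _, ι, hι⟩ := exists_Sc (V := V) (N := U) fun κ h3 h4 =>
      by_contra fun h5 => hblock ⟨κ, h3, h4, h5⟩
    exact pr G V K U F ι hS hι hF hmax hB hI hG hV
  intro G V _ _ _ _ _ _ _ hc hI hG hV
  letI := rangeAct G V
  let f := MulAction.toPermHom G V
  haveI : Finite f.range := Finite.of_surjective _ f.rangeRestrict_surjective
  haveI := Group.isSolvable_of_surjective f.rangeRestrict_surjective
  have hd : Nat.card f.range ∣ Nat.card G := card_range_dvd f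
  exact nf G V (main f.range V ((Nat.le_of_dvd Nat.card_pos hd).trans_lt hc)
    (fun U hU => hI U fun a x hx => hU ⟨f a, a, rfl⟩ x hx) (hQ _ _ hd hG) hV)

section
variable {G V : Type} [Group G] [Finite G] [Group.IsSolvable G] [AddCommGroup V] [Finite V]
  [DistribMulAction G V] (hS : CR G V)
include hS

theorem main1 : ∃ v : V, ds (MulAction.stabilizer G v) 9 ≤ aK G V := by
  refine genv hS 9 fun M hM h0 => ?_
  letI := subAct G M hM.1
  haveI := (AddSubgroup.nontrivial_iff_ne_bot M).2 h0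
  have := irr_ind (fun G V _ _ _ => Sta G V ![6, 6] ∨ Sta G V ![7, 7, 8] ∨
    Sta G V (fun _ : Fin 5 => 9)) (fun _ => True) (fun _ _ _ _ => trivial)
    (fun G V _ _ _ h => h.imp sta_nf (Or.imp sta_nf sta_nf))
    (fun G V _ _ _ _ _ _ H W hW hH _ _ _ h ht => by
      rcases h with h | h | h
      · exact Or.inr ((trA hH).imp (ht _ _ _ _ h) (ht _ _ _ _ h))
      · exact Or.inr (Or.inr (ht _ _ _ _ h (trB hH)))
      · exact Or.inr (Or.inr (ht _ _ _ _ h (trC hH))))
    (fun G V K _ _ _ _ _ _ _ _ _ _ _ U F _ _ ι h1 h2 _ h4 h5 h6 _ _ =>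
      prim1_of h1 h2 h4 h5 (fun G V _ _ _ _ _ _ => dl_cr) h6)
    _ G M (Nat.lt_succ_self _) (irr_sub hM) trivial trivial
  rcases this with ⟨y, -, h⟩ | ⟨y, -, h⟩ | ⟨y, -, h⟩
  · exact ⟨y 0, (ds_anti _ (by decide)).trans (h 0)⟩
  · exact ⟨y 0, (ds_anti _ (by decide)).trans (h 0)⟩
  · exact ⟨y 0, h 0⟩

theorem main2 (hG : Odd (Nat.card G)) (hV : Odd (Nat.card V)) :
    ∃ v : V, ds (MulAction.stabilizer G v) 1 ≤ aK G V := by
  refine genv hS 1 fun M hM h0 => ?_
  letI := subAct G M hM.1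
  haveI := (AddSubgroup.nontrivial_iff_ne_bot M).2 h0
  obtain ⟨y, -, h⟩ := irr_ind (fun G V _ _ _ => Sta G V ![1]) Odd (fun _ _ => odd_of_dvd)
    (fun G V _ _ _ h => sta_nf h)
    (fun G V _ _ _ _ _ _ H W hW hH _ h1 h2 h ht => by
      letI := subAct H W hW
      exact ht _ _ _ _ (sta_pm (odd_of_dvd (card_subgroup_dvd_card H) h1)
        (odd_of_dvd (AddSubgroup.card_addSubgroup_dvd_card _) h2) h) (trG h1 hH))
    (fun G V K _ _ _ _ _ _ _ _ _ _ _ U F _ _ ι h1 h2 h3 h4 h5 _ h6 h7 => by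
      obtain ⟨v, hv⟩ := prim2' h1 h2 h4 h5 h6 h7
        fun h _ he => b_odd' h1 h2 h3 h4 h5 h6 h he
      refine ⟨fun _ => v, fun _ _ _ _ => Subsingleton.elim _ _, fun k g hg => ?_⟩
      rw [Subsingleton.elim k 0] at hg
      rw [hv g (ds_cent h1 h2 (ds_mono le_top 1 hg)) (ds_le _ _ hg)]
      exact one_mem _)
    _ G M (Nat.lt_succ_self _) (irr_sub hM) hG
    (odd_of_dvd (AddSubgroup.card_addSubgroup_dvd_card _) hV)
  exact ⟨y 0, h 0⟩

end

end Cfsg.Agent.CH.Kc
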