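import Cfsg.Agent.CH.Low5
import Cfsg.Agent.Perm.PrimeDeg

/-! Small modular representations of groups with a self-centralizing Sylow subgroup of order `p`:
a non-trivial module of dimension at most `(p - 1) / 2` gives a map to `PGL₂` (`exists_pgl_of_small`);
a module of dimension `p + 1` of an insoluble group of degree `p` with a suitable eigenvector has the
heart of the permutation module as a constituent (`exists_pgl_of_vec`). -/

namespace Cfsg.Agent.CH.Low

open Module Polynomial Cfsg.Agent.Small Cfsg.Agent.Char Cfsg.Agent.Perm MulAction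
open scoped MatrixGroups

section
variable {k V : Type*} [Field k] [AddCommGroup V] [Module k V]
variable {G : Type*} [Group G] [Finite G] {p : ℕ} [hp : Fact p.Prime] {x : G}

theorem exists_pgl_of_jordan' [FiniteDimensional k V] [CharP k p] (ρ : Representation k G V)
    (hx : orderOf x = p) (hG : ¬ p ∣ (Subgroup.zpowers x).index) (h5 : 3 < p)
    (hd : 2 * finrank k V + 1 ≤ p) (hd' : 2 ≤ finrank k V)
    (hk : ∀ u v, (ρ x - 1) u = 0 → (ρ x - 1) v = 0 → u ≠ 0 → ∃ c : k, v = c • u) :
    ∃ φ : G →* PGL(2, AlgebraicClosure k), φ x ≠ 1 ∧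
      ∀ g, (∀ Y, ρ g * Y = Y * ρ g) → φ g = 1 := by
  classical
  have : Nontrivial V := Module.nontrivial_of_finrank_pos (R := k) (by omega)
  have hlt : ∀ n : ℕ, 0 < n → n < p → (n : k) ≠ 0 := fun n h0 h1 e =>
    Nat.not_dvd_of_pos_of_lt h0 h1 ((CharP.cast_eq_zero_iff k p n).1 e)
  set T := ρ x - 1 with hT
  have hu : ρ x = 1 + T := by rw [hT]; abel
  obtain ⟨m, v, b, hb, hm⟩ := exists_jordan (T := T) ⟨p, by
    rw [hT, sub_one_pow_char (k := k), ← map_pow, ← hx, pow_orderOf_eq_one, map_one, sub_self]⟩ hk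
  have hmd : finrank k V = m := by simpa using finrank_eq_card_basis b
  obtain ⟨F₀, t, hF₀, ht, htr⟩ := exists_sl2 b hb hm (by exact_mod_cast hlt 2 (by omega) (by omega))
  have ht0 : t ≠ 0 := by
    rintro rfl
    have h1 := hlt (m - 1) (by omega) (by omega)
    have h2 := hlt (m + 1) (by omega) (by omega)
    rw [Nat.cast_sub (by omega)] at h1
    push_cast at h1 h2
    exact mul_ne_zero (mul_ne_zero h1 (hlt m (by omega) (by omega))) h2 (by simpa using ht.symm)
  let π : Representation k G (End k V) := ρ.linHom ρ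
  have hπ : ∀ g Y, π g Y = ρ g * Y * ρ g⁻¹ := fun g Y => (mul_assoc _ _ _).symm
  have hi : ∀ g, ρ g⁻¹ * ρ g = 1 := fun g => by rw [← map_mul]; simp
  have hi' : ∀ g, ρ g * ρ g⁻¹ = 1 := fun g => by rw [← map_mul]; simp
  have hcT : Commute (ρ x⁻¹) T :=
    (((Commute.refl x).inv_left).map ρ).sub_right (Commute.one_right _)
  have hπ1 : ∀ Y, (π x - 1) Y = (T * Y - Y * T) * ρ x⁻¹ := fun Y => by
    rw [LinearMap.sub_apply, hπ, hT, End.one_apply, sub_mul, sub_mul, mul_sub, sub_mul, sub_mul,
      mul_assoc Y, hi']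
    simp
  let c : ZMod p →+* k := ZMod.castHom dvd_rfl k
  let l : k[X] := ∑ s : ZMod p, C (c s⁻¹) * (1 + X) ^ s.val
  have hl0 : l.coeff 0 = 0 := by
    simp only [l, finsetSum_coeff, coeff_C_mul, coeff_one_add_X_pow, Nat.choose_zero_right,
      Nat.cast_one, mul_one]
    rw [← map_sum, Fintype.sum_equiv (Equiv.inv _) _ (fun s => s ^ 1) (by simp),
      FiniteField.sum_pow_lt_card_sub_one _ _ (by rw [ZMod.card]; omega), map_zero]
  have hl1 : l.coeff 1 = -1 := by
    simp only [l, finsetSum_coeff, coeff_C_mul, coeff_one_add_X_pow, Nat.choose_one_right]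
    rw [Finset.sum_congr rfl (g := fun s => 1 - if s = 0 then 1 else 0) fun s _ => ?_]
    · simp
    · rw [← map_natCast c, ZMod.natCast_zmod_val, ← map_mul]
      split_ifs with h
      · simp [h]
      · simp [h]
  have hl : l = X * l.divX := by simpa [hl0] using (X_mul_divX_add l).symm
  have hL : aeval T l = ∑ s : ZMod p, c s⁻¹ • ρ (xp x s) := by
    simp only [l, map_sum, map_mul, map_pow, map_add, map_one, aeval_X, aeval_C, ← hu, xp,
      Algebra.smul_def]
  have hc : ∀ f : k[X], Commute (aeval T f) T := fun f => by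
    simpa using (Commute.all f X).map (aeval T)
  let W := aeval T (l.divX * (1 + X) ^ 2)
  have hW : W * ρ x⁻¹ * ρ x⁻¹ = aeval T l.divX := by
    simp only [W, map_mul, map_pow, map_add, map_one, aeval_X, ← hu, pow_two, mul_assoc]
    rw [← mul_assoc (ρ x) (ρ x⁻¹), hi', one_mul, hi', mul_one]
  obtain ⟨φ, h1, h2⟩ := exists_pgl_of_form (π := π) (x := x)
    (B := (LinearMap.mul k (End k V)).compr₂ (LinearMap.trace k V)) (L := aeval T l) (F := F₀ * W)
    (by omega) hx hG (fun g Y Z => by
      simp only [LinearMap.compr₂_apply, LinearMap.mul_apply', hπ]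
      rw [mul_assoc, mul_assoc, LinearMap.trace_mul_comm]
      simp only [← mul_assoc]
      rw [mul_assoc Y, hi, mul_one, mul_assoc, hi, mul_one])
    (fun Y Z => LinearMap.trace_mul_comm k Y Z) (by
      have h1 : π x - 1 = (LinearMap.mulLeft k T + LinearMap.mulRight k (-T)) *
          LinearMap.mulRight k (ρ x⁻¹) := by
        ext1 Y
        rw [hπ1]
        simp [sub_eq_add_neg, add_mul, mul_assoc, hcT.eq]
      have h2 : Commute (LinearMap.mulRight k (-T)) (LinearMap.mulRight k (ρ x⁻¹)) := by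
        ext1 Y
        simp [mul_assoc, hcT.eq]
      rw [h1, Commute.mul_pow ((LinearMap.commute_mulLeft_right _ _).add_left h2),
        Commute.add_pow_eq_zero_of_add_le_succ_of_pow_eq_zero
          (LinearMap.commute_mulLeft_right _ _) (m := m) (n := m)
          (by rw [LinearMap.pow_mulLeft, hm]; simp)
          (by rw [LinearMap.pow_mulRight, neg_pow T, hm]; simp) (by omega), zero_mul])
    (by rw [hπ1, (hc l).eq, sub_self, zero_mul]) (by
      have h1 : T * W = W * T := (hc _).symm.eq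
      rw [hπ1, hπ1, hl, map_mul, aeval_X, ← hW]
      conv_rhs => enter [1]; rw [← hF₀]
      simp only [mul_sub, sub_mul, mul_assoc, hcT.eq]
      simp only [← mul_assoc W T, ← h1, mul_assoc, ← hcT.eq])
    (by
      simp only [LinearMap.compr₂_apply, LinearMap.mul_apply']
      rw [← mul_assoc, LinearMap.trace_mul_comm, ← mul_assoc, ← map_mul, htr]
      conv_lhs => enter [1, 1, 2]; rw [hl]
      rw [mul_left_comm, coeff_X_mul]
      simp [pow_two, hl1, ht0])
    (fun n hn => ⟨c (expo hx ⟨n, hn⟩ : ZMod p), by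
      rw [hL, map_sum, Finset.smul_sum]
      refine Fintype.sum_equiv (Units.mulLeft (expo hx ⟨n, hn⟩)) _ _ fun s => ?_
      rw [map_smul, hπ, ← map_mul, ← map_mul, conj_xp_expo hx ⟨n, hn⟩, smul_smul, ← map_mul,
        Units.mulLeft_apply, mul_inv, ← mul_assoc, mul_inv_cancel₀ (Units.ne_zero _), one_mul]⟩)
  refine ⟨φ, h1, fun g hg => h2 g (LinearMap.ext fun Y => ?_)⟩
  rw [hπ, hg, mul_assoc, hi', mul_one, End.one_apply]

theorem pow_char_zero [CharP k p] (ρ : Representation k G V) (hx : orderOf x = p) : (ρ x - 1) ^ p = 0 := by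
  rw [sub_one_pow_char (k := k), ← map_pow, ← hx, pow_orderOf_eq_one, map_one, sub_self]

theorem pow_finrank_zero [FiniteDimensional k V] [CharP k p] (ρ : Representation k G V) (hx : orderOf x = p) :
    (ρ x - 1) ^ finrank k V = 0 := by
  have h1 : IsNilpotent (ρ x - 1) := ⟨p, pow_char_zero ρ hx⟩
  have h2 := LinearMap.aeval_self_charpoly (ρ x - 1)
  rwa [h1.charpoly_eq_X_pow_finrank, map_pow, aeval_X] at h2

variable {R : Type*} [CommRing R] {ι : R →+* ℂ} {red : R →+* k}

theorem ker_one [FiniteDimensional k V] [CharP k p] [Finite k] (hms : ModSys (Nat.card G) ι red)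
    (h : DefOne p x ⊥) (ρ : Representation k G V)
    (hloc : ∀ φ : End k V, (∀ g, φ * ρ g = ρ g * φ) → IsUnit φ ∨ IsUnit (1 - φ))
    (hT : (ρ x - 1) ^ (p - 1) = 0) (u v : V) (hu : (ρ x - 1) u = 0) (hv : (ρ x - 1) v = 0) (hu0 : u ≠ 0) :
    ∃ c : k, v = c • u := by
  have hlocT := tate_local ρ x h.ord h.notdvd hloc
  let τ := tateRep ρ x p
  let P' := (Subgroup.zpowers x).subgroupOf (Nx x)
  let τ' : Representation k (Nx x ⧸ P') (Tate ρ x p) :=
    QuotientGroup.lift P' τ fun u hu => tateRep_of_mem_zpowers ρ x p u hu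
  have hcard : (Nat.card (Nx x ⧸ P') : k) ≠ 0 := by
    rw [Ne, CharP.cast_eq_zero_iff k p]
    exact fun h1 => h.notdvd (h1.trans (Subgroup.relIndex_dvd_index_of_le Subgroup.le_normalizer))
  have hm' : ∀ a : Nx x ⧸ P', a ^ Nat.card G = 1 := fun a => by
    obtain ⟨a, rfl⟩ := QuotientGroup.mk_surjective a
    rw [← QuotientGroup.mk_pow, show a ^ Nat.card G = 1 from Subtype.ext (by simp)]
    rfl
  have hs := eq_bot_or_top_of_local τ' hcard fun φ hφ => hlocT φ fun a => hφ a
  have hsc := eq_smul_of_comm_of_simple τ' hms hm' hcard hs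
  have hcomm := (QuotientGroup.lift P' (expo h.ord) fun u hu => by
    obtain ⟨j, hj⟩ := hu
    rw [MonoidHom.mem_ker, expo_eq_one_iff, ← show x ^ j = u from hj]
    exact ((Commute.refl x).zpow_right j).eq).isMulCommutative_of_isCyclic_of_ker_le_center (by
      intro c hc
      obtain ⟨c, rfl⟩ := QuotientGroup.mk_surjective c
      rw [(QuotientGroup.eq_one_iff c).2 (h.mem_zpowers_of_comm ((expo_eq_one_iff h.ord c).1 hc))]
      exact Subgroup.one_mem _)
  have hmk : ∀ u : LinearMap.ker (ρ x - 1), (Submodule.Quotient.mk u : Tate ρ x p) = 0 →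
      (u : V) = 0 := fun u hu => by
    rw [Submodule.Quotient.mk_eq_zero, hT, LinearMap.range_zero] at hu
    exact hu
  rcases hs (Submodule.span k {Submodule.Quotient.mk ⟨u, hu⟩}) (fun g w hw => by
    obtain ⟨c, hc⟩ := hsc (τ' g) fun g' => by rw [← map_mul, ← map_mul, hcomm.is_comm.comm]
    rw [hc]
    exact Submodule.smul_mem _ _ hw) with h1 | h1
  · exact absurd (hmk _ (Submodule.span_singleton_eq_bot.1 h1)) hu0
  · obtain ⟨c, hc⟩ := Submodule.mem_span_singleton.1
      (h1.ge (Submodule.mem_top (x := (Submodule.Quotient.mk ⟨v, hv⟩ : Tate ρ x p))))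
    have h2 := hmk (c • ⟨u, hu⟩ - ⟨v, hv⟩) (by
      rw [Submodule.Quotient.mk_sub, Submodule.Quotient.mk_smul, hc, sub_self])
    exact ⟨c, (sub_eq_zero.1 h2).symm⟩

end

universe u

theorem exists_pgl_of_small {k : Type*} [Field k] {G : Type*} [Group G] [Finite G] [IsSimpleGroup G] {p : ℕ}
    [hp : Fact p.Prime] {x : G} [CharP k p] [Finite k] {R : Type*} [CommRing R] {ι : R →+* ℂ} {red : R →+* k}
    (hms : ModSys (Nat.card G) ι red) (h : DefOne p x ⊥) (h5 : 3 < p) {H : Subgroup G} [Fintype H]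
    (hH : (Nat.card H : k) ≠ 0) (m : ℕ) : ∀ (V : Type u) [AddCommGroup V] [Module k V] [FiniteDimensional k V]
    (ρ : Representation k G V), finrank k V = m → 0 < m → 2 * m + 1 ≤ p → ∑ g : H, ρ g = 0 →
    ∃ φ : G →* PGL(2, AlgebraicClosure k), φ x ≠ 1 := by
  induction m using Nat.strong_induction_on with | _ m ih => ?_
  intro V _ _ _ ρ hm h0 h1 hs
  by_cases hU : ∀ U : Submodule k V, (∀ g, ∀ v ∈ U, ρ g v ∈ U) → U = ⊥ ∨ U = ⊤
  · have hT := pow_finrank_zero ρ h.ord
    have h2 : 2 ≤ m := by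
      by_contra h2
      rw [hm, show m = 1 by omega, pow_one, sub_eq_zero] at hT
      have h3 := (IsSimpleGroup.eq_bot_or_eq_top_of_normal ρ.ker inferInstance).resolve_left fun e =>
        ne_one h (Subgroup.mem_bot.1 (e ▸ (hT : x ∈ ρ.ker)))
      rw [Finset.sum_congr rfl fun (g : H) _ => (h3.ge (Subgroup.mem_top (g : G)) : ρ g = 1)] at hs
      have : Nontrivial V := Module.nontrivial_of_finrank_pos (R := k) (by omega)
      rw [Finset.sum_const, Finset.card_univ, ← Nat.card_eq_fintype_card, ← Nat.cast_smul_eq_nsmul k] at hs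
      exact hH ((smul_eq_zero.1 hs).resolve_right one_ne_zero)
    obtain ⟨φ, h3, -⟩ := exists_pgl_of_jordan' ρ h.ord h.notdvd h5 (by omega) (by omega)
      (ker_one hms h ρ (fun φ hφ => by
        by_cases e : φ = 0
        · exact Or.inr (by simp [e])
        · exact Or.inl (isUnit_of_simple ρ hU (fun g => ⟨1, by simpa using hφ g⟩) e))
        (pow_eq_zero_of_le (by omega) hT))
    exact ⟨φ, h3⟩
  · push Not at hU
    obtain ⟨U, h2, h3, h4⟩ := hU
    refine ih _ (hm ▸ Submodule.finrank_lt h4) U (ρ.subrepresentation U fun g v hv => h2 g v hv) rfl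
      (Nat.pos_of_ne_zero fun e => h3 (Submodule.finrank_eq_zero.1 e)) (by have := Submodule.finrank_lt h4; omega) ?_
    ext v
    simpa using congrArg (fun f : End k V => f v) hs

theorem exists_fixed {k U : Type*} [Field k] [AddCommGroup U] [Module k U] {G : Type*} [Group G] [Finite G] {p : ℕ}
    [hp : Fact p.Prime] {x : G} [CharP k p] (σ : Representation k G U) (hx : orderOf x = p)
    (hG : ¬ p ∣ (Subgroup.zpowers x).index) {u : U} (hu : ∀ n ∈ Nx x, σ n u = u) :
    ∃ (w z : U) (c : k), c ≠ 0 ∧ (∀ g, σ g w = w) ∧ w = c • u + ∑ i ∈ Finset.range p, σ (x ^ i) z := by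
  let τ := (Representation.trivial k G k).prod σ
  have hτ : ∀ g a, τ g a = (a.1, σ g a.2) := fun g a => rfl
  let ψ : End k (k × U) := LinearMap.inr k k U ∘ₗ LinearMap.toSpanSingleton k U u ∘ₗ LinearMap.fst k k U
  have hψ : ∀ a, ψ a = (0, a.1 • u) := fun a => rfl
  obtain ⟨φ, s, h1, h2, h3, h4⟩ := exists_relTrace τ x hx hG ψ (Commute.sub_right (LinearMap.ext fun a => by
    simp only [End.mul_apply, hτ, hψ, map_smul, hu x (Subgroup.le_normalizer (Subgroup.mem_zpowers x))])
    (Commute.one_right _))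
  obtain ⟨z, hz⟩ := h4 (1, 0) (by simp [hτ])
  rw [sub_one_pow_eq_geom_sum (k := k), LinearMap.sum_apply, eq_sub_iff_add_eq,
    Finset.sum_congr (s₁ := s) rfl (g := fun _ => ((0 : k), u)) fun n hn => by simp [hτ, hψ, hu n (h3 n hn)]] at hz
  refine ⟨(φ (1, 0)).2, z.2, s.card, h2, fun g => ?_, ?_⟩
  · have := congrArg (fun f : End k (k × U) => (f (1, 0)).2) (h1 g)
    simpa [hτ] using this.symm
  · rw [← hz, add_comm]
    simp only [← map_pow, hτ, Prod.snd_add, Prod.snd_sum, Finset.sum_const, Nat.cast_smul_eq_nsmul, Prod.smul_snd]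

theorem exists_pgl_of_vec {k : Type*} [Field k] {G : Type*} [Group G] [Finite G] [IsSimpleGroup G] {p : ℕ}
    [hp : Fact p.Prime] {x : G} [CharP k p] [Finite k] {R : Type*} [CommRing R] {ι : R →+* ℂ} {red : R →+* k}
    (hms : ModSys (Nat.card G) ι red) (h : DefOne p x ⊥) (h7 : 7 ≤ p) {H : Subgroup G} [Fintype H]
    (hH : (Nat.card H : k) ≠ 0) {Ω : Type*} [Fintype Ω] [MulAction G Ω] {e : ZMod p ≃ Ω}
    (hc : ∀ j, x • e j = e (j + 1)) (hna : ¬ ∀ g : G, Aff e g) {V : Type*} [AddCommGroup V] [Module k V]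
    [FiniteDimensional k V] (ρ : Representation k G V) (hd : finrank k V = p + 1) (hs : ∑ g : H, ρ g = 0)
    {v : V} (hv : v ∉ LinearMap.range (ρ x - 1))
    (hn : ∀ n : Nx x, ρ n v = (ZMod.cast (expo h.ord n : ZMod p) : k) • v) :
    ∃ φ : G →* PGL(2, AlgebraicClosure k), φ x ≠ 1 := by
  classical
  let c : ZMod p →+* k := ZMod.castHom dvd_rfl k
  let I := permSumZero k G Ω
  let π := permRep k G Ω
  let F0 : (Ω → k) →ₗ[k] V := LinearMap.toSpanSingleton k V v ∘ₗ ∑ j, c j • LinearMap.proj (e j)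
  have hF0 : ∀ f, F0 f = (∑ j, c j * f (e j)) • v := fun f => by simp [F0, LinearMap.sum_apply, Finset.sum_smul]
  have haf : ∀ n : Nx x, ∃ b, ∀ j, (n : G) • e j = e (expo h.ord n * j + b) := fun n => by
    refine ⟨e.symm ((n : G) • e 0), fun j => ?_⟩
    have h1 := pow_smul_coord hc j.val 0
    have h2 := pow_smul_coord hc ((expo h.ord n : ZMod p) * j).val (e.symm ((n : G) • e 0))
    rw [ZMod.natCast_zmod_val, zero_add] at h1
    rw [ZMod.natCast_zmod_val, add_comm, Equiv.apply_symm_apply] at h2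
    rw [← h2, ← h1, ← mul_smul, ← mul_smul, show x ^ _ = _ from (conj_xp_expo h.ord n j).symm]
    simp [xp]
  obtain ⟨F, z, a, ha, hF, hz⟩ := exists_fixed (I.toRepresentation.linHom ρ) h.ord h.notdvd
    (u := F0 ∘ₗ I.toSubmodule.subtype) fun n hn' => LinearMap.ext fun f => by
      obtain ⟨b, hb⟩ := haf ⟨n, hn'⟩
      have h0 : ∑ j, f.1 (e j) = 0 := (e.sum_comp f.1).trans (mem_permSumZero.1 f.2)
      change ρ n (F0 fun y => f.1 (n⁻¹⁻¹ • y)) = F0 f
      rw [hF0, hF0, map_smul, hn ⟨n, hn'⟩, smul_smul, inv_inv]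
      congr 1
      rw [← (Units.mulLeft (expo h.ord ⟨n, hn'⟩)).trans (Equiv.addRight b) |>.sum_comp fun j => c j * f.1 (e j)]
      have h1 := (Units.mulLeft (expo h.ord ⟨n, hn'⟩)).trans (Equiv.addRight b) |>.sum_comp fun j => f.1 (e j)
      simp only [Equiv.trans_apply, Units.mulLeft_apply, Equiv.coe_addRight, map_add, map_mul, add_mul,
        Finset.sum_add_distrib, ← Finset.mul_sum, h0, Finset.sum_mul] at h1 ⊢
      rw [h1, mul_zero, add_zero]
      exact Finset.sum_congr rfl fun j _ => by rw [hb j]; simp only [c, ZMod.castHom_apply]; ring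
  have hF' : ∀ g f, F (I.toRepresentation g f) = ρ g (F f) := fun g f => by
    conv_lhs => rw [← hF g]
    simp [← End.mul_apply, ← map_mul]
  have fix : ∀ w : V, (∀ g, ρ g w = w) → w = 0 := fun w hw => by
    have := congrArg (fun f : End k V => f w) hs
    simp only [LinearMap.sum_apply, hw, Finset.sum_const, Finset.card_univ, ← Nat.card_eq_fintype_card,
      ← Nat.cast_smul_eq_nsmul k, LinearMap.zero_apply] at this
    exact (smul_eq_zero.1 this).resolve_left hH
  have hF1 : F ≠ 0 := by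
    rintro rfl
    obtain ⟨Z, hZ⟩ := LinearMap.exists_extend z
    let d : Ω → k := Pi.single (e 0) 1
    have hd1 : π x d = Pi.single (e 1) 1 := funext fun y => by
      change d (x⁻¹ • y) = _
      simp only [d, Pi.single_apply, inv_smul_eq_iff, hc, zero_add]
    have hm : π x d - d ∈ I.toSubmodule := mem_permSumZero.2 (by simp [hd1, d, Finset.sum_sub_distrib])
    have h1 := congrArg (fun f : I.toSubmodule →ₗ[k] V => f ⟨_, hm⟩) hz
    let b : ℕ → V := fun i => ρ (x ^ i) (Z (π (x ^ i)⁻¹ (π x d)))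
    have h2 : ∑ i ∈ Finset.range p, b i = ρ x (∑ i ∈ Finset.range p, ρ (x ^ i) (Z (π (x ^ i)⁻¹ d))) := by
      have h3 := (Finset.sum_range_succ b p).symm.trans (Finset.sum_range_succ' b p)
      rw [show b p = b 0 by simp only [b, ← h.ord ▸ pow_orderOf_eq_one x, pow_zero], add_left_inj] at h3
      rw [h3, map_sum]
      refine Finset.sum_congr rfl fun i _ => ?_
      simp only [b, ← End.mul_apply (π _), ← End.mul_apply (ρ _), ← map_mul]
      rw [pow_succ' x, mul_inv_rev, inv_mul_cancel_right]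
    have h3 : F0 (π x d - d) = v := by
      simp [hF0, hd1, d, mul_sub, Finset.sum_sub_distrib, Pi.single_apply]
    refine hv ⟨-a⁻¹ • ∑ i ∈ Finset.range p, ρ (x ^ i) (Z (π (x ^ i)⁻¹ d)), ?_⟩
    rw [map_smul, LinearMap.sub_apply, ← h2, End.one_apply, ← Finset.sum_sub_distrib, neg_smul, neg_eq_iff_eq_neg,
      inv_smul_eq_iff₀ ha, smul_neg, eq_neg_iff_add_eq_zero, add_comm, ← h3]
    refine Eq.trans ?_ h1.symm
    simp only [LinearMap.add_apply, LinearMap.smul_apply, LinearMap.sum_apply, ← hZ, b, ← map_sub]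
    rfl
  have hI : finrank k I.toSubmodule + 1 = p := by
    have h1 := LinearMap.finrank_range_add_finrank_ker (∑ y : Ω, LinearMap.proj (R := k) (φ := fun _ => k) y)
    rw [LinearMap.range_eq_top.2 fun t => ⟨Pi.single (e 0) t, by simp [LinearMap.sum_apply]⟩,
      show LinearMap.ker _ = I.toSubmodule from Submodule.ext fun f => by
        simp [I, mem_permSumZero, LinearMap.sum_apply]] at h1
    simpa [← Fintype.card_congr e, add_comm] using h1
  have h1c : (fun _ => (1 : k)) ∈ I.toSubmodule := mem_permSumZero.2 (by simp [← Fintype.card_congr e])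
  have hK : finrank k (LinearMap.ker F) ≤ 1 := by
    rcases aff_or_heart (G := G) hc (W := (LinearMap.ker F).map I.toSubmodule.subtype ⊔ Submodule.span k {fun _ => 1})
      (fun g f hf => by
        obtain ⟨_, ⟨f, hf', rfl⟩, _, h1, rfl⟩ := Submodule.mem_sup.1 hf
        obtain ⟨t, rfl⟩ := Submodule.mem_span_singleton.1 h1
        exact Submodule.add_mem_sup ⟨I.toRepresentation g⁻¹ f, by
          rw [SetLike.mem_coe, LinearMap.mem_ker, hF', hf', map_zero], funext fun y => by
            change f.1 (g⁻¹⁻¹ • y) = _; simp⟩ h1)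
      (Submodule.mem_sup_right (Submodule.mem_span_singleton_self _))
      (fun f hf => mem_permSumZero.1 ((sup_le (Submodule.map_subtype_le _ _)
        ((Submodule.span_singleton_le_iff_mem _ _).2 h1c) : _ ≤ I.toSubmodule) hf)) with h1 | h1 | h1
    · exact absurd h1 hna
    · rw [← Submodule.finrank_map_subtype_eq]
      exact (Submodule.finrank_mono (le_sup_left.trans h1.le)).trans (finrank_span_le_card _ |>.trans (by simp))
    · refine absurd (LinearMap.ext fun f => ?_) hF1
      obtain ⟨_, ⟨f', hf, rfl⟩, _, h2, h3⟩ := Submodule.mem_sup.1 (h1.ge f.2)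
      obtain ⟨t, rfl⟩ := Submodule.mem_span_singleton.1 h2
      rw [show f = f' + t • ⟨_, h1c⟩ from Subtype.ext h3.symm, map_add, hf, map_smul,
        fix (F ⟨_, h1c⟩) fun g => by rw [← hF']; rfl]
      simp
  have h1 := LinearMap.finrank_range_add_finrank_ker F
  have h2 := Submodule.finrank_quotient_add_finrank (LinearMap.range F)
  refine exists_pgl_of_small hms h (by omega) hH _ (V ⧸ LinearMap.range F)
    (ρ.quotient _ (by rintro g _ ⟨f, rfl⟩; exact ⟨_, hF' g f⟩)) rfl (by omega) (by omega) ?_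
  ext w
  simpa [LinearMap.sum_apply] using congrArg (fun f : End k V => (LinearMap.range F).mkQ (f w)) hs

end Cfsg.Agent.CH.Low
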