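import Cfsg.Agent.CH.Ito1
import Cfsg.Agent.Block.Count

/-! A modular reduction of degree `p + 1` with eigenvectors for `α` and `α⁻¹` (`exists_pgl_of_two`) and the
reduction of an irreducible character at a prescribed prime (`exists_model`). -/

namespace Cfsg.Agent.CH.Low

open Module Cfsg.Agent.Small Cfsg.Agent.Char Cfsg.Agent.Perm Cfsg.Agent.Block MulAction IsLocalRing
open scoped MatrixGroups

theorem rk_step {k V : Type*} [Field k] [AddCommGroup V] [Module k V] [FiniteDimensional k V] (T : End k V) (j : ℕ) :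
    finrank k (LinearMap.range (T ^ (j + 1))) + finrank k ↥(LinearMap.ker T ⊓ LinearMap.range (T ^ j)) =
      finrank k (LinearMap.range (T ^ j)) := by
  rw [← LinearMap.finrank_range_add_finrank_ker (T.domRestrict (LinearMap.range (T ^ j))), LinearMap.range_domRestrict,
    LinearMap.ker_domRestrict, ← Submodule.finrank_map_subtype_eq, Submodule.map_comap_subtype, inf_comm, pow_succ',
    End.mul_eq_comp, LinearMap.range_comp]

theorem exists_pgl_of_two {k : Type*} [Field k] {G : Type*} [Group G] [Finite G] [IsSimpleGroup G] {p : ℕ}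
    [hp : Fact p.Prime] {x : G} [CharP k p] [Finite k] {R : Type*} [CommRing R] {ι : R →+* ℂ} {red : R →+* k}
    (hms : ModSys (Nat.card G) ι red) (h : DefOne p x ⊥) (h7 : 7 ≤ p) {H : Subgroup G} [Fintype H]
    (hH : (Nat.card H : k) ≠ 0) {Ω : Type*} [Fintype Ω] [MulAction G Ω] {e : ZMod p ≃ Ω}
    (hc : ∀ j, x • e j = e (j + 1)) (hna : ¬ ∀ g : G, Aff e g) {V : Type*} [AddCommGroup V] [Module k V]
    [FiniteDimensional k V] (ρ : Representation k G V) (hd : finrank k V = p + 1) (hs : ∑ g : H, ρ g = 0)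
    (hloc : ∀ φ : End k V, (∀ g, φ * ρ g = ρ g * φ) → IsUnit φ ∨ IsUnit (1 - φ))
    {E : Subgroup G} (hE : Subgroup.zpowers x ⊔ E = Nx x) (hE' : (Nat.card E : k) ≠ 0) {n₀ : Nx x}
    (h₀ : expo h.ord n₀ ≠ expo h.ord n₀⁻¹) {v w : V} (hv : v ≠ 0) (hw : w ≠ 0)
    (hv' : ∀ n : Nx x, ρ n v = (ZMod.cast (expo h.ord n : ZMod p) : k) • v)
    (hw' : ∀ n : Nx x, ρ n w = (ZMod.cast (expo h.ord n⁻¹ : ZMod p) : k) • w) :
    ∃ φ : G →* PGL(2, AlgebraicClosure k), φ x ≠ 1 := by
  classical
  have := Fintype.ofFinite E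
  let c : ZMod p →+* k := ZMod.castHom dvd_rfl k
  let a : Nx x →* k := c.toMonoidHom.comp ((Units.coeHom _).comp (expo h.ord))
  have ha : ∀ n, (ZMod.cast (expo h.ord n : ZMod p) : k) = a n := fun _ => rfl
  simp only [ha] at hv' hw'
  let X : Nx x := ⟨x, Subgroup.le_normalizer (Subgroup.mem_zpowers x)⟩
  have hX : a X = 1 := by rw [← ha, (expo_eq_one_iff h.ord X).2 rfl]; exact map_one c
  have hX' : a X⁻¹ = 1 := by rw [← one_mul (a _), ← hX, ← map_mul, mul_inv_cancel, map_one, hX]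
  have kv : (ρ x - 1) v = 0 := by simpa [hX, sub_eq_zero] using hv' X
  have kw : (ρ x - 1) w = 0 := by simpa [hX', sub_eq_zero] using hw' X
  have hvw : ∀ t : k, w ≠ t • v := fun t e => by
    have h1 := hw' n₀
    rw [e, map_smul, hv', smul_comm, ← e] at h1
    exact h₀ (Units.ext (c.injective (smul_left_injective k hw h1)))
  by_cases h1 : v ∈ LinearMap.range (ρ x - 1)
  swap
  · exact exists_pgl_of_vec hms h h7 hH hc hna ρ hd hs h1 hv'
  have h2 : w ∉ LinearMap.range (ρ x - 1) := fun h2 => by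
    by_cases hT : (ρ x - 1) ^ (p - 1) = 0
    · obtain ⟨t, ht⟩ := ker_one hms h ρ hloc hT v w kv kw hv
      exact hvw t ht
    set T := ρ x - 1
    obtain ⟨z, hz⟩ : ∃ z, (T ^ (p - 1)) z ≠ 0 := not_forall.1 fun e => hT (LinearMap.ext e)
    have h3 : ∀ j ≤ p, j ≤ finrank k (LinearMap.range (T ^ (p - j))) := fun j hj => by
      induction j with
      | zero => omega
      | succ j ih =>
        have h4 := rk_step T (p - (j + 1))
        rw [show p - (j + 1) + 1 = p - j by omega] at h4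
        have h5 : finrank k ↥(LinearMap.ker T ⊓ LinearMap.range (T ^ (p - (j + 1)))) ≠ 0 := fun e => hz (by
          rw [← Submodule.mem_bot k, ← Submodule.finrank_eq_zero.1 e]
          exact ⟨by rw [SetLike.mem_coe, LinearMap.mem_ker, ← End.mul_apply, ← pow_succ', Nat.sub_add_cancel (by omega),
            pow_char_zero ρ h.ord]; rfl, (T ^ j) z, by rw [← End.mul_apply, ← pow_add]; congr 2; omega⟩)
        have := ih (by omega)
        omega
    have h4 : ∀ U : Submodule k V, v ∈ U → w ∈ U → 2 ≤ finrank k U := fun U m1 m2 => by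
      simpa using (LinearIndependent.pair_iff' (K := k) (x := (⟨v, m1⟩ : U)) (y := ⟨w, m2⟩)
        fun e => hv (congrArg Subtype.val e)).2 (fun t e => hvw t (congrArg Subtype.val e).symm) |>.fintype_card_le_finrank
    have h5 := h3 (p - 2) (by omega)
    have h6 := rk_step T 0
    have h7 := rk_step T 1
    have h8 := h4 (LinearMap.ker T ⊓ LinearMap.range (T ^ 0)) ⟨kv, v, rfl⟩ ⟨kw, w, rfl⟩
    have h9 := h4 (LinearMap.ker T ⊓ LinearMap.range (T ^ 1)) ⟨kv, by rwa [pow_one]⟩ ⟨kw, by rwa [pow_one]⟩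
    have h10 := Submodule.finrank_le (LinearMap.range (T ^ 0))
    rw [show p - (p - 2) = 1 + 1 by omega] at h5
    rw [zero_add] at h6
    omega
  obtain ⟨l₀, hl₀, hl₁⟩ := Submodule.exists_dual_map_eq_bot_of_notMem h2 inferInstance
  let i : E →* Nx x := Subgroup.inclusion (le_sup_right.trans hE.le)
  let l : Dual k V := ∑ m : E, a (i m) • l₀ ∘ₗ ρ m
  have hl : ∀ u, l u = ∑ m : E, a (i m) * l₀ (ρ m u) := fun u => by simp [l, LinearMap.sum_apply]
  have hx' : ρ x⁻¹ w = w := by simpa [map_mul, hX] using hw' X⁻¹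
  refine exists_pgl_of_vec hms h h7 hH hc hna ρ.dual (by rw [Subspace.dual_finrank_eq, hd]) ?_ (v := l) ?_ ?_
  · ext f u
    have := congrArg (fun F : End k V => f (F u)) hs
    simp only [LinearMap.sum_apply, map_sum] at this ⊢
    rw [← Equiv.sum_comp (Equiv.inv H)] at this
    exact this.trans (map_zero f)
  · rintro ⟨f, hf⟩
    have h3 := congrArg (fun f : Dual k V => f w) hf
    simp only [hl, LinearMap.sub_apply, End.one_apply] at h3
    rw [Finset.sum_congr rfl (g := fun _ => l₀ w) fun m _ => by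
      rw [show ρ m w = _ from hw' (i m), map_smul, smul_eq_mul, ← mul_assoc, ← map_mul, mul_inv_cancel, map_one, one_mul],
      Finset.sum_const, Finset.card_univ, ← Nat.card_eq_fintype_card, nsmul_eq_mul] at h3
    exact mul_ne_zero hE' hl₀ (h3.symm.trans (sub_eq_zero.2 (congrArg f hx')))
  · let S : Subgroup (Nx x) :=
      { carrier := {n | ρ.dual n l = a n • l}
        one_mem' := by simp [-Representation.dual_apply]
        mul_mem' := fun {m n} hm hn => by
          simp only [Set.mem_ofPred_eq, Subgroup.coe_mul, map_mul, End.mul_apply] at *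
          rw [hn, map_smul, hm, smul_smul, mul_comm]
        inv_mem' := fun {n} hn => by
          have h3 := congrArg (fun f => a n⁻¹ • ρ.dual (n⁻¹ : Nx x) f) hn
          simp only [map_smul, smul_smul, ← map_mul, ← End.mul_apply, ← Subgroup.coe_mul, inv_mul_cancel] at h3
          simpa [-Representation.dual_apply] using h3.symm }
    have h3 : Nx x ≤ S.map (Nx x).subtype := hE.ge.trans (sup_le (Subgroup.zpowers_le.2 ⟨X, ?_, rfl⟩)
      fun m hm => ⟨i ⟨m, hm⟩, ?_, rfl⟩)
    · intro n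
      obtain ⟨n', h4, h5⟩ := h3 n.2
      rwa [show n' = n from Subtype.ext h5] at h4
    · change ρ.dual x l = _
      ext u
      rw [hX, one_smul, ← sub_eq_zero]
      change l (ρ x⁻¹ u) - l u = 0
      rw [← map_sub, hl]
      refine Finset.sum_eq_zero fun m _ => mul_eq_zero_of_right _ ?_
      rw [← Submodule.mem_bot k, ← hl₁]
      refine ⟨_, ?_, rfl⟩
      have h4 := map_mem_range_pow ρ x (i m).2 1 (v := ρ x⁻¹ u - u) ⟨-ρ x⁻¹ u, by
        simp [← End.mul_apply, ← map_mul, neg_add_eq_sub]⟩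
      rwa [pow_one] at h4
    · change ρ.dual m l = _
      ext u
      change l (ρ m⁻¹ u) = a _ * l u
      rw [hl, hl, Finset.mul_sum, ← Equiv.sum_comp (Equiv.mulRight (⟨m, hm⟩ : E))]
      refine Finset.sum_congr rfl fun m' _ => ?_
      rw [Equiv.coe_mulRight, map_mul, map_mul, ← End.mul_apply, ← map_mul ρ, Subgroup.coe_mul, mul_inv_cancel_right]
      ring

theorem exists_model {G : Type*} [Group G] [Fintype G] (p : ℕ) [hp : Fact p.Prime] (M : Ideal AlgInt) [PMod p M]
    {χ : G → ℂ} (hχ : IsIrrCharacter G χ) :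
    ∃ (R : Type) (_ : CommRing R) (_ : IsDomain R) (_ : IsPrincipalIdealRing R) (k : Type) (_ : Field k)
      (_ : CharP k p) (_ : Finite k) (ι : R →+* ℂ) (red : R →+* k) (n : ℕ) (A : G →* Matrix (Fin n) (Fin n) R),
      ModSys (Nat.card G) ι red ∧ (∀ g, ι (A g).trace = χ g) ∧
      (∀ φ : Matrix (Fin n) (Fin n) k, (∀ g, φ * (A g).map red = (A g).map red * φ) →
        IsUnit φ ∨ IsUnit (1 - φ)) ∧ ∀ r, ∀ z ∈ M, ι r = z → red r = 0 := by
  classical
  obtain ⟨n, A, hn, hA, htr⟩ := exists_schur_matrix hχ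
  have hcard : Nat.card G ≠ 0 := Nat.card_pos.ne'
  let Z : Set ℂ := Set.range χ ∪ {z | z ^ Nat.card G = 1}
  have hZ : Z.Finite := by
    refine (Set.finite_range _).union ?_
    refine (Polynomial.nthRootsFinset (Nat.card G) (1 : ℂ)).finite_toSet.subset fun z hz => ?_
    exact (Polynomial.mem_nthRootsFinset (Nat.pos_of_ne_zero hcard) _).2 hz
  have hZi : ∀ z ∈ Z, IsIntegral ℤ z := by
    rintro z (⟨g, rfl⟩ | hz)
    · exact hχ.isCharacter.isIntegral g
    · exact IsIntegral.of_pow (Nat.pos_of_ne_zero hcard) (by rw [hz]; exact isIntegral_one)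
  obtain ⟨F, _, _, ι, B, hB, hBtr, hBZ⟩ := exists_numberField_form A hA Z hZ
    (fun z hz => (hZi z hz).tower_top) (fun g => Or.inl ⟨g, (htr g).symm⟩)
  let f : NumberField.RingOfIntegers F →+* AlgInt :=
    (ι.comp (algebraMap (NumberField.RingOfIntegers F) F)).codRestrict _ fun s => map_isIntegral_int ι s.2
  let Q := M.comap f
  have hpQ : (p : NumberField.RingOfIntegers F) ∈ Q := by simpa [Q] using PMod.mem M
  let v : IsDedekindDomain.HeightOneSpectrum (NumberField.RingOfIntegers F) :=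
    ⟨Q, inferInstance, fun h => by
      rw [h, Ideal.mem_bot] at hpQ
      exact hp.out.ne_zero (by exact_mod_cast hpQ)⟩
  let R := IsDedekindDomain.HeightOneSpectrum.valuationSubringAtPrime F v
  have hPID : IsPrincipalIdealRing R := IsPrincipalIdealRing.of_isNoetherianRing_of_isBezout
  have hinj : Function.Injective (algebraMap R F) := IsFractionRing.injective R F
  have hchar : CharZero R := (algebraMap R F).charZero
  obtain ⟨B', P, hP, hB'⟩ := exists_integral_form (R := R) B
  have hsch : SchurE B' := SchurE.of_map hinj (hB.conj hP (B := mapHom (algebraMap R F) B') hB')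
  obtain ⟨C, hCtr, hC⟩ := exists_local_form hn B' hsch
  have hloc : IsLocalization.AtPrime R v.asIdeal :=
    Localization.subalgebra.isLocalization_ofField F (v.asIdeal.primeCompl) _
  have hfin : Finite (ResidueField R) := by
    have := v.asIdeal.finiteQuotientOfFreeOfNeBot v.ne_bot
    have : v.asIdeal.IsMaximal := v.isMaximal
    exact Finite.of_equiv _ (IsLocalization.AtPrime.equivQuotMaximalIdeal v.asIdeal R).toEquiv
  have hpR : (p : R) ∈ maximalIdeal R := by
    have := (IsLocalization.AtPrime.to_map_mem_maximal_iff R v.asIdeal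
      (p : NumberField.RingOfIntegers F)).2 hpQ
    simpa using this
  have hcp : CharP (ResidueField R) p := by
    refine (CharP.charP_iff_prime_eq_zero hp.out).2 ?_
    have := (residue_eq_zero_iff (p : R)).2 hpR
    simpa using this
  refine ⟨R, inferInstance, inferInstance, hPID, ResidueField R, inferInstance, hcp, hfin, ι.comp (algebraMap R F),
    residue R, n, C, ⟨ι.injective.comp hinj, residue_surjective, fun r hr => ?_, fun z hz => ?_⟩,
    fun g => ?_, hC, fun r z hz e => ?_⟩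
  · rw [Ne, residue_eq_zero_iff, mem_maximalIdeal, mem_nonunits_iff, not_not] at hr
    exact hr
  · obtain ⟨r, rfl⟩ := hBZ z (Or.inr hz)
    have hr : IsIntegral ℤ r := by
      refine IsIntegral.of_pow (Nat.pos_of_ne_zero hcard) ?_
      have : r ^ Nat.card G = 1 := ι.injective (by simpa using hz)
      rw [this]; exact isIntegral_one
    refine ⟨algebraMap (NumberField.RingOfIntegers F) R ⟨r, hr⟩, ?_⟩
    rfl
  · rw [RingHom.comp_apply, hCtr, AddMonoidHom.map_trace, ← trace_eq_of_mul_eq hP (hB' g), hBtr,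
      htr]
  · have hr : IsIntegral ℤ (algebraMap R F r) :=
      (isIntegral_algHom_iff ι.toIntAlgHom ι.injective).1 (by rw [show ι.toIntAlgHom _ = (z : ℂ) from e]; exact z.2)
    rw [residue_eq_zero_iff, show r = algebraMap (NumberField.RingOfIntegers F) R ⟨_, hr⟩ from Subtype.ext rfl]
    exact (IsLocalization.AtPrime.to_map_mem_maximal_iff R v.asIdeal _).2
      (Ideal.mem_comap.2 (by rwa [show f ⟨_, hr⟩ = z from Subtype.ext e]))

theorem exists_eigen {R k : Type*} [CommRing R] [IsDomain R] [IsPrincipalIdealRing R] [Field k] (red : R →+* k)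
    {N : Type*} [Group N] [Fintype N] {n : ℕ} (A : N →* Matrix (Fin n) (Fin n) R) (a : N →* R)
    (h : ∑ g, a g⁻¹ * (A g).trace ≠ 0) : ∃ v : Fin n → k, v ≠ 0 ∧ ∀ g, ((A g).map red).mulVec v = red (a g) • v := by
  classical
  let S := ∑ g, a g⁻¹ • A g
  have hS : ∀ g, A g * S = a g • S := fun g => by
    simp only [S, Finset.mul_sum, Finset.smul_sum]
    rw [← Equiv.sum_comp (Equiv.mulLeft g) fun g' => a g • a g'⁻¹ • A g']
    refine Finset.sum_congr rfl fun g' _ => ?_
    rw [Equiv.coe_mulLeft, smul_smul, ← map_mul a, mul_inv_rev, map_mul a,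
      map_mul a, mul_left_comm, ← map_mul a, mul_inv_cancel, map_one, mul_one, map_mul A, mul_smul_comm]
  obtain ⟨i, j, hij⟩ : ∃ i j, S i j ≠ 0 := by
    by_contra! e
    refine h ?_
    have := congrArg Matrix.trace (show S = 0 from Matrix.ext e)
    simpa [S, Matrix.trace_sum] using this
  obtain ⟨s, hs⟩ := (IsPrincipalIdealRing.principal (Ideal.span (Set.range fun i => S i j))).principal
  have h1 : ∀ i, ∃ t, t * s = S i j := fun i =>
    Ideal.mem_span_singleton'.1 (hs.le (Ideal.subset_span ⟨i, rfl⟩))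
  choose w hw using h1
  have h0 : s ≠ 0 := fun e => hij (by rw [← hw, e, mul_zero])
  obtain ⟨t, ht⟩ := (Submodule.mem_span_range_iff_exists_fun R).1 (hs.ge (Submodule.mem_span_singleton_self s))
  refine ⟨fun i => red (w i), fun e => ?_, fun g => funext fun i => ?_⟩
  · have h2 : ∑ i, t i * w i = 1 := mul_right_cancel₀ h0 (by
      rw [one_mul, Finset.sum_mul]; simpa [← hw, mul_assoc] using ht)
    have h3 := congrArg red h2
    simp [show ∀ i, red (w i) = 0 from congrFun e] at h3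
  · have h2 : ∑ l, A g i l * w l = a g * w i := mul_right_cancel₀ h0 (by
      rw [Finset.sum_mul]; simpa [Matrix.mul_apply, ← hw, mul_assoc] using congrFun (congrFun (hS g) i) j)
    simpa [Matrix.mulVec, dotProduct] using congrArg red h2

theorem exists_teich (p : ℕ) [hp : Fact p.Prime] (M : Ideal AlgInt) [PMod p M] :
    ∃ ω : (ZMod p)ˣ →* ℂˣ, ∀ a, red M (ω a) = ((a : ZMod p).val : F M) := by
  have h0 : p - 1 ≠ 0 := by have := hp.out.two_le; omega
  have h1 : ∀ a : (ZMod p)ˣ, ∃ z : ℂ, z ^ (p - 1) = 1 ∧ red M z = ZMod.castHom dvd_rfl (F M) (a : ZMod p) :=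
    fun a => exists_root_red_eq h0 (by rw [← map_pow, ZMod.pow_card_sub_one_eq_one a.ne_zero, map_one])
  choose f hf hf' using h1
  have h2 : ¬ p ∣ p - 1 := Nat.not_dvd_of_pos_of_lt (by omega) (by omega)
  refine ⟨MonoidHom.toHomUnits ⟨⟨f, eq_of_red_eq_of_pow (M := M) h2 (hf _) (one_pow _) (by simp [hf'])⟩,
    fun a b => eq_of_red_eq_of_pow (M := M) h2 (hf _) (by rw [mul_pow, hf, hf, one_mul]) ?_⟩, fun a => ?_⟩
  · rw [red_mul (mem_O_of_pow_eq_one h0 (hf _)) (mem_O_of_pow_eq_one h0 (hf _)), hf', hf', hf', ← map_mul]; rfl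
  · exact (hf' a).trans (ZMod.natCast_val _).symm

theorem exists_pgl_of_succ {G : Type*} [Group G] [Fintype G] [IsSimpleGroup G] {p : ℕ} [hp : Fact p.Prime] {x : G}
    (h : DefOne p x ⊥) (h7 : 7 ≤ p) {H : Subgroup G} [Fintype H] (hH : ¬ p ∣ Nat.card H) {Ω : Type*} [Fintype Ω]
    [MulAction G Ω] {e : ZMod p ≃ Ω} (hc : ∀ j, x • e j = e (j + 1)) (hna : ¬ ∀ g : G, Aff e g)
    {E : Subgroup G} (hE : Subgroup.zpowers x ⊔ E = Nx x) (hE' : ¬ p ∣ Nat.card E) {n₀ : Nx x}
    (h₀ : expo h.ord n₀ ≠ expo h.ord n₀⁻¹) (M : Ideal AlgInt) [PMod p M] {ω : (ZMod p)ˣ →* ℂˣ}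
    (hω : ∀ a, red M (ω a) = ((a : ZMod p).val : F M)) {χ : G → ℂ} (hχ : IsIrrCharacter G χ) (hd : χ 1 = p + 1)
    (hs : ∑ g : H, χ g = 0) [Fintype (Nx x)] (h1 : ∑ n : Nx x, ω (expo h.ord n⁻¹) * χ n ≠ 0)
    (h2 : ∑ n : Nx x, ω (expo h.ord n) * χ n ≠ 0) :
    ∃ (K : Type) (_ : Field K) (_ : IsAlgClosed K) (_ : CharP K p) (φ : G →* PGL(2, K)), φ x ≠ 1 := by
  classical
  obtain ⟨R, _, _, _, k, _, _, _, ι, rd, n, A, hms, htr, hloc, hM⟩ := exists_model p M hχ
  let L := Matrix.toLinAlgEquiv' (R := k) (n := Fin n)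
  let ρ : Representation k G (Fin n → k) := L.toMulEquiv.toMonoidHom.comp (mapHom rd A)
  have hρ : ∀ g, ρ g = L ((A g).map rd) := fun g => rfl
  have hn : n = p + 1 := by
    have := htr 1
    rw [hd] at this
    simp only [map_one, Matrix.trace_one, Fintype.card_fin, map_natCast] at this
    exact_mod_cast this
  have key : ∀ f : Nx x →* (ZMod p)ˣ, ∑ n : Nx x, ω (f n⁻¹) * χ n ≠ 0 →
      ∃ v : Fin n → k, v ≠ 0 ∧ ∀ m : Nx x, ρ m v = (ZMod.cast (f m : ZMod p) : k) • v := fun f hf => by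
    have h3 : ∀ m : Nx x, (ω (f m) : ℂ) ^ Nat.card G = 1 := fun m => by
      rw [← Units.val_pow_eq_pow_val, ← map_pow, ← map_pow, show m ^ Nat.card G = 1 from Subtype.ext (by simp)]
      simp
    choose a ha using fun m => hms.roots _ (h3 m)
    obtain ⟨v, h4, h5⟩ := exists_eigen rd (A.comp (Nx x).subtype) ⟨⟨a, hms.inj (by simp [ha])⟩,
      fun m m' => hms.inj (by simp [ha])⟩ fun e => hf (by simpa [ha, htr] using congrArg ι e)
    refine ⟨v, h4, fun m => (h5 m).trans ?_⟩
    have h6 := IsIntegral.of_pow Nat.card_pos (h3 m ▸ isIntegral_one : IsIntegral ℤ ((ω (f m) : ℂ) ^ Nat.card G))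
    have h7 := hM (a m - (f m : ZMod p).val) (⟨_, h6⟩ - (f m : ZMod p).val) (memLocalIdeal_algInt_iff.1 (by
      push_cast
      exact (memLocalIdeal_sub_iff (mem_O_of_isIntegral h6) (natCast_mem _ _)).2 (by rw [hω, red_natCast])))
      (by rw [map_sub, map_natCast, ha]; rfl)
    rw [map_sub, sub_eq_zero, map_natCast, ZMod.natCast_val] at h7
    exact congrArg (· • v) h7
  obtain ⟨v, hv, hv'⟩ := key _ h1
  obtain ⟨w, hw, hw'⟩ := key (expo h.ord)⁻¹ (by simpa using h2)
  have hk : ∀ m : ℕ, ¬ p ∣ m → (m : k) ≠ 0 := fun m hm => mt (CharP.cast_eq_zero_iff k p m).1 hm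
  refine (exists_pgl_of_two hms h h7 (hk _ hH) hc hna ρ (by simp [hn]) ?_ (fun φ hφ => by
    obtain ⟨φ, rfl⟩ := L.surjective φ
    have := hloc φ fun g => L.injective (by rw [map_mul, map_mul]; exact hφ g)
    exact this.imp (fun h => h.map L) fun h => by simpa using h.map L) hE (hk _ hE') h₀ hv hw hv'
    (fun m => by rw [map_inv]; exact hw' m)).elim fun φ hφ => ⟨_, inferInstance, inferInstance, inferInstance, φ, hφ⟩
  let S := (Nat.card H : ℂ)⁻¹ • ∑ g : H, (A g).map ι
  have h3 : (Nat.card H : ℂ) ≠ 0 := Nat.cast_ne_zero.2 Nat.card_pos.ne'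
  have h4 : S * S = S := by
    simp only [S, smul_mul_assoc, mul_smul_comm, Finset.sum_mul, Finset.mul_sum, ← Matrix.map_mul, ← map_mul,
      ← Subgroup.coe_mul]
    have h4 : ∀ g : H, ∑ g' : H, (A (g' * g : H)).map ι = ∑ g' : H, (A g').map ι := fun g =>
      Equiv.sum_comp (Equiv.mulRight g) fun g' : H => (A g').map ι
    simp only [h4]
    rw [Finset.sum_const, Finset.card_univ, ← Nat.card_eq_fintype_card, ← Nat.cast_smul_eq_nsmul ℂ, smul_inv_smul₀ h3]
  have h5 := rank_eq_trace_of_idem h4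
  rw [Matrix.trace_smul, Matrix.trace_sum, Finset.sum_congr rfl fun g _ => by rw [← AddMonoidHom.map_trace, htr], hs,
    smul_zero, Nat.cast_eq_zero, Matrix.rank, Submodule.finrank_eq_zero, LinearMap.range_eq_bot, ← Matrix.toLin'_apply',
    LinearEquiv.map_eq_zero_iff] at h5
  have h6 : ∑ g : H, A g = 0 := Matrix.ext fun i j => hms.inj (by
    simpa [S, Matrix.sum_apply, h3] using congrFun (congrFun h5 i) j)
  simp only [hρ, ← map_sum]
  rw [show ∑ g : H, (A g).map rd = rd.mapMatrix (∑ g : H, A g) by rw [map_sum]; rfl, h6, map_zero, map_zero]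

end Cfsg.Agent.CH.Low
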