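import Mathlib
import Cfsg.Agent.Char.Galois
import Cfsg.Agent.Char.Central

/-! Unitarization of characters (`exists_unitary`) and Frobenius' proof of Jordan's theorem:
`exists_abelian_normal` (an abelian normal `A` with `|H : H ∩ A| ≤ 12 ^ n` for abelian `H`). -/

set_option autoImplicit false
set_option linter.unusedVariables false
set_option linter.unusedSectionVars false

namespace Cfsg.Agent.CH

open scoped Matrix.Norms.L2Operator MatrixOrder ComplexOrder

section cstar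
variable {G A : Type*} [Group G] [Finite G] [CStarAlgebra A] (U : G →* A)
  (hU : ∀ g, U g ∈ unitary A)
include hU

theorem norm_comm_eq (a b : G) : ‖U (a * b * a⁻¹ * b⁻¹) - 1‖ = ‖U a * U b - U b * U a‖ := by
  rw [← CStarRing.norm_mul_mem_unitary _ (hU (b * a)), sub_mul, ← map_mul, ← map_mul, ← map_mul]
  congr 2 <;> simp [mul_assoc]

theorem norm_comm_le (a b : G) (c : ℂ) :
    ‖U (a * b * a⁻¹ * b⁻¹) - 1‖ ≤ 2 * ‖U a - algebraMap ℂ A c‖ * ‖U b - 1‖ := by
  rw [norm_comm_eq U hU, show U a * U b - U b * U a = (U a - algebraMap ℂ A c) * (U b - 1) -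
    (U b - 1) * (U a - algebraMap ℂ A c) by
      simp only [sub_mul, mul_sub, Algebra.commutes c (U b), one_mul, mul_one]; abel]
  refine (norm_sub_le _ _).trans ?_
  linarith [norm_mul_le (U a - algebraMap ℂ A c) (U b - 1),
    norm_mul_le (U b - 1) (U a - algebraMap ℂ A c)]

theorem norm_comm_le' (a b : G) (c : ℂ) :
    ‖U (a * b * a⁻¹ * b⁻¹) - 1‖ ≤ 2 * ‖U b - algebraMap ℂ A c‖ := by
  rw [norm_comm_eq U hU, show U a * U b - U b * U a = U a * (U b - algebraMap ℂ A c) -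
    (U b - algebraMap ℂ A c) * U a by
      simp only [sub_mul, mul_sub, Algebra.commutes c (U a)]; abel]
  refine (norm_sub_le _ _).trans ?_
  rw [CStarRing.norm_mul_mem_unitary _ (hU a), CStarRing.norm_mem_unitary_mul _ (hU a), two_mul]

theorem norm_sub_lt_half [Nontrivial A] {b : G} (h : ‖U b - 1‖ ^ 2 < 2 - √3) :
    ‖U b - algebraMap ℂ A ((√3 / 2 : ℝ) : ℂ)‖ < 1 / 2 := by
  set c : ℝ := √3 / 2 with hc
  have h1 : star (U b - algebraMap ℂ A c) * (U b - algebraMap ℂ A c) =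
      (c : ℂ) • (star (U b - 1) * (U b - 1)) + (((1 - c) ^ 2 : ℝ) : ℂ) • (1 : A) := by
    simp only [Algebra.algebraMap_eq_smul_one, star_sub, star_smul, star_one, sub_mul, mul_sub,
      (hU b).1, smul_mul_assoc, mul_smul_comm, one_mul, mul_one, Complex.star_def,
      Complex.conj_ofReal]
    push_cast
    module
  have h2 := congrArg norm h1
  rw [CStarRing.norm_star_mul_self] at h2
  have h3 := h2.le.trans (norm_add_le _ _)
  have h4 : (0 : ℝ) < c := by positivity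
  rw [norm_smul, norm_smul, CStarRing.norm_star_mul_self, norm_one, Complex.norm_real,
    Complex.norm_real, Real.norm_of_nonneg h4.le, Real.norm_of_nonneg (sq_nonneg _)] at h3
  have h5 : √3 * √3 = 3 := Real.mul_self_sqrt (by norm_num)
  have h6 := mul_lt_mul_of_pos_left h h4
  nlinarith [norm_nonneg (U b - algebraMap ℂ A c)]

omit hU in
theorem eq_one_of_norm_lt {e : G} (h : ∀ z ∈ Subgroup.zpowers e, ‖U z - 1‖ < 1) : U e = 1 := by
  have := Fintype.ofFinite (Subgroup.zpowers e)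
  set m : ℕ := Fintype.card (Subgroup.zpowers e)
  have hm : (0 : ℝ) < m := by exact_mod_cast Fintype.card_pos
  have hm' : (m : ℂ) ≠ 0 := by exact_mod_cast hm.ne'
  have h1 : ‖(m : ℂ)⁻¹ • ∑ z : Subgroup.zpowers e, (1 - U z)‖ < 1 := by
    rw [norm_smul, norm_inv, Complex.norm_natCast, inv_mul_lt_iff₀ hm]
    refine (norm_sum_le _ _).trans_lt ((Finset.sum_lt_sum_of_nonempty Finset.univ_nonempty
      fun (z : Subgroup.zpowers e) _ => (norm_sub_rev _ _).trans_lt (h z z.2)).trans_eq (by simp [m]))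
  have h2 := (Units.oneSub _ h1).isUnit
  rw [Units.val_oneSub, Finset.sum_sub_distrib, smul_sub, Finset.sum_const, Finset.card_univ,
    ← Nat.cast_smul_eq_nsmul ℂ, inv_smul_smul₀ hm', sub_sub_cancel] at h2
  refine h2.mul_right_cancel ?_
  rw [one_mul, mul_smul_comm, Finset.mul_sum]
  congr 1
  exact Fintype.sum_equiv (Equiv.mulLeft ⟨e, Subgroup.mem_zpowers e⟩) _ _ fun z =>
    (map_mul U _ _).symm

theorem commute_of_norm_lt (hi : Function.Injective U) {a b : G} (ha : ‖U a - 1‖ ^ 2 < 2 - √3)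
    (hb : ‖U b - 1‖ ^ 2 < 2 - √3) : a * b = b * a := by
  rcases subsingleton_or_nontrivial A with _ | _
  · exact hi (Subsingleton.elim _ _)
  by_contra h
  obtain ⟨b, ⟨hb, h⟩, hmin⟩ := Set.exists_min_image {b | ‖U b - 1‖ ^ 2 < 2 - √3 ∧ a * b ≠ b * a}
    (fun b => ‖U b - 1‖) (Set.toFinite _) ⟨b, hb, h⟩
  have h0 : 0 < ‖U b - 1‖ := norm_pos_iff.2 fun e => h (by
    rw [hi ((sub_eq_zero.1 e).trans (map_one U).symm), mul_one, one_mul])
  have h1 : ‖U (a * b * a⁻¹ * b⁻¹) - 1‖ < ‖U b - 1‖ :=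
    (norm_comm_le U hU a b _).trans_lt (by nlinarith [norm_sub_lt_half U hU ha])
  have h2 : a * (a * b * a⁻¹ * b⁻¹) = a * b * a⁻¹ * b⁻¹ * a := by_contra fun h' =>
    (hmin _ ⟨(pow_le_pow_left₀ (norm_nonneg _) h1.le 2).trans_lt hb, h'⟩).not_gt h1
  have h3 : Commute a (b * a⁻¹ * b⁻¹) := mul_left_cancel (a := a) (by
    simpa only [mul_assoc] using h2)
  have h4 := eq_one_of_norm_lt U (e := a * b * a⁻¹ * b⁻¹) fun z hz => by
    obtain ⟨k, rfl⟩ := mem_powers_iff_mem_zpowers.2 hz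
    have : (a * b * a⁻¹ * b⁻¹) ^ k = a ^ k * b * (a ^ k)⁻¹ * b⁻¹ := by
      rw [mul_assoc a, mul_assoc a, h3.mul_pow, conj_pow, inv_pow]; simp only [mul_assoc]
    simp only [this]
    linarith [norm_comm_le' U hU (a ^ k) b ((√3 / 2 : ℝ) : ℂ), norm_sub_lt_half U hU hb]
  exact h (by rw [← mul_inv_eq_one, mul_inv_rev, ← mul_assoc, hi (h4.trans (map_one U).symm)])

end cstar

variable {G : Type*} [Group G] [Finite G] {χ : G → ℂ}

theorem exists_unitary (h : IsCharacter G χ) :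
    ∃ (n : ℕ) (U : G →* Matrix (Fin n) (Fin n) ℂ), (∀ g, U g ∈ unitary _) ∧
      χ = fun g => (U g).trace := by
  have := Fintype.ofFinite G
  obtain ⟨n, R, rfl⟩ := h.exists_matrix
  have h0 : ∀ g, 0 ≤ star (R g) * R g := fun g => star_mul_self_nonneg _
  obtain ⟨P, hP⟩ := CStarAlgebra.nonneg_iff_eq_star_mul_self.1
    (Finset.sum_nonneg fun g (_ : g ∈ Finset.univ) => h0 g)
  have h1 : IsUnit (star P * P) := hP ▸ CStarAlgebra.isUnit_of_le 1 (by
    simpa using Finset.single_le_sum (fun g _ => h0 g) (Finset.mem_univ 1))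
  obtain ⟨Q, rfl⟩ := isUnit_of_mul_isUnit_right h1
  refine ⟨n, ⟨⟨fun g => Q.1 * R g * (Q⁻¹).1, by simp⟩, fun a b => by simp [mul_assoc]⟩, fun g => ?_,
    funext fun g => ?_⟩
  · have : star (Q.1 * R g * (Q⁻¹).1) * (Q.1 * R g * (Q⁻¹).1) = 1 := by
      have e : star (R g) * (star Q.1 * Q) * R g = star Q.1 * Q := by
        rw [← hP, Finset.mul_sum, Finset.sum_mul]
        exact Fintype.sum_equiv (Equiv.mulRight g) _ _ fun x => by simp [mul_assoc]
      calc _ = star (Q⁻¹).1 * (star (R g) * (star Q.1 * Q) * R g) * (Q⁻¹).1 := by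
            simp only [star_mul, mul_assoc]
        _ = 1 := by rw [e, ← mul_assoc, ← star_mul, mul_assoc, Units.mul_inv, star_one, one_mul]
    exact ⟨this, mul_eq_one_comm.1 this⟩
  · exact (Matrix.trace_units_conj Q (R g)).symm

theorem norm_sub_one_sq_lt {u w : ℂ} (hu : ‖u‖ = 1) (hw : ‖w‖ = 1)
    (h : ⌈(u.arg + Real.pi) / (Real.pi / 6)⌉ = ⌈(w.arg + Real.pi) / (Real.pi / 6)⌉) :
    ‖u⁻¹ * w - 1‖ ^ 2 < 2 - √3 := by
  have h1 : |(u.arg + Real.pi) / (Real.pi / 6) - (w.arg + Real.pi) / (Real.pi / 6)| < 1 := by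
    generalize (u.arg + Real.pi) / (Real.pi / 6) = a, (w.arg + Real.pi) / (Real.pi / 6) = b at h
    have := Int.le_ceil a
    have := Int.ceil_lt_add_one a
    rw [h] at *
    exact abs_sub_lt_iff.2 ⟨by linarith [Int.ceil_lt_add_one b], by linarith [Int.le_ceil b]⟩
  have hp : 0 < Real.pi / 6 := by positivity
  rw [← sub_div, add_sub_add_right_eq_sub, abs_div, abs_of_pos hp, div_lt_one hp, abs_sub_comm] at h1
  have h2 : u⁻¹ * w = Complex.exp ((w.arg - u.arg : ℝ) * Complex.I) := by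
    conv_lhs => rw [← Complex.norm_mul_exp_arg_mul_I u, ← Complex.norm_mul_exp_arg_mul_I w, hu, hw]
    push_cast
    rw [one_mul, one_mul, ← Complex.exp_neg, ← Complex.exp_add]; congr 1; ring
  have h3 := Real.cos_lt_cos_of_nonneg_of_le_pi (abs_nonneg _) (by linarith [Real.pi_pos]) h1
  rw [Real.cos_pi_div_six, Real.cos_abs] at h3
  rw [h2, Complex.sq_norm, Complex.normSq_apply]
  simp only [Complex.sub_re, Complex.exp_ofReal_mul_I_re, Complex.one_re, Complex.sub_im,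
    Complex.exp_ofReal_mul_I_im, Complex.one_im]
  nlinarith [Real.sin_sq_add_cos_sq (w.arg - u.arg)]

theorem norm_lt_of_eigenbasis {n : ℕ} {ι : Type*} [Fintype ι] {T : Matrix (Fin n) (Fin n) ℂ}
    (hT : T ∈ unitary _) (b : Module.Basis ι ℂ (Fin n → ℂ)) (ζ : ι → ℂ)
    (h : ∀ i, Matrix.toLin' T (b i) = ζ i • b i) {r : ℝ} (hr : 0 < r) (h' : ∀ i, ‖ζ i - 1‖ ^ 2 < r) :
    ‖T - 1‖ ^ 2 < r := by
  rcases subsingleton_or_nontrivial (Matrix (Fin n) (Fin n) ℂ) with _ | _
  · simpa [Subsingleton.elim (T - 1) 0] using hr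
  have : IsStarNormal (T - 1) := ⟨by
    simp only [commute_iff_eq, star_sub, star_one, sub_mul, mul_sub, hT.1, hT.2, one_mul, mul_one]
    abel⟩
  obtain ⟨k, hk, e⟩ := spectrum.exists_nnnorm_eq_spectralRadius (T - 1)
  rw [IsStarNormal.spectralRadius_eq_nnnorm, ENNReal.coe_inj] at e
  rw [← coe_nnnorm, ← e, coe_nnnorm]
  rw [← Matrix.spectrum_toLin', ← Module.End.hasEigenvalue_iff_mem_spectrum] at hk
  obtain ⟨v, hv⟩ := hk.exists_hasEigenvector
  obtain ⟨i, hi⟩ : ∃ i, b.repr v i ≠ 0 := by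
    by_contra! h0
    exact hv.2 (b.repr.injective (by ext i; simp [h0]))
  have h1 : ∀ v, b.coord i (Matrix.toLin' (T - 1) v) = (ζ i - 1) * b.coord i v :=
    fun v => LinearMap.congr_fun (f := b.coord i ∘ₗ Matrix.toLin' (T - 1))
      (g := (ζ i - 1) • b.coord i) (b.ext fun j => by
        by_cases e : j = i <;> simp [h, e, Finsupp.single_apply]) v
  have h2 := h1 v
  rw [hv.apply_eq_smul, map_smul, smul_eq_mul] at h2
  rw [mul_right_cancel₀ hi h2]
  exact h' i

theorem exists_abelian_normal (hχ : IsCharacter G χ) (hf : ∀ g, χ g = χ 1 → g = 1) :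
    ∃ A : Subgroup G, A.Normal ∧ (∀ x ∈ A, ∀ y ∈ A, x * y = y * x) ∧ ∀ H : Subgroup G,
      (∀ x ∈ H, ∀ y ∈ H, x * y = y * x) → (A.subgroupOf H).index ≤ 12 ^ charDegree χ := by
  obtain ⟨n, U, hU, rfl⟩ := exists_unitary hχ
  have hi : Function.Injective U := (injective_iff_map_eq_one U).2 fun g h => hf g (by simp [h])
  rw [Char.charDegree_eq_of_apply_one (n := n) (by simp)]
  refine ⟨Subgroup.closure {g | ‖U g - 1‖ ^ 2 < 2 - √3}, ⟨fun x hx g => ?_⟩, fun x hx y hy => ?_,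
    fun H hH => ?_⟩
  · refine Subgroup.closure_induction (p := fun x _ => g * x * g⁻¹ ∈ _)
      (fun x hx => Subgroup.subset_closure ?_) (by simp) (fun x y _ _ hx hy => ?_)
      (fun x _ hx => ?_) hx
    · rwa [Set.mem_ofPred_eq, show U (g * x * g⁻¹) - 1 = U g * (U x - 1) * U g⁻¹ by
        rw [mul_sub, sub_mul, mul_one, ← map_mul, ← map_mul, ← map_mul, mul_inv_cancel, map_one],
        CStarRing.norm_mul_mem_unitary _ (hU _), CStarRing.norm_mem_unitary_mul _ (hU _)]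
    · simpa using mul_mem hx hy
    · simpa [mul_assoc] using inv_mem hx
  · exact congrArg Subtype.val ((Subgroup.isMulCommutative_closure fun a ha b hb =>
      commute_of_norm_lt U hU hi ha hb).is_comm.comm ⟨x, hx⟩ ⟨y, hy⟩)
  obtain ⟨b, lam, h⟩ := Char.exists_eigenbasis (fun a b : H => Subtype.ext (hH _ a.2 _ b.2))
    (Char.matrixRep (U.comp H.subtype))
  have hl : ∀ i x, ‖(lam i x : ℂ)‖ = 1 := fun i x => Char.norm_eq_one_of_pow_orderOf (g := x) (by
    rw [← Units.val_pow_eq_pow_val, ← map_pow, pow_orderOf_eq_one, map_one, Units.val_one])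
  have hp : 0 < Real.pi / 6 := by positivity
  have hm : ∀ z : ℂ, ⌈(z.arg + Real.pi) / (Real.pi / 6)⌉ ∈ Finset.Icc (1 : ℤ) 12 := fun z =>
    Finset.mem_Icc.2 ⟨Int.one_le_ceil_iff.2 (div_pos (by linarith [z.neg_pi_lt_arg]) hp),
      Int.ceil_le.2 ((div_le_iff₀ hp).2 (by push_cast; linarith [z.arg_le_pi]))⟩
  refine (Nat.card_le_card_of_injective (β := Fin (Module.finrank ℂ (Fin n → ℂ)) →
    Finset.Icc (1 : ℤ) 12) (fun q i => ⟨_, hm (lam i (Quotient.out q))⟩) fun q q' e => ?_).trans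
    (by rw [Nat.card_fun, Nat.card_eq_finsetCard]; simp)
  rw [← q.out_eq, ← q'.out_eq]
  refine QuotientGroup.eq.2 (Subgroup.subset_closure (norm_lt_of_eigenbasis (hU _) b _ (h _)
    (by rw [sub_pos, Real.sqrt_lt' two_pos]; norm_num) fun i => ?_))
  rw [map_mul, map_inv, Units.val_mul, Units.val_inv_eq_inv_val]
  exact norm_sub_one_sq_lt (hl _ _) (hl _ _) (congrArg Subtype.val (congrFun e i))

end Cfsg.Agent.CH
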