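import Cfsg.Agent.CH.Kc4

/-! Class numbers modulo the Fitting subgroup of solvable complex linear groups. -/

set_option autoImplicit false

namespace Cfsg.Agent.CH.Kc

open Subgroup Reg
open scoped IsMulCommutative commutatorElement

theorem num3 {e b : ℕ} (h2 : 2 ≤ e) (hb : 3 * b ≤ w (e ^ 2)) (hp : e.Prime → b + 3 ≤ e ^ 2 + e) :
    b ≤ 3 ^ (e - 1) := by
  rcases Nat.lt_or_ge e 8 with h | h
  · interval_cases e
    · have := hp (by norm_num); omega
    · have := hp (by norm_num); omega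
    · have : w (4 ^ 2) = 81 := w_two 4
      omega
    · have := hp (by norm_num); omega
    · have : w (6 ^ 2) = 9 * 9 ^ 2 := w_eq 2 (m := 9) (by decide)
      omega
    · have := hp (by norm_num); omega
  · have h1 : ∀ t, (t + 8) ^ 4 ≤ 3 ^ (t + 8) := fun t => by
      induction t with
      | zero => norm_num
      | succ t ih =>
        have h3 : (8 * (t + 1 + 8)) ^ 4 ≤ (9 * (t + 8)) ^ 4 := Nat.pow_le_pow_left (by omega) _
        rw [mul_pow, mul_pow] at h3
        rw [show t + 1 + 8 = t + 8 + 1 from rfl] at h3 ⊢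
        rw [pow_succ 3]
        omega
    obtain ⟨t, rfl⟩ := Nat.exists_eq_add_of_le' h
    have h4 := hb.trans (w_le (by positivity))
    have h5 := h1 t
    rw [← pow_mul] at h4
    have h6 : 3 ^ (t + 8) = 3 ^ (t + 8 - 1) * 3 := pow_succ 3 (t + 7)
    have h7 : (t + 8) ^ (2 * 2) = (t + 8) ^ 4 := rfl
    omega

/-- The inductive statement for complex modules. -/
def CC (d : ℕ) : Prop :=
  ∀ (G V : Type) [Group G] [Finite G] [Group.IsSolvable G] [AddCommGroup V] [Module ℂ V]
    [Module.Finite ℂ V] [Nontrivial V] [DistribMulAction G V] [SMulCommClass G ℂ V]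
    [FaithfulSMul G V], Module.finrank ℂ V = d → Bd (fittingSubgroup G) (3 ^ (d - 1))

theorem sub_nf {G V : Type} [Group G] [Finite G] [Group.IsSolvable G] [AddCommGroup V] [Module ℂ V]
    [Module.Finite ℂ V] [DistribMulAction G V] [SMulCommClass G ℂ V] (W : Submodule ℂ V)
    (h0 : W ≠ ⊥) (hW : ∀ g : G, ∀ v ∈ W, g • v ∈ W) (ih : CC (Module.finrank ℂ W)) :
    ∃ (P : Type) (_ : Group P) (_ : Group.IsNilpotent P) (N : Subgroup G) (_ : N.Normal)
      (φ : N →* P), Bd N (3 ^ (Module.finrank ℂ W - 1)) ∧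
        ∀ x : N, φ x = 1 → ∀ v ∈ W, (x : G) • v = v := by
  letI : DistribMulAction G W :=
    { smul := fun a v => ⟨a • (v : V), hW a v v.2⟩
      one_smul := fun v => Subtype.ext (one_smul G (v : V))
      mul_smul := fun a b v => Subtype.ext (mul_smul a b (v : V))
      smul_zero := fun a => Subtype.ext (smul_zero a)
      smul_add := fun a v w => Subtype.ext (smul_add a (v : V) w) }
  letI := rangeAct G W
  let f := MulAction.toPermHom G W
  haveI : Finite f.range := Finite.of_surjective _ f.rangeRestrict_surjective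
  haveI := Group.isSolvable_of_surjective f.rangeRestrict_surjective
  haveI : SMulCommClass f.range ℂ W := ⟨by
    rintro ⟨_, a, rfl⟩ c v
    exact Subtype.ext (smul_comm a c (v : V))⟩
  haveI := Submodule.nontrivial_iff_ne_bot.2 h0
  exact ⟨fittingSubgroup f.range, inferInstance, Solv.isNilpotent_of_le_fitting le_rfl,
    (fittingSubgroup f.range).comap f.rangeRestrict, inferInstance,
    f.rangeRestrict.subgroupComap _, (ih f.range W rfl).comap _, fun x hx v hv =>
      congrArg (fun y : fittingSubgroup f.range => ((y.1.1 ⟨v, hv⟩ : W) : V)) hx⟩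

theorem cc (d : ℕ) : CC d := by
  induction d using Nat.strong_induction_on with
  | _ d ih =>
  intro G V _ _ _ _ _ _ _ _ _ _ hd
  classical
  obtain ⟨U, F, hFG, hmax, hB, hS⟩ := exists_St2 (G := G)
  haveI := hS.un
  haveI := hS.fn
  let T : G →* Module.End ℂ V := DistribMulAction.toModuleEnd ℂ V
  let Wt : (U → ℂ) → Submodule ℂ V := fun χ => ⨅ u : U, (T u).maxGenEigenspace (χ u)
  have hmem : ∀ χ v, v ∈ Wt χ ↔ ∀ u : U, (u : G) • v = χ u • v := fun χ v => by
    refine (Submodule.mem_iInf _).trans (forall_congr' fun u => ?_)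
    rw [(Module.End.isSemisimple_of_squarefree_aeval_eq_zero (f := T u)
      (p := Polynomial.X ^ Nat.card G - 1) (Polynomial.X_pow_sub_one_separable_iff.2
        (Nat.cast_ne_zero.2 Nat.card_pos.ne')).squarefree (by
        rw [map_sub, map_pow, Polynomial.aeval_X, map_one, ← map_pow, pow_card_eq_one', map_one,
          sub_self])).isFinitelySemisimple.maxGenEigenspace_eq_eigenspace,
      Module.End.mem_eigenspace_iff]
    rfl
  have hcm : ∀ (i j : U) (φ : ℂ), Set.MapsTo (T i) ((T j).maxGenEigenspace φ)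
      ((T j).maxGenEigenspace φ) := fun i j φ =>
    Module.End.mapsTo_maxGenEigenspace_of_comm ((hS.cm (hS.le i.2) j.2).map T) φ
  have hind : iSupIndep Wt :=
    Module.End.independent_iInf_maxGenEigenspace_of_forall_mapsTo _ hcm
  have htop : ⨆ χ, Wt χ = ⊤ :=
    Module.End.iSup_iInf_maxGenEigenspace_eq_top_of_forall_mapsTo _ hcm
      fun u => Module.End.iSup_maxGenEigenspace_eq_top _
  by_cases hsc : ∃ χ, Wt χ = ⊤
  · obtain ⟨χ, hχ⟩ := hsc
    have h1 : ∀ (u : U) (v : V), (u : G) • v = χ u • v := fun u v =>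
      (hmem χ v).1 (hχ ▸ Submodule.mem_top) u
    have hc : Sc V U fun g => if h : g ∈ U then χ ⟨g, h⟩ else 0 :=
      ⟨fun u hu v => by rw [dif_pos hu]; exact h1 ⟨u, hu⟩ v, fun g _ κ v => smul_comm g κ v,
        fun g κ => ⟨κ, fun v => smul_comm g κ v⟩⟩
    have hA : (centralizer (U : Set G)).index = 1 := index_eq_one.2 (eq_top_iff.2 fun g _ u hu =>
      FaithfulSMul.eq_of_smul_eq_smul (α := V) fun v => by
        rw [mul_smul, mul_smul, h1 ⟨u, hu⟩, h1 ⟨u, hu⟩, smul_comm g])
    by_cases hFU : F ≤ U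
    · exact (bd_index _).mono (((centralizer_le hFU).trans hS.self).trans (hS.le.trans hFG))
        (hA.trans_le (Nat.one_le_pow _ _ three_pos))
    obtain ⟨e, b, -, he2, hed, -, h, hb, hb'⟩ := prim hS hc (ll _) hmax hB le_rfl hFU
    refine ((bd_index _).rel h).mono hFG ?_
    rw [hA, one_mul]
    exact (num3 he2 hb hb').trans (Nat.pow_le_pow_right three_pos (by omega))
  push Not at hsc
  let Ω := {χ // Wt χ ≠ ⊥}
  haveI : Finite Ω := Submodule.finite_ne_bot_of_iSupIndep hind
  haveI := Fintype.ofFinite Ω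
  have hext : ∀ a b : G, (∀ ω : Ω, ∀ v ∈ Wt ω, a • v = b • v) → a = b := fun a b h =>
    FaithfulSMul.eq_of_smul_eq_smul (α := V) fun v => by
      have h1 : ⨆ χ, Wt χ ≤ LinearMap.eqLocus (T a) (T b) := iSup_le fun χ => by
        by_cases h0 : Wt χ = ⊥
        · rw [h0]; exact bot_le
        · exact h ⟨χ, h0⟩
      exact h1 (htop ▸ Submodule.mem_top : v ∈ ⨆ χ, Wt χ)
  haveI : Nonempty Ω := by
    by_contra h
    refine top_ne_bot (htop.symm.trans (iSup_eq_bot.2 fun χ => by_contra fun h0 => h ⟨χ, h0⟩))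
  let cj : G → U → U := fun g u => ⟨g⁻¹ * u * g, hS.un.conj_mem' _ u.2 g⟩
  have hsm : ∀ (g : G) χ, ∀ v ∈ Wt χ, g • v ∈ Wt (χ ∘ cj g) := fun g χ v hv =>
    (hmem _ _).2 fun u => by
      rw [Function.comp_apply, ← smul_comm g (χ _), ← (hmem χ v).1 hv, ← mul_smul, ← mul_smul]
      congr 1
      simp only [cj]
      group
  letI : MulAction G Ω :=
    { smul := fun g ω => ⟨ω.1 ∘ cj g, by
        obtain ⟨v, hv, h0⟩ := Submodule.exists_mem_ne_zero_of_ne_bot ω.2
        exact (Submodule.ne_bot_iff _).2 ⟨_, hsm g _ v hv, by rwa [Ne, smul_eq_zero_iff_eq]⟩⟩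
      one_smul := fun ω => Subtype.ext (funext fun u => congrArg ω.1 (Subtype.ext (by
        change 1⁻¹ * (u : G) * 1 = u
        group)))
      mul_smul := fun a b ω => Subtype.ext (funext fun u => congrArg ω.1 (Subtype.ext (by
        change (a * b)⁻¹ * (u : G) * (a * b) = b⁻¹ * (a⁻¹ * u * a) * b
        group))) }
  set A := centralizer (U : Set G)
  have h1 : Bd A (3 ^ (Nat.card Ω - 1)) := (perm_gen G Ω).mono (fun g hg u hu => by
    have h2 := hext (cj g ⟨u, hu⟩) u fun ω v hv => by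
      rw [(hmem _ v).1 hv, (hmem _ v).1 hv ⟨u, hu⟩]
      exact congrArg (· • v) (congrFun (congrArg Subtype.val (mem_aK.1 hg ω)) ⟨u, hu⟩)
    change g⁻¹ * u * g = u at h2
    rwa [mul_assoc, inv_mul_eq_iff_eq_mul] at h2) le_rfl
  choose P _ _ N _ φ h2 h3 using fun ω : Ω => sub_nf (G := A) (Wt ω) ω.2 (fun g v hv =>
    (hmem _ _).2 fun u => by
      change (u : G) • (g : G) • v = ω.1 u • (g : G) • v
      rw [← mul_smul, g.2 u u.2, mul_smul, (hmem _ v).1 hv, smul_comm (g : G)])
    (ih _ (hd ▸ Submodule.finrank_lt (hsc ω)))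
  have h4 := bd_prod N _ h2 Finset.univ ((fittingSubgroup G).subgroupOf A) fun g hg => by
    haveI : (⨅ ω, N ω).Normal := normal_iInf_normal fun _ => inferInstance
    let ψ : (⨅ ω, N ω : Subgroup A) →* ∀ ω, P ω :=
      MonoidHom.pi fun ω => (φ ω).comp (inclusion (iInf_le N ω))
    have hψ : Function.Injective ψ := (injective_iff_map_eq_one ψ).2 fun x hx =>
      Subtype.ext (Subtype.ext (hext _ _ fun ω v hv =>
        (h3 ω _ (congrFun hx ω) v hv).trans (one_smul G v).symm))
    haveI := Group.nilpotent_of_mulEquiv (MonoidHom.ofInjective hψ).symm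
    exact Solv.map_subtype_fitting_le A ⟨g, Solv.le_fitting (N := ⨅ ω, N ω)
      (mem_iInf.2 fun ω => hg ω (Finset.mem_univ _)), rfl⟩
  refine (h1.rel h4).mono le_rfl ?_
  rw [Finset.prod_pow_eq_pow_sum, ← pow_add]
  refine Nat.pow_le_pow_right three_pos ?_
  have h5 := sum_pred (fun ω : Ω => Module.finrank ℂ (Wt ω)) fun ω =>
    Submodule.finrank_eq_zero.not.2 ω.2
  have h6 : ∑ ω : Ω, Module.finrank ℂ (Wt ω) ≤ d := by
    rw [← hd, ← Module.finrank_pi_fintype]
    refine LinearMap.finrank_le_finrank_of_injective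
      (f := ∑ ω : Ω, (Wt ω).subtype ∘ₗ LinearMap.proj ω)
      ((injective_iff_map_eq_zero _).2 fun x hx => funext fun ω => Subtype.ext ?_)
    exact (iSupIndep_iff_finsetSum_eq_zero_imp_eq_zero _).1 (hind.comp Subtype.val_injective)
      Finset.univ (fun ω => x ω) (fun ω _ => (x ω).2) (by simpa using hx) ω (Finset.mem_univ _)
  have h7 : 0 < Fintype.card Ω := Fintype.card_pos
  rw [Nat.card_eq_fintype_card]
  omega

end Cfsg.Agent.CH.Kc
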