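import Mathlib
import Cfsg.Agent.Char.Misc
import Cfsg.Agent.Char.Burnside
import Cfsg.Agent.CharDeep.MGroup
import Cfsg.Agent.CharDeep.Det
import Cfsg.Agent.Block.Q8
import Cfsg.Agent.BG.Base4

/-! Complex linear groups: values of rational characters on `p`-elements (`rat_val`), Schur's bound
(`card_dvd_of_rat`), Blichfeldt's abelian Hall subgroup for the primes `> n + 1` (`exists_hall`),
the diagonal subgroup of a nilpotent linear group (`exists_diag`). -/

set_option autoImplicit false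
set_option linter.unusedVariables false
set_option linter.unusedSectionVars false

namespace Cfsg.Agent.CH

open Cfsg.Agent.Char Cfsg.Agent.CharDeep Cfsg.Agent.Block Subgroup
open scoped commutatorElement

variable {G : Type*} [Group G] [Finite G] {χ φ : G → ℂ} {p q : ℕ}

theorem rat_val (hχ : IsCharacter G χ) (hp : p.Prime) {x : G} {k : ℕ} (hx : orderOf x = p ^ k)
    (h : ∀ m : ℕ, m.Coprime p → χ (x ^ m) = χ x) :
    ∃ j : ℕ, χ x = charDegree χ - p * j ∧ (p - 1) * j ≤ charDegree χ := by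
  rcases k with _ | k
  · exact ⟨0, by simp [orderOf_eq_one_iff.1 hx, hχ.apply_one_eq_charDegree], by simp⟩
  obtain ⟨c, hc⟩ := hχ.isGeneralizedCharacter.exists_int_of_forall_pow (g := x) fun m hm =>
    h m (by rwa [hx, Nat.coprime_pow_right_iff k.succ_pos] at hm)
  haveI := Fact.mk hp
  obtain ⟨M, _⟩ := exists_pMod p
  have h1 := red_apply_pElt (M := M) hχ ⟨_, hx⟩
  rw [hc, hχ.apply_one_eq_charDegree, red_intCast, red_natCast, eq_comm, ← sub_eq_zero] at h1
  obtain ⟨j, hj⟩ := (intCast_F_eq_zero_iff (M := M) (charDegree χ - c)).1 (by exact_mod_cast h1)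
  have h2 : ∀ g, (χ g).re ≤ charDegree χ := fun g =>
    (Complex.re_le_norm _).trans (hχ.norm_apply_le_charDegree g)
  have h3 : c ≤ charDegree χ := by have := h2 x; rw [hc] at this; exact_mod_cast this
  have hp0 : (0 : ℤ) < p := by exact_mod_cast hp.pos
  lift j to ℕ using (by nlinarith)
  have h4 : 0 ≤ (∑ m ∈ Finset.range (p ^ (k + 1)), χ (x ^ m)).re := by
    obtain ⟨n, ζ, -, h1, h2⟩ := hχ.exists_eigenvalues x
    rw [Finset.sum_congr rfl fun m _ => (by simpa using h2 m : χ (x ^ m) = ∑ i, ζ i ^ m),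
      Finset.sum_comm, Complex.re_sum]
    refine Finset.sum_nonneg fun i _ => ?_
    by_cases e : ζ i = 1
    · simp only [e, one_pow, Finset.sum_const, Finset.card_range, nsmul_eq_mul, mul_one,
        Complex.natCast_re]
      positivity
    · rw [geom_sum_eq e, ← hx, h1]
      simp
  have h5 := Finset.card_filter_add_card_filter_not (s := Finset.range (p ^ (k + 1)))
    fun m => (p ^ (k + 1)).Coprime m
  rw [← Finset.sum_filter_add_sum_filter_not _ fun m => (p ^ (k + 1)).Coprime m,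
    Finset.sum_congr rfl fun m hm => (h m (Nat.Coprime.symm (by
      simpa using (Finset.mem_filter.1 hm).2))).trans hc, Complex.add_re, Complex.re_sum _ fun m =>
      χ (x ^ m)] at h4
  have h6 := Finset.sum_le_card_nsmul ((Finset.range (p ^ (k + 1))).filter
    fun m => ¬ (p ^ (k + 1)).Coprime m) _ _ fun m _ => h2 (x ^ m)
  rw [← Nat.totient_eq_card_coprime, Nat.totient_prime_pow_succ hp, Finset.card_range] at h5
  rw [Finset.sum_const, ← Nat.totient_eq_card_coprime, Nat.totient_prime_pow_succ hp] at h4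
  obtain ⟨r, rfl⟩ : ∃ r, p = r + 1 := ⟨p - 1, by have := hp.pos; omega⟩
  rw [show _ = (r + 1) ^ k from Nat.add_left_cancel (h5.trans (by simp; ring))] at h6
  refine ⟨j, by rw [hc, ← sub_sub_cancel (charDegree χ : ℤ) c, hj]; simp, ?_⟩
  simp only [add_tsub_cancel_right, nsmul_eq_mul, Complex.mul_re, Complex.natCast_re,
    Complex.intCast_re, Complex.natCast_im, Complex.intCast_im, mul_zero, sub_zero] at h4 h6 ⊢
  have h7 : (0 : ℝ) ≤ ((r + 1) ^ k : ℕ) * (r * c + charDegree χ) := by push_cast at *; linarith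
  have h8 : (0 : ℤ) ≤ r * c + charDegree χ := by
    exact_mod_cast (mul_nonneg_iff_of_pos_left (by positivity)).1 h7
  push_cast at hj hp0
  have : ((r : ℤ) + 1) * (r * j) ≤ (r + 1) * charDegree χ := by nlinarith
  exact_mod_cast le_of_mul_le_mul_left this hp0

theorem apply_eq_of_rat (hχ : IsCharacter G χ) (hp : p.Prime) {x : G} {k : ℕ}
    (hx : orderOf x = p ^ k) (h : ∀ m : ℕ, m.Coprime p → χ (x ^ m) = χ x)
    (hd : charDegree χ + 1 < p) : χ x = χ 1 := by
  obtain ⟨j, h1, h2⟩ := rat_val hχ hp hx h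
  obtain rfl : j = 0 := by
    by_contra h0
    have := Nat.le_mul_of_pos_right (p - 1) (Nat.pos_of_ne_zero h0)
    omega
  simp [h1, hχ.apply_one_eq_charDegree]

/-- Schur's bound for a `p`-group with a faithful rational character. -/
theorem card_dvd_of_rat (hχ : IsCharacter G χ) (hf : ∀ g, χ g = χ 1 → g = 1) (hp : p.Prime)
    (hG : IsPGroup p G) (h : ∀ (x : G) (m : ℕ), m.Coprime p → χ (x ^ m) = χ x) :
    Nat.card G ∣ p ^ (charDegree χ / (p - 1)) * (charDegree χ / (p - 1)).factorial := by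
  classical
  haveI := Fact.mk hp
  haveI := Fintype.ofFinite G
  set m := charDegree χ / (p - 1)
  let f : ℕ → G → ℂ := fun r g => ∏ j ∈ Finset.range r, (χ g - (charDegree χ - p * (j + 1 : ℕ) : ℤ))
  have h1 : ∀ r, IsGeneralizedCharacter G (f r) := fun r => by
    induction r with
    | zero => simpa [f] using isGeneralizedCharacter_one
    | succ r ih =>
      have := ih.mul (hχ.isGeneralizedCharacter.sub
        (isGeneralizedCharacter_one.intCast_smul (charDegree χ - p * (r + 1 : ℕ))))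
      convert this using 1
      ext g
      simp [f, Finset.prod_range_succ]
  obtain ⟨z, hz⟩ := (h1 m).exists_int_classInner isGeneralizedCharacter_one
  rw [classInner_one_right, Finset.sum_eq_single 1, inv_mul_eq_iff_eq_mul₀ natCard_cast_ne_zero] at hz
  · have e : f m 1 = (p ^ m * m.factorial : ℕ) := by
      simp [f, hχ.apply_one_eq_charDegree, Finset.prod_mul_distrib, ← Finset.prod_range_add_one_eq_factorial]
    rw [e] at hz
    exact Int.natCast_dvd_natCast.1 ⟨z, by exact_mod_cast hz⟩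
  · intro g _ hg
    obtain ⟨k, hk⟩ := IsPGroup.iff_orderOf.1 hG g
    obtain ⟨j, e1, e2⟩ := rat_val hχ hp hk (h g)
    rcases j with _ | j
    · exact absurd (hf g (by simp [e1, hχ.apply_one_eq_charDegree])) hg
    refine Finset.prod_eq_zero (i := j) (Finset.mem_range.2 ?_) (by simp [e1])
    exact (Nat.le_div_iff_mul_le (by have := hp.two_le; omega)).2 (by rwa [mul_comm])
  · simp

theorem exists_gal (G : Type*) [Group G] [Finite G] (hp : p.Prime) {m : ℕ} (hm : m.Coprime p) :
    ∃ m' : ℕ, m'.Coprime (Nat.card G) ∧ (∀ g : G, ¬ p ∣ orderOf g → g ^ m' = g) ∧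
      ∀ (g : G) (k : ℕ), orderOf g = p ^ k → g ^ m' = g ^ m := by
  have h0 : Nat.card G ≠ 0 := Nat.card_pos.ne'
  have hc := Nat.coprime_ordCompl hp h0
  obtain ⟨m', h1, h2⟩ := Nat.chineseRemainder (hc.pow_left ((Nat.card G).factorization p)) m 1
  refine ⟨m', ?_, fun g hg => ?_, fun g k hk => ?_⟩
  · rw [← Nat.ordProj_mul_ordCompl_eq_self (Nat.card G) p]
    exact Nat.Coprime.mul_right (h1.gcd_eq.trans (hm.pow_right _)) (h2.gcd_eq.trans (by simp))
  · conv_rhs => rw [← pow_one g]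
    refine pow_eq_pow_iff_modEq.2 (h2.of_dvd ?_)
    refine ((hp.coprime_iff_not_dvd.2 hg).pow_left
      ((Nat.card G).factorization p)).symm.dvd_of_dvd_mul_left ?_
    rw [Nat.ordProj_mul_ordCompl_eq_self]
    exact orderOf_dvd_natCard g
  · refine pow_eq_pow_iff_modEq.2 (h1.of_dvd ?_)
    exact hk ▸ pow_dvd_pow _ ((hp.pow_dvd_iff_le_factorization h0).1 (hk ▸ orderOf_dvd_natCard g))

theorem apply_eq_of_constituents [Fintype G] (hχ : IsCharacter G χ) {g : G}
    (h : ∀ φ, IsIrrCharacter G φ → classInner χ φ ≠ 0 → φ g = φ 1) : χ g = χ 1 := by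
  rw [hχ.isClassFunction.apply_eq_sum_irr, hχ.isClassFunction.apply_eq_sum_irr 1]
  refine Finset.sum_congr rfl fun φ _ => ?_
  by_cases h0 : classInner χ φ = 0
  · simp [h0]
  · rw [h φ φ.2 h0]

theorem deg_le_of_constituent [Fintype G] (hχ : IsCharacter G χ) (hφ : IsIrrCharacter G φ)
    (h : classInner χ φ ≠ 0) : charDegree φ ≤ charDegree χ := by
  have := hχ.apply_one_re_le_of_classInner_ne_zero hφ h
  rw [hχ.apply_one_eq_charDegree, hφ.apply_one_eq_charDegree] at this
  exact_mod_cast this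

/-- Blichfeldt: an element of order divisible by `p q`. -/
theorem exists_pq (hχ : IsCharacter G χ) (hf : ∀ g, χ g = χ 1 → g = 1) (hp : p.Prime)
    (hq : q.Prime) (hpq : p ≠ q) (hp' : charDegree χ + 1 < p) (hq' : charDegree χ + 1 < q)
    (h1 : p ∣ Nat.card G) (h2 : q ∣ Nat.card G) : ∃ g : G, p ∣ orderOf g ∧ q ∣ orderOf g := by
  classical
  haveI := Fintype.ofFinite G
  haveI := Fact.mk hp
  haveI := Fact.mk hq
  obtain ⟨x, hx⟩ := exists_prime_orderOf_dvd_card' p h1
  obtain ⟨y, hy⟩ := exists_prime_orderOf_dvd_card' q h2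
  by_contra hc
  push Not at hc
  have key : Commute x y := by
    refine commutatorElement_eq_one_iff_commute.1 (hf _ (apply_eq_of_constituents hχ
      fun φ hφ h0 => hφ.isCharacter.mem_charKer.1 ?_))
    haveI := hφ.isClassFunction.normal_charKer
    have hd := deg_le_of_constituent hχ hφ h0
    by_cases a1 : ∀ m : ℕ, m.Coprime p → φ (x ^ m) = φ x
    · have := hφ.isCharacter.mem_charKer.2 (apply_eq_of_rat hφ.isCharacter hp
        (hx.trans (pow_one p).symm) a1 (by omega))
      rw [commutatorElement_def, mul_assoc, mul_assoc, ← mul_assoc y]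
      exact mul_mem this (Normal.conj_mem ‹_› _ (inv_mem this) y)
    by_cases a2 : ∀ m : ℕ, m.Coprime q → φ (y ^ m) = φ y
    · have := hφ.isCharacter.mem_charKer.2 (apply_eq_of_rat hφ.isCharacter hq
        (hy.trans (pow_one q).symm) a2 (by omega))
      exact mul_mem (Normal.conj_mem ‹_› _ this x) (inv_mem this)
    push Not at a1 a2
    obtain ⟨m, hm, a1⟩ := a1
    obtain ⟨k, hk, a2⟩ := a2
    obtain ⟨m', b1, b2, b3⟩ := exists_gal G hp hm
    obtain ⟨k', c1, c2, c3⟩ := exists_gal G hq hk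
    have e : φ + (fun g => φ (g ^ (m' * k'))) = (fun g => φ (g ^ m')) + fun g => φ (g ^ k') := by
      ext g
      by_cases hg : p ∣ orderOf g
      · simp only [Pi.add_apply, mul_comm m', pow_mul, c2 g (hc g hg), add_comm]
      · simp only [Pi.add_apply, pow_mul, b2 g hg]
    have e' := congrArg (classInner · φ) e
    simp only [classInner_add_left] at e'
    rw [hφ.classInner_self, (hφ.comp_pow b1).classInner_eq_zero_of_ne hφ fun h => a1 (by
        simpa [b3 x 1 (by simpa)] using congrFun h x),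
      (hφ.comp_pow c1).classInner_eq_zero_of_ne hφ fun h => a2 (by
        simpa [c3 y 1 (by simpa)] using congrFun h y)] at e'
    obtain ⟨t, ht⟩ := (hφ.comp_pow (b1.mul_left c1)).isCharacter.exists_nat_classInner
      hφ.isCharacter
    rw [ht] at e'
    norm_cast at e'
    omega
  have := key.orderOf_mul_eq_mul_orderOf_of_coprime (by
    rw [hx, hy]; exact (Nat.coprime_primes hp hq).2 hpq)
  exact hc (x * y) (by simp [this, hx]) (by simp [this, hy])

theorem comm_of_lt (hχ : IsCharacter G χ) (hf : ∀ g, χ g = χ 1 → g = 1) (H : Subgroup G)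
    (h : ∀ r : ℕ, r.Prime → r ∣ Nat.card H → charDegree χ < r) :
    ∀ x ∈ H, ∀ y ∈ H, x * y = y * x := fun x hx y hy =>
  congrArg Subtype.val ((hχ.restrict H).comm_of_faithful_of_lt ((eq_bot_iff_forall _).2 fun g hg =>
    Subtype.ext (hf _ ((hχ.restrict H).mem_charKer.1 hg))) h ⟨x, hx⟩ ⟨y, hy⟩)

/-- A central `p`-element is trivial when `p > n` and there is no normal subgroup of index `p`. -/
theorem eq_one_of_central (hχ : IsCharacter G χ) (hf : ∀ g, χ g = χ 1 → g = 1) (hp : p.Prime)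
    (hp' : charDegree χ < p) (hG : ¬ p ∣ (commutator G).index) {z : G} (hz : z ∈ center G)
    {k : ℕ} (hk : orderOf z = p ^ k) : z = 1 := by
  haveI := Fintype.ofFinite G
  refine hf _ (apply_eq_of_constituents hχ fun φ hφ h0 => ?_)
  obtain ⟨lam, hl⟩ := hφ.exists_hom_of_le_center _ le_rfl
  have h1 : φ z = lam ⟨z, hz⟩ * φ 1 := by simpa using hl ⟨z, hz⟩ 1
  have h2 := detChar_of_apply_eq_mul hφ.isCharacter hφ.apply_one_eq_charDegree
    (norm_hom_apply lam _) h1
  have h3 := DFunLike.congr_fun (hom_pow_index_eq_one (commutator G) (detHom hφ.isCharacter)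
    fun n hn => Abelianization.commutator_subset_ker _ hn) z
  have h4 : lam ⟨z, hz⟩ ^ (charDegree φ * (commutator G).index) = 1 := by
    refine Units.ext ?_
    rw [pow_mul, Units.val_pow_eq_pow_val, Units.val_pow_eq_pow_val, ← h2, ← coe_detHom hφ.isCharacter,
      ← Units.val_pow_eq_pow_val]
    exact congrArg _ h3
  have h5 : lam ⟨z, hz⟩ ^ p ^ k = 1 := by
    rw [← map_pow, ← hk, ← map_one lam]
    exact congrArg _ (Subtype.ext (pow_orderOf_eq_one z))
  have h6 : (p ^ k).Coprime (charDegree φ * (commutator G).index) :=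
    Nat.Coprime.pow_left _ (Nat.Coprime.mul_right (Nat.coprime_of_lt_prime hφ.charDegree_pos.ne'
      ((deg_le_of_constituent hχ hφ h0).trans_lt hp') hp) (hp.coprime_iff_not_dvd.2 hG))
  rw [h1, show lam ⟨z, hz⟩ = 1 from orderOf_eq_one_iff.1 (Nat.eq_one_of_dvd_coprimes h6
    (orderOf_dvd_of_pow_eq_one h5) (orderOf_dvd_of_pow_eq_one h4))]
  simp

/-- The diagonal subgroup of a nilpotent linear group. -/
theorem exists_diag [Group.IsNilpotent G] (hχ : IsCharacter G χ) :
    ∃ D : Subgroup G, D.Normal ∧ D.index ∣ (charDegree χ).factorial ∧ ⁅D, D⁆ ≤ charKer χ := by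
  haveI := Fintype.ofFinite G
  refine isCharacter_induction (P := fun χ => ∃ D : Subgroup G, D.Normal ∧
    D.index ∣ (charDegree χ).factorial ∧ ⁅D, D⁆ ≤ charKer χ)
    ⟨⊤, inferInstance, by simp, fun g _ x => rfl⟩ ?_ hχ
  rintro φ ψ hφ hψ ⟨D, hD, h1, h2⟩
  obtain ⟨H, lam, rfl⟩ := isMonomial_of_isNilpotent hφ
  have e1 : charDegree (indFun H fun h => (lam h : ℂ)) = H.index :=
    charDegree_eq_of_apply_one (by simp [indFun_one])
  have e2 : charDegree (indFun H (fun h => (lam h : ℂ)) + ψ) = H.index + charDegree ψ :=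
    charDegree_eq_of_apply_one (by simp [indFun_one, hψ.apply_one_eq_charDegree])
  refine ⟨H.normalCore ⊓ D, inferInstance, ?_, fun g hg x => ?_⟩
  · rw [e2, ← relIndex_mul_index inf_le_right, inf_relIndex_right]
    refine (mul_dvd_mul ((relIndex_dvd_index_of_normal _ _).trans ?_) h1).trans
      (Nat.factorial_mul_factorial_dvd_factorial_add _ _)
    rw [normalCore_eq_ker, index_ker, index_eq_card, ← Nat.card_perm]
    exact card_subgroup_dvd_card _
  · have a1 : g ∈ ⁅H.normalCore, H.normalCore⁆ := commutator_mono inf_le_left inf_le_left hg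
    have a2 : ⁅H.normalCore, H.normalCore⁆ ≤ H :=
      (commutator_le_right _ _).trans H.normalCore_le
    have a3 : ⁅H.normalCore, H.normalCore⁆ ≤ lam.ker.map H.subtype :=
      commutator_le.2 fun a ha b hb => ⟨⁅(⟨a, H.normalCore_le ha⟩ : H), ⟨b, H.normalCore_le hb⟩⁆,
        Abelianization.commutator_subset_ker lam (commutator_mem_commutator (mem_top _) (mem_top _)),
        rfl⟩
    have := hφ.isCharacter.mem_charKer.2 (indFun_apply_eq_of_normal H _ _ a2 (fun m hm => by
      obtain ⟨y, hy, rfl⟩ := a3 hm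
      simpa using hy) a1)
    simp only [Pi.add_apply, this x, h2 (commutator_mono inf_le_right inf_le_right hg) x]

open Cfsg.Agent.BG in
/-- Blichfeldt's Hall subgroup for the primes `> n + 1` (abelian by `comm_of_lt`). -/
theorem exists_hall (hχ : IsCharacter G χ) (hf : ∀ g, χ g = χ 1 → g = 1) (M : Subgroup G) :
    ∃ H, IsPiHallOf {r | charDegree χ + 1 < r} H M := by
  set π := {r | charDegree χ + 1 < r} with hπ
  have hab : ∀ H : Subgroup G, PiGrp π H → H ≤ C[H] := fun H h x hx y hy =>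
    comm_of_lt hχ hf H (fun r hr hd => lt_trans (Nat.lt_succ_self _) (h r hr hd)) y hy x hx
  induction hn : #M using Nat.strong_induction_on generalizing M with | _ n ih => ?_
  have ih' : ∀ K ≤ M, K ≠ M → ∃ H, IsPiHallOf π H K := fun K h1 h2 =>
    ih _ (hn ▸ proper_card (h1.lt_of_ne h2)) K rfl
  by_contra hc
  have hno : ∀ K ≤ M, PiNat πᶜ (K.relIndex M) → K = M := fun K h1 h2 => by
    by_contra h
    obtain ⟨H, hH⟩ := ih' K h1 h
    exact hc ⟨H, pHall_trans_idx hH h1 h2⟩
  have hidx : ∀ {s : ℕ} {S K : Subgroup G}, s.Prime → SylowIn s S M → S ≤ K → K ≤ M →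
      PiNat {s}ᶜ (K.relIndex M) := fun hs h1 h2 h3 =>
    h1.idx.of_dvd (Dvd.intro_left _ (relIndex_mul_relIndex _ _ _ h2 h3))
  have hχM := hχ.restrict M
  have hfM : ∀ g : M, χ g = χ (1 : M) → g = 1 := fun g hg => Subtype.ext (hf _ hg)
  by_cases hA : ∃ p, p.Prime ∧ p ∈ π ∧ p ∣ (commutator M).index
  · obtain ⟨p, hp, hpπ, hd⟩ := hA
    haveI := Fact.mk hp
    haveI : Finite (M →* ℂˣ) := Nat.finite_of_card_ne_zero (by
      rw [card_hom_units_complex]; exact index_ne_zero_of_finite)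
    obtain ⟨lam, hl⟩ := exists_prime_orderOf_dvd_card' (G := M →* ℂˣ) p
      (by rwa [card_hom_units_complex])
    set K := lam.ker.map M.subtype with hK
    have hKM : K ⊴ M := normal_map_subtype inferInstance
    have hKi : PiNat {p} (K.relIndex M) := by
      rw [hK, relIndex_map_subtype, index_ker]
      haveI : Finite lam.range := Finite.of_surjective _ lam.rangeRestrict_surjective
      obtain ⟨k, hk⟩ := IsPGroup.iff_card.1 (show IsPGroup p lam.range from fun ⟨_, g, rfl⟩ =>
        ⟨1, Subtype.ext (by simpa [hl] using DFunLike.congr_fun (pow_orderOf_eq_one lam) g)⟩)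
      exact hk ▸ pnat_pow_self hp k
    obtain ⟨H, hH⟩ := ih' K hKM.le fun h => by
      have : lam = 1 := MonoidHom.ext fun g => by
        obtain ⟨y, hy, e⟩ : (g : G) ∈ K := h.ge g.2
        rwa [← show y = g from Subtype.ext e]
      exact hp.one_lt.ne (by rw [← hl, this, orderOf_one])
    obtain ⟨P, hP⟩ := Sylow_exists p M
    refine hc ⟨P ⊔ piCoreOf π M, pHall_of_Sylow (sup_le hP.le (pcore_sub _ _))
      (pgroupY (.inl (hP.le.trans (pcore_normal _ _).norm)) (pi_pgroup hP.pg hpπ)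
        (pcore_pgroup _ _)) fun q hq hqπ => ?_⟩
    by_cases e : q = p
    · exact ⟨P, e ▸ hP, le_sup_left⟩
    haveI := Fact.mk hq
    obtain ⟨Q, hQ⟩ := Sylow_exists q H
    have hQK := subHall_Sylow hH hqπ hQ
    have hQM := pHall_trans_idx hQK hKM.le (pi_p'nat hKi e)
    refine ⟨Q, hQM, le_sup_of_le_right (pcore_max ⟨hQM.le, ?_⟩ (pi_pgroup hQ.pg hqπ))⟩
    refine inf_eq_left.1 (hno _ inf_le_left ?_)
    have e1 := relIndex_sup_norml (A := K) (B := M ⊓ N[Q]) (inf_le_left.trans hKM.norm)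
    have e2 := relIndex_mul_relIndex (K ⊓ (M ⊓ N[Q])) K M inf_le_left hKM.le
    rw [Frattini_arg hKM hQK] at e1
    rw [← relIndex_mul_relIndex _ (M ⊓ N[Q]) M inf_le_right inf_le_left, inf_relIndex_right, e1,
      mul_comm] at e2
    rw [← Nat.eq_of_mul_eq_mul_left (relIndex_pos _ _) e2]
    exact hH.idx.of_dvd (relIndex_dvd_of_le_left _ (le_inf hH.le (le_inf (hH.le.trans hKM.le)
      (((hab H hH.pi).trans (centralizer_le hQ.le)).trans (cent_sub _)))))
  push Not at hA
  have hz : ∀ {s : ℕ} {x : G}, s.Prime → s ∈ π → orderOf x = s → x ∈ M → M ⊓ C1[x] ≠ M := by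
    intro s x hs hsπ hx hxM h
    have := eq_one_of_central hχM hfM hs (lt_trans (Nat.lt_succ_self _) hsπ) (hA s hs hsπ)
      (z := ⟨x, hxM⟩) (mem_center_iff.2 fun g => Subtype.ext (mem_cent1.1 (inf_eq_left.1 h g.2)))
      (k := 1) (by simpa using hx)
    exact hs.one_lt.ne (by rw [← hx, show x = 1 from congrArg Subtype.val this, orderOf_one])
  have hs : ∀ {s : ℕ} {x : G}, s.Prime → s ∈ π → orderOf x = s → x ∈ M →
      PiNat {s}ᶜ ((M ⊓ C1[x]).relIndex M) := by
    intro s x hs hsπ hx hxM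
    haveI := Fact.mk hs
    obtain ⟨S, h1, h2⟩ := Sylow_superset (p := s) (zpowers_le.2 hxM)
      (IsPGroup.of_card (n := 1) (by simpa using hx))
    exact hidx hs h1 (le_inf h1.le ((hab S (pi_pgroup h1.pg hsπ)).trans
      (cent_le_cent1 (h2 (mem_zpowers x))))) inf_le_left
  by_cases h0 : PiGrp πᶜ M
  · exact hc ⟨⊥, pHall_bot h0⟩
  obtain ⟨p, hp, hpM, hpπ⟩ : ∃ p, p.Prime ∧ p ∣ #M ∧ p ∈ π := by
    simpa [PiGrp, PiNat] using h0
  haveI := Fact.mk hp
  obtain ⟨P, hP⟩ := Sylow_exists p M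
  obtain ⟨z, hz'⟩ := exists_prime_orderOf_dvd_card' p (Hall_dvd hP hp rfl hpM)
  refine hz hp hpπ ((orderOf_coe z).trans hz') (hP.le z.2) (le_antisymm inf_le_left
    (le_inf le_rfl ((inf_eq_left.1 (hno _ inf_le_left fun s hs' hd hsπ => ?_)).trans
      (cent_le_cent1 z.2))))
  by_cases e : s = p
  · exact hidx hp hP (le_inf hP.le (hab P (pi_pgroup hP.pg hpπ))) inf_le_left s hs' hd e
  haveI := Fact.mk hs'
  obtain ⟨g, g1, g2⟩ := exists_pq hχM hfM hp hs' (Ne.symm e) hpπ hsπ hpM
    (hd.trans (relIndex_dvd_card _ _))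
  have hx := orderOf_pow_orderOf_div (orderOf_pos g).ne' g1
  have hy := orderOf_pow_orderOf_div (orderOf_pos g).ne' g2
  rw [← orderOf_coe] at hx hy
  obtain ⟨H1, hH1⟩ := ih' _ inf_le_left (hz hp hpπ hx (SetLike.coe_mem _))
  obtain ⟨y, hy'⟩ := exists_prime_orderOf_dvd_card' s (Hall_dvd hH1 hs' hsπ (hy ▸
    orderOf_dvd_natCard _ ⟨SetLike.coe_mem _, mem_cent1.2 (by simp [← pow_add, add_comm])⟩))
  rw [← orderOf_coe] at hy'
  have hyM : (y : G) ∈ M := (hH1.le y.2).1
  obtain ⟨P2, hP2⟩ := Sylow_exists p H1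
  have hP2' := pHall_trans_idx (subHall_Sylow hH1 hpπ hP2) inf_le_left
    (hs hp hpπ hx (SetLike.coe_mem _))
  obtain ⟨H2, hH2⟩ := ih' _ inf_le_left (hz hs' hsπ hy' hyM)
  obtain ⟨P3, hP3⟩ := Sylow_exists p H2
  obtain ⟨S3, hS3⟩ := Sylow_exists s H2
  obtain ⟨c, hc1, rfl⟩ := Sylow_trans (pHall_trans_idx (subHall_Sylow hH2 hpπ hP3) inf_le_left
    (hidx hp hP2' (le_inf hP2'.le ((hP2.le.trans (hab H1 hH1.pi)).trans (cent_le_cent1 y.2)))
      inf_le_left)) hP
  have hS := pHallJsub hc1 (pHall_trans_idx (subHall_Sylow hH2 hsπ hS3) inf_le_left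
    (hs hs' hsπ hy' hyM))
  refine hidx hs' hS (le_inf hS.le ?_) inf_le_left s hs' hd rfl
  rw [C_cj]
  exact cj_mono _ ((hS3.le.trans (hab H2 hH2.pi)).trans (centralizer_le hP3.le))

end Cfsg.Agent.CH
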