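import Mathlib
import Cfsg.Agent.Char.FS
import Cfsg.Agent.CH.Jordan

/-! Invariant bilinear forms of a real-valued irreducible matrix representation (`form`: the space
of invariant forms is a line and `Mᵀ = ν M`), and realisability over `ℝ` when `ν = 1`
(`exists_real`). -/

set_option autoImplicit false
set_option linter.unusedVariables false
set_option linter.unusedSectionVars false

namespace Cfsg.Agent.CH

open Cfsg.Agent.Char Matrix
open scoped ComplexConjugate

variable {G : Type*} [Group G] [Fintype G] {n : ℕ}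

theorem trace_matEnd (f : Matrix (Fin n) (Fin n) ℂ →ₗ[ℂ] Matrix (Fin n) (Fin n) ℂ) :
    LinearMap.trace ℂ _ f = ∑ i, ∑ j, f (single i j 1) i j := by
  rw [LinearMap.trace_eq_matrix_trace ℂ (Matrix.stdBasis ℂ (Fin n) (Fin n)), Matrix.trace,
    Fintype.sum_prod_type]
  refine Finset.sum_congr rfl fun i _ => Finset.sum_congr rfl fun j _ => ?_
  rw [Matrix.diag_apply, LinearMap.toMatrix_apply, Matrix.stdBasis_eq_single]
  simp [Matrix.stdBasis]

theorem mul_single_mul (A B : Matrix (Fin n) (Fin n) ℂ) (i j k l : Fin n) :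
    (A * single i j (1 : ℂ) * B) k l = A k i * B j l := by
  simp [Matrix.mul_apply, Matrix.single_apply, ite_and, Finset.sum_ite_eq]

/-- `N ↦ Aᵀ N A`. -/
noncomputable def cgr (A : Matrix (Fin n) (Fin n) ℂ) :
    Matrix (Fin n) (Fin n) ℂ →ₗ[ℂ] Matrix (Fin n) (Fin n) ℂ where
  toFun N := Aᵀ * N * A
  map_add' _ _ := by simp [Matrix.mul_add, Matrix.add_mul]
  map_smul' _ _ := by simp

theorem form (X : G →* Matrix (Fin n) (Fin n) ℂ) (hi : IsIrrCharacter G fun g => (X g).trace)
    (hr : ∀ g, ((X g).trace).im = 0) :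
    (∃ M : Matrix (Fin n) (Fin n) ℂ, M ≠ 0 ∧ ∀ g, (X g)ᵀ * M * X g = M) ∧
      ∀ M : Matrix (Fin n) (Fin n) ℂ, (∀ g, (X g)ᵀ * M * X g = M) →
        Mᵀ = fsInd (fun g => (X g).trace) • M := by
  classical
  set P := (Nat.card G : ℂ)⁻¹ • ∑ g, cgr (X g) with hP
  have hPa : ∀ N, P N = (Nat.card G : ℂ)⁻¹ • ∑ g, (X g)ᵀ * N * X g := fun N => by
    simp [hP, cgr, LinearMap.sum_apply]
  let B : Submodule ℂ (Matrix (Fin n) (Fin n) ℂ) :=
    { carrier := {M | ∀ g, (X g)ᵀ * M * X g = M}
      add_mem' := fun ha hb g => by rw [Matrix.mul_add, Matrix.add_mul, ha g, hb g]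
      zero_mem' := fun g => by simp
      smul_mem' := fun c M h g => by simp [h g] }
  have hproj : LinearMap.IsProj B P := by
    refine ⟨fun N g => ?_, fun N hN => ?_⟩
    · rw [hPa, Matrix.mul_smul, Matrix.smul_mul, Finset.mul_sum, Finset.sum_mul]
      congr 1
      refine Fintype.sum_equiv (Equiv.mulRight g) _ _ fun x => ?_
      simp [Matrix.mul_assoc]
    · rw [hPa, Finset.sum_congr rfl fun g _ => hN g, Finset.sum_const, Finset.card_univ,
        ← Nat.card_eq_fintype_card, ← Nat.cast_smul_eq_nsmul ℂ, smul_smul,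
        inv_mul_cancel₀ natCard_cast_ne_zero, one_smul]
  have h1 : LinearMap.trace ℂ _ P = 1 := by
    have := hi.classInner_mul_self_one
    rw [if_pos hr, classInner_one_right] at this
    rw [← this, hP, map_smul, map_sum, smul_eq_mul]
    congr 1
    refine Finset.sum_congr rfl fun g _ => ?_
    rw [trace_matEnd]
    simp [cgr, mul_single_mul, Matrix.trace, Finset.sum_mul_sum]
  have hB : Module.finrank ℂ B = 1 := by exact_mod_cast hproj.trace.symm.trans h1
  refine ⟨?_, fun M hM => ?_⟩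
  · obtain ⟨v, hv, -⟩ := finrank_eq_one_iff'.1 hB
    exact ⟨v, fun h => hv (Subtype.ext h), v.2⟩
  by_cases h0 : M = 0
  · simp [h0]
  have hsp := (finrank_eq_one_iff_of_nonzero' (⟨M, hM⟩ : B) fun h => h0 (congrArg Subtype.val h)).1 hB
  obtain ⟨c, hc⟩ := hsp ⟨Mᵀ, fun g => by
    have := congrArg Matrix.transpose (hM g)
    simpa [Matrix.mul_assoc] using this⟩
  replace hc : c • M = Mᵀ := congrArg Subtype.val hc
  have h2 : (Matrix.transposeLinearEquiv (Fin n) (Fin n) ℂ ℂ).toLinearMap ∘ₗ P = c • P := by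
    refine LinearMap.ext fun N => ?_
    obtain ⟨a, ha⟩ := hsp ⟨P N, hproj.map_mem N⟩
    replace ha : a • M = P N := congrArg Subtype.val ha
    simp [← ha, ← hc, smul_comm a c]
  have h3 := congrArg (LinearMap.trace ℂ _) h2
  rw [map_smul, h1, smul_eq_mul, mul_one, hP, LinearMap.comp_smul, map_smul, trace_matEnd] at h3
  rw [← hc, ← h3, fsInd, smul_eq_mul]
  congr 2
  simp only [LinearMap.comp_apply, LinearMap.sum_apply, map_sum, Matrix.sum_apply]
  rw [Finset.sum_congr rfl fun i _ => Finset.sum_comm, Finset.sum_comm]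
  refine Finset.sum_congr rfl fun g _ => ?_
  have : ∀ i j, (cgr (X g) (single i j 1)) j i = X g i j * X g j i := fun i j =>
    mul_single_mul _ _ _ _ _ _
  simp [this, Matrix.trace, Matrix.mul_apply]

theorem exists_smul_one (X : G →* Matrix (Fin n) (Fin n) ℂ)
    (hi : IsIrrCharacter G fun g => (X g).trace) (N : Matrix (Fin n) (Fin n) ℂ)
    (h : ∀ g, N * X g = X g * N) : ∃ c : ℂ, N = c • 1 := by
  haveI := isIrreducible_of_isIrrCharacter (matrixRep X) (by rwa [character_matrixRep])
  obtain ⟨c, hc⟩ := exists_eq_smul_of_comm (matrixRep X) (Matrix.toLin' N) fun x => by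
    rw [matrixRep_apply, Module.End.mul_eq_comp, Module.End.mul_eq_comp, ← Matrix.toLin'_mul,
      ← Matrix.toLin'_mul, h]
  exact ⟨c, Matrix.toLin'.injective (by simp [hc])⟩

/-- Hilbert 90 for complex conjugation. -/
theorem exists_isUnit_conj (M : Matrix (Fin n) (Fin n) ℂ) (h : M.map conj * M = 1) :
    ∃ P : Matrix (Fin n) (Fin n) ℂ, IsUnit P ∧ P.map conj = M * P := by
  have h' : M * M.map conj = 1 := mul_eq_one_comm.1 h
  have hk : ∀ k : ℕ, (1 - Complex.I * k : ℂ) ≠ 0 := fun k h => by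
    simpa using congrArg Complex.re h
  let f : ℕ → ℂ := fun k => -(1 + Complex.I * k) / (1 - Complex.I * k)
  have hf : Function.Injective f := fun a b hab => by
    simp only [f] at hab
    rw [div_eq_div_iff (hk a) (hk b)] at hab
    have : (a : ℂ) = b := by
      refine mul_left_cancel₀ (a := 2 * Complex.I) (by simp) ?_
      linear_combination -hab
    exact_mod_cast this
  obtain ⟨k, hk'⟩ : ∃ k, f k ∉ spectrum ℂ (M.map conj) := by
    by_contra hc
    push Not at hc
    exact Set.infinite_range_of_injective hf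
      ((Matrix.finite_spectrum (M.map conj)).subset (Set.range_subset_iff.2 hc))
  rw [spectrum.notMem_iff] at hk'
  refine ⟨(1 + Complex.I * k) • 1 + (1 - Complex.I * k) • M.map conj, ?_, ?_⟩
  · have : (1 + Complex.I * k) • (1 : Matrix (Fin n) (Fin n) ℂ) + (1 - Complex.I * k) • M.map conj =
        algebraMap ℂ _ (-(1 - Complex.I * k)) * (algebraMap ℂ _ (f k) - M.map conj) := by
      rw [mul_sub, ← map_mul, Algebra.algebraMap_eq_smul_one, Algebra.algebraMap_eq_smul_one,
        smul_mul_assoc, one_mul, neg_smul, sub_neg_eq_add]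
      congr 2
      simp only [f]
      field_simp [hk k]
    rw [this]
    exact ((neg_ne_zero.2 (hk k)).isUnit.map _).mul hk'
  · rw [Matrix.mul_add, Matrix.mul_smul, Matrix.mul_smul, h', Matrix.mul_one]
    ext i j
    by_cases hij : i = j <;> simp [hij]
    ring

theorem exists_real {χ : G → ℂ} (hχ : IsIrrCharacter G χ) (h1 : fsInd χ = 1) :
    ∃ (n : ℕ) (Y : G →* Matrix (Fin n) (Fin n) ℝ), ∀ g, ((Y g).trace : ℂ) = χ g := by
  obtain ⟨n, U, hU, rfl⟩ := exists_unitary hχ.isCharacter
  have hr : ∀ g, ((U g).trace).im = 0 := by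
    by_contra hc
    push Not at hc
    simp [hχ.fsInd_eq_zero hc] at h1
  obtain ⟨⟨M, hM0, hM⟩, h2⟩ := form U hχ hr
  have hs := h2 M hM
  rw [h1, one_smul] at hs
  have hMU : ∀ g, M * U g = (U g).map conj * M := fun g => by
    have e : (U g).map conj * (U g)ᵀ = 1 := by
      have := congrArg Matrix.transpose (hU g).1
      rwa [Matrix.transpose_mul, Matrix.transpose_one, mul_eq_one_comm] at this
    conv_rhs => rw [← hM g, ← Matrix.mul_assoc, ← Matrix.mul_assoc, e, Matrix.one_mul]
  have hMU' : ∀ g, M.map conj * (U g).map conj = U g * M.map conj := fun g => by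
    have := congrArg (fun A : Matrix (Fin n) (Fin n) ℂ => A.map conj) (hMU g)
    simp only [Matrix.map_mul] at this
    rw [this]
    congr 1
    ext i j
    simp
  obtain ⟨c, hc⟩ := exists_smul_one U hχ (M.map conj * M) fun g => by
    rw [Matrix.mul_assoc, hMU, ← Matrix.mul_assoc, hMU', Matrix.mul_assoc]
  have hst : M.map conj = Mᴴ := by
    conv_lhs => rw [← hs]
    rfl
  obtain ⟨i, j, hij⟩ : ∃ i j, M i j ≠ 0 := by
    by_contra h
    push Not at h
    exact hM0 (Matrix.ext h)
  obtain ⟨r, hr0, rfl⟩ : ∃ r : ℝ, 0 < r ∧ c = r := by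
    refine ⟨∑ k, Complex.normSq (M k j), Finset.sum_pos' (fun k _ => Complex.normSq_nonneg _)
      ⟨i, Finset.mem_univ _, Complex.normSq_pos.2 hij⟩, ?_⟩
    have := congrFun (congrFun hc j) j
    rw [hst] at this
    simp only [Matrix.mul_apply, Matrix.smul_apply, Matrix.one_apply_eq, smul_eq_mul, mul_one,
      Matrix.conjTranspose_apply] at this
    simp [← this, Complex.normSq_eq_conj_mul_self]
  have hsq : ((√r : ℝ) : ℂ) ≠ 0 := by exact_mod_cast (Real.sqrt_pos.2 hr0).ne'
  obtain ⟨P, hP, hPM⟩ := exists_isUnit_conj (((√r : ℝ) : ℂ)⁻¹ • M) (by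
    have : (((√r : ℝ) : ℂ)⁻¹ • M).map conj = ((√r : ℝ) : ℂ)⁻¹ • M.map conj := by
      ext a b
      simp
    rw [this, smul_mul_smul_comm, hc, smul_smul]
    have : ((√r : ℝ) : ℂ) * (√r : ℝ) = r := by exact_mod_cast Real.mul_self_sqrt hr0.le
    rw [← this]
    field_simp
    simp)
  obtain ⟨P, rfl⟩ := hP
  have hY : ∀ g, (P.inv * U g * P.val).map conj = P.inv * U g * P.val := fun g => by
    have e : (P.inv.map conj) * (P.val.map conj) = 1 := by
      rw [← Matrix.map_mul, P.inv_val, Matrix.map_one _ (map_zero _) (map_one _)]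
    rw [Matrix.map_mul, Matrix.map_mul, hPM, Matrix.mul_assoc, ← Matrix.mul_assoc ((U g).map _),
      Matrix.mul_smul, ← hMU, ← Matrix.smul_mul]
    calc _ = P.inv.map conj * (((√r : ℝ) : ℂ)⁻¹ • M * P.val) * (P.inv * U g * P.val) := by
          simp only [Matrix.mul_assoc]
          rw [← Matrix.mul_assoc P.val, P.val_inv, Matrix.one_mul]
      _ = _ := by rw [← hPM, e, Matrix.one_mul]
  have hre : ∀ g, ((P.inv * U g * P.val).map Complex.re).map Complex.ofRealHom =
      P.inv * U g * P.val := fun g => by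
    ext i j
    exact Complex.conj_eq_iff_re.1 (congrFun (congrFun (hY g) i) j)
  have hinj : Function.Injective fun A : Matrix (Fin n) (Fin n) ℝ => A.map Complex.ofRealHom :=
    Matrix.map_injective Complex.ofReal_injective
  refine ⟨n, ⟨⟨fun g => (P.inv * U g * P.val).map Complex.re, hinj ?_⟩, fun a b => hinj ?_⟩,
    fun g => ?_⟩
  · simp only [hre]
    rw [map_one, Matrix.mul_one, P.inv_val, Matrix.map_one _ (map_zero _) (map_one _)]
  · simp only [Matrix.map_mul, hre]
    simp only [map_mul, Matrix.mul_assoc]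
    rw [← Matrix.mul_assoc P.val, P.val_inv, Matrix.one_mul]
  · have := congrArg Matrix.trace (hre g)
    rw [Matrix.trace_mul_cycle, P.val_inv, Matrix.one_mul] at this
    simpa [Matrix.trace] using this

theorem fsInd_of_real {χ : G → ℂ} (hχ : IsIrrCharacter G χ) (Y : G →* Matrix (Fin n) (Fin n) ℝ)
    (h : ∀ g, ((Y g).trace : ℂ) = χ g) : fsInd χ = 1 := by
  classical
  let X : G →* Matrix (Fin n) (Fin n) ℂ := (Complex.ofRealHom.mapMatrix.toMonoidHom).comp Y
  have e : χ = fun g => (X g).trace := funext fun g => by simp [← h, X, Matrix.trace]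
  subst e
  have h2 := (form X hχ fun g => (congrArg Complex.im (h g)).symm.trans (Complex.ofReal_im _)).2 (∑ g, (X g)ᵀ * X g) fun g => by
    rw [Finset.mul_sum, Finset.sum_mul]
    refine Fintype.sum_equiv (Equiv.mulRight g) _ _ fun x => ?_
    simp [Matrix.mul_assoc]
  have h3 := congrArg Matrix.trace h2
  rw [Matrix.trace_transpose, Matrix.trace_smul, smul_eq_mul] at h3
  have h4 : (∑ g, (X g)ᵀ * X g).trace = ((∑ g, ((Y g)ᵀ * Y g).trace : ℝ) : ℂ) := by
    rw [Matrix.trace_sum]
    simp [X, Matrix.trace, Matrix.mul_apply]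
  have h5 : 0 < ∑ g, ((Y g)ᵀ * Y g).trace := by
    refine Finset.sum_pos' (fun g _ => ?_) ⟨1, Finset.mem_univ _, ?_⟩
    · simp only [Matrix.trace, Matrix.diag, Matrix.mul_apply, Matrix.transpose_apply]
      exact Finset.sum_nonneg fun i _ => Finset.sum_nonneg fun j _ => mul_self_nonneg _
    · have := hχ.apply_one_ne_zero
      simp only [map_one, Matrix.trace_one, Fintype.card_fin, Nat.cast_ne_zero] at this
      simpa using Nat.pos_of_ne_zero this
  rw [h4] at h3
  exact (mul_left_eq_self₀.1 h3.symm).resolve_right (by exact_mod_cast h5.ne')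

end Cfsg.Agent.CH
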