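import Cfsg.Agent.Small.PermP
import Cfsg.Agent.Small.Brauer1
import Cfsg.Agent.Small.Simp
import Cfsg.Agent.CharDeep.Det
import Cfsg.Agent.Perm.Orbital

/-! Simple groups with `|N(P)| = 2p` acting transitively on `3p` points: the character theory. -/

set_option autoImplicit false
open Cfsg

namespace Cfsg.Agent.CH.Three

open Finset Cfsg.Agent.Small Cfsg.Agent.Char Cfsg.Agent.CharDeep Cfsg.Agent.Perm MulAction
open scoped ComplexConjugate

variable {G : Type*} [Group G] [Finite G]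

theorem exists_four (hperf : commutator G = ⊤) {χ : G → ℂ} (hχ : IsCharacter G χ) {z : G} (hz : z * z = 1) :
    ∃ k : ℕ, χ z = χ 1 - 4 * k := by
  classical
  have h6 := congrArg Units.val (show detHom hχ z = 1 from
    Abelianization.commutator_subset_ker _ (hperf ▸ Subgroup.mem_top z))
  rw [coe_detHom] at h6
  obtain ⟨n, ρ, rfl⟩ := hχ
  obtain ⟨ζ, h2, h3, h4⟩ := exists_eigenvalues_rep ρ z
  have h5 : ∀ i, ζ i = if ζ i = 1 then 1 else -1 := fun i => by
    obtain ⟨k, hk⟩ := orderOf_dvd_of_pow_eq_one (show z ^ 2 = 1 by rw [sq, hz])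
    split_ifs with h
    · exact h
    · exact (sq_eq_one_iff (a := ζ i)).1 (by rw [hk, pow_mul, h2, one_pow]) |>.resolve_left h
  rw [detChar_character, h4, prod_congr rfl fun i _ => h5 i, prod_ite, prod_const_one, one_mul,
    prod_const, Units.val_one, neg_one_pow_eq_one_iff_even (by norm_num)] at h6
  obtain ⟨k, hk⟩ := h6
  have h7 := h3 1
  have h8 := h3 0
  have h9 := card_filter_add_card_filter_not (s := univ) fun i => ζ i = 1
  simp only [zpow_one, zpow_zero, sum_const, nsmul_eq_mul, mul_one] at h7 h8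
  rw [sum_congr rfl fun i _ => h5 i, sum_ite] at h7
  refine ⟨k, ?_⟩
  rw [h7, h8, ← h9, sum_const, sum_const, hk]
  simp
  ring

variable {p : ℕ} [hp : Fact p.Prime] {x : G}

theorem exists_refl (h : DefOne p x ⊥) (hE : Nat.card E[h] = 2) :
    ∃ t : Nx x, expo h.ord t ≠ 1 ∧ orderOf (t : G) = 2 ∧ ∀ n : Nx x, expo h.ord n ≠ 1 → IsConj (t : G) n := by
  obtain ⟨⟨_, t, rfl⟩, h1, h2⟩ := (Nat.card_eq_two_iff' (1 : E[h])).1 hE
  have ht : expo h.ord t ≠ 1 := fun e => h1 (Subtype.ext e)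
  refine ⟨t, ht, ?_, fun n hn => ?_⟩
  · rw [h.orderOf_eq_orderOf_expo (h.not_dvd_orderOf ht)]
    exact ((Nat.dvd_prime Nat.prime_two).1 (hE ▸ E[h].orderOf_dvd_natCard ⟨t, rfl⟩)).resolve_left
      (mt orderOf_eq_one_iff.1 ht)
  · obtain ⟨i, hi⟩ := h.exists_conj_of_expo (m := n) ht
      (congrArg (Subtype.val : E[h] → _) (h2 ⟨_, n, rfl⟩ fun e => hn (congrArg Subtype.val e)))
    exact isConj_iff.2 ⟨_, hi⟩

theorem pairs {h : DefOne p x ⊥} {X : Finset (IrrCharacter G)} {φ : (ZMod p)ˣ → IrrCharacter G}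
    {δ : IrrCharacter G → ℤ} {ε : ℤ} (s : PShape h X φ δ ε) [DecidableEq (IrrCharacter G)] {ψ : IrrCharacter G}
    (h1 : ψ ≠ irrOne G) (hX : X = {irrOne G, ψ}) (hδ : δ ψ = -1) (hε : ε = -1) (hn : ψ.1 1 ≠ 1) {z : G}
    (hz : ¬ p ∣ orderOf z) : Nat.card {w : G × G // w.1 * z * w.1⁻¹ * (w.2 * z * w.2⁻¹) = x} *
      (ψ.1 1 * (ψ.1 1 - 1)) = Nat.card G * (ψ.1 1 - ψ.1 z) ^ 2 := by
  have := Fintype.ofFinite G
  have hψ : ψ ∈ X := by simp [hX]
  have hreg : ∀ a g, ¬ p ∣ orderOf g → (φ a).1 g = ψ.1 g - 1 := fun a g hg => by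
    have := s.regular' hg a
    rw [hX, erase_insert (by simpa using h1.symm), sum_singleton, hδ, hε] at this
    push_cast at this
    linear_combination -this
  have hx : p ∣ orderOf x := h.ord ▸ dvd_rfl
  have h6 := card_mul_conj_pairs z z x
  rw [s.sum_irr_split, hX, sum_pair h1.symm, sum_eq_zero (s := Rest _ _ _) fun χ hχ => by
    rw [h.rest_apply hχ hx]; simp,
    sum_congr rfl (g := fun χ => conj (χ.1 x) * ((ψ.1 z - 1) ^ 2 / (ψ.1 1 - 1))) fun χ hχ => by
      obtain ⟨b, rfl⟩ := mem_Phi.1 hχ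
      rw [hreg b z hz, hreg b 1 (by simpa using hp.out.ne_one)]
      ring, ← sum_mul, ← map_sum, s.sum_Phi_apply hx, s.apply_X_of_dvd hψ hx, hδ, hε] at h6
  have h2 := ψ.2.apply_one_ne_zero
  have h3 := sub_ne_zero.2 hn
  rw [h6]
  simp only [irrOne_apply]
  push_cast
  simp only [map_neg, map_one, neg_neg]
  field_simp
  ring

variable {Ω : Type*} [MulAction G Ω] [Finite Ω] [IsPretransitive G Ω]

theorem card_fix (hperf : commutator G = ⊤) (h : DefOne p x ⊥) (hΩ : Nat.card Ω = 3 * p) {t : Nx x}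
    (ht : expo h.ord t ≠ 1) (h2 : orderOf (t : G) = 2) :
    Nat.card (fixedBy Ω (t : G)) ≤ 3 ∧ Nat.card (fixedBy Ω (t : G)) % 4 = 3 * p % 4 := by
  have hπ := isCharacter_card_fixedBy (G := G) Ω
  have h1 := norm_le_fixd h.ord hπ ht
  obtain ⟨k, hk⟩ := exists_four hperf hπ (z := t) (by rw [← sq, ← h2, pow_orderOf_eq_one])
  rw [h.fixd_perm hΩ, Complex.norm_natCast, Nat.cast_le] at h1
  simp only [fixedBy_one_eq_univ, Nat.card_univ, hΩ] at hk
  have : Nat.card (fixedBy Ω (t : G)) + 4 * k = 3 * p := by exact_mod_cast eq_sub_iff_add_eq.1 hk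
  omega

/-- The shape of the permutation character and the order formula. -/
structure Data (p : ℕ) (Ω : Type*) [MulAction G Ω] (x t : G) (ψ : G → ℂ) (n : ℕ) : Prop where
  irr : IsIrrCharacter G ψ
  deg : ψ 1 = n
  at_x : ψ x = -1
  dvd : n - 1 ∣ Nat.card G
  cj : ∀ z, orderOf z = 2 → IsConj t z
  form : ∀ a : ℤ, ψ t = a → (Nat.card G : ℤ) * (n - a) ^ 2 =
    p * Nat.card (Subgroup.centralizer ({t} : Set G)) ^ 2 * (n * (n - 1))
  shape : (n + 1 = 2 * p ∧ ψ t = 1 ∧ ∃ ζ, IsIrrCharacter G ζ ∧ ζ 1 = p ∧ ζ x = 0 ∧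
    pch G Ω = (fun _ => 1) + ψ + ζ) ∨ (n + 1 = 3 * p ∧ pch G Ω = (fun _ => 1) + ψ)

theorem cases [IsSimpleGroup G] (hG : ¬ IsCyclic G) (h : DefOne p x ⊥) (hE : Nat.card E[h] = 2) (h3 : 3 < p)
    (hΩ : Nat.card Ω = 3 * p) {t : Nx x} (ht : expo h.ord t ≠ 1) (h2 : orderOf (t : G) = 2)
    (hc : ∀ n : Nx x, expo h.ord n ≠ 1 → IsConj (t : G) n) :
    (∃ ψ, IsIrrCharacter G ψ ∧ charDegree ψ + 1 = p ∧ charKer ψ = ⊥) ∨ ∃ ψ n, Data p Ω x (t : G) ψ n := by
  classical
  have := Fintype.ofFinite G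
  have : Nonempty Ω := (Nat.card_pos_iff.1 (by omega)).1
  have hperf := commutator_eq_top_of_not_isCyclic hG
  have htt : (t : G) * t = 1 := by rw [← sq, ← h2, pow_orderOf_eq_one]
  have hpo : ∀ z : G, orderOf z = 2 → ¬ p ∣ orderOf z := fun z hz e => by
    have := Nat.le_of_dvd two_pos (hz ▸ e); omega
  obtain ⟨X, φ, δ, ε, s⟩ := h.exists_pshape
  obtain ⟨ψ, h1, hX, hd⟩ := s.exists_two hE
  have hψ : ψ ∈ X := by simp [hX]
  have hπ := isCharacter_card_fixedBy (G := G) Ω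
  obtain ⟨c, hc', e, hφ, hv, hdeg, hf⟩ := s.decomp hπ (v := 0)
    fun j hj => by simp [h.card_fixedBy_xp (Ω := Ω) (hΩ ▸ dvd_mul_left p 3) hj]
  have h4 : c (irrOne G) = 1 := by exact_mod_cast (hc' _).symm.trans classInner_perm_one
  have h5 : charDegree ψ.1 ≠ 1 := fun e => h1 (eq_irrOne_of_degree hperf e)
  have hk : charKer ψ.1 = ⊥ := ψ.2.charKer_eq_bot_of_simple fun e => h1 (Subtype.ext e)
  have h6 := index_mul_card_EE E[h]
  have h7 := ψ.2.charDegree_pos
  have h8 := hd 1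
  rw [h.fixd_perm hΩ, hX, sum_pair h1.symm, h4, fixd_irrOne h.ord] at hf
  rw [hX, sum_pair h1.symm, h4, s.δ_one] at hv
  rw [charDegree_eq_of_apply_one (n := 3 * p) (by simp [hΩ]), hX, sum_pair h1.symm, h4, charDegree_irrOne] at hdeg
  rw [hE] at h6
  have ht2 : 2 ≤ E[h].index := by omega
  have hval : ∀ g, (Nat.card (fixedBy Ω g) : ℂ) = 1 + c ψ * ψ.1 g + c (φ 1) * ∑ χ ∈ Phi φ, χ.1 g +
      ∑ χ ∈ Rest p x (irrOne (⊥ : Subgroup G)), c χ * χ.1 g := fun g => by
    rw [congrFun e g, Finset.sum_apply, s.sum_irr_split, hX, sum_pair h1.symm, mul_sum]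
    simp only [Pi.smul_apply, smul_eq_mul, h4, Nat.cast_one, one_mul, irrOne_apply]
    congr 2
    exact sum_congr rfl fun χ hχ => by obtain ⟨a, rfl⟩ := mem_Phi.1 hχ; rw [hφ]
  have hR : ∑ χ ∈ Rest p x (irrOne (⊥ : Subgroup G)), c χ * fixd p x χ.1 = 0 → ∀ g,
      ∑ χ ∈ Rest p x (irrOne (⊥ : Subgroup G)), c χ * χ.1 g = 0 := fun h0 g => sum_eq_zero fun χ hχ => by
    rw [(mul_eq_zero.1 (sum_eq_zero_iff.1 h0 χ hχ)).resolve_right fun e => by
      have := χ.2.charDegree_pos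
      rw [h.rest_degree hχ, e] at this
      omega]
    simp
  obtain ⟨k, hk4⟩ := exists_four hperf ψ.2.isCharacter htt
  rw [ψ.2.apply_one_eq_charDegree] at hk4
  rcases s.δ_sign ψ hψ with hδ | hδ
  · exfalso
    have hε : ε = 1 := s.ε_sign.resolve_right fun hε => by rw [hε, hδ] at h8; omega
    have h10 := s.X_pos hψ hδ
    have h11 := s.φ_pos 1 hε
    have h12 : 2 ≤ fixd p x ψ.1 := by
      by_contra h11
      have : p * fixd p x ψ.1 ≤ p * 1 := Nat.mul_le_mul_left _ (by omega)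
      omega
    simp only [hε, hδ, hE] at hv h8 h11
    have h13 : fixd p x (φ 1).1 ≠ 0 := fun e => by rw [e] at h11; omega
    have h14 := Nat.mul_le_mul (show 1 ≤ c (φ 1) by omega) (Nat.pos_of_ne_zero h13)
    have h15 := Nat.mul_le_mul ht2 h14
    have h16 : c ψ = 0 := by
      by_contra h16
      have := Nat.mul_le_mul (Nat.pos_of_ne_zero h16) h12
      omega
    have h17 : c (φ 1) = 1 := by omega
    rw [h17, one_mul] at hf h14 h15
    have h18 : E[h].index = 2 := by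
      by_contra h18
      have := Nat.mul_le_mul (show 3 ≤ E[h].index by omega) h14
      omega
    rw [h18] at hf
    obtain rfl : p = 5 := by omega
    have h19 := hval t
    have h20 := card_fix hperf h hΩ ht h2
    rw [hR (by omega), h16, h17, s.sum_Phi_const' (c := 1 + ψ.1 t) fun a => by
      have := s.regular' (hpo _ h2) a
      rw [hX, erase_insert (by simpa using h1.symm), sum_singleton, hδ, hε] at this
      simpa using this, h18, hk4, show Nat.card (fixedBy Ω (t : G)) = 3 by omega,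
      show charDegree ψ.1 = 6 by omega] at h19
    have : (8 * k : ℕ) = (12 : ℂ) := by
      simp only [nsmul_eq_mul] at h19; push_cast at h19 ⊢; linear_combination h19
    have : 8 * k = 12 := by exact_mod_cast this
    omega
  have hε : ε = -1 := s.ε_sign.resolve_left fun hε => by rw [hε, hδ] at h8; omega
  have h10 := s.φ_neg 1 hε
  have h13 := s.X_neg hψ hδ
  by_cases h14 : fixd p x ψ.1 = 0
  · exact Or.inl ⟨ψ, ψ.2, by rw [h14] at h13; omega, hk⟩
  simp only [hε, hδ, hE] at hv h8 h10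
  have h11 : c (φ 1) = 0 := by
    by_contra h11
    have h15 : fixd p x (φ 1).1 ≠ 0 := fun e => by rw [e] at h10; omega
    have := Nat.mul_le_mul ht2 (Nat.mul_le_mul (Nat.pos_of_ne_zero h11) (Nat.pos_of_ne_zero h15))
    have := Nat.mul_le_mul (show 2 ≤ c ψ by omega) (Nat.pos_of_ne_zero h14)
    omega
  have h12 : c ψ = 1 := by omega
  simp only [h11, h12, Nat.cast_zero, zero_mul, mul_zero, add_zero, one_mul, Nat.cast_one] at hf hval
  have hx : p ∣ orderOf x := h.ord ▸ dvd_rfl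
  have hn1 : ψ.1 1 ≠ 1 := by rw [ψ.2.apply_one_eq_charDegree]; exact_mod_cast h5
  have hN : ∀ z : G, orderOf z = 2 → Nat.card {w : G × G // w.1 * z * w.1⁻¹ * (w.2 * z * w.2⁻¹) = x} ≠ 0 :=
    fun z hz e => by
      have := pairs s h1 hX hδ hε hn1 (hpo z hz)
      rw [e, Nat.cast_zero, zero_mul, eq_comm, mul_eq_zero, or_iff_right (card_ne_zero' G), sq_eq_zero_iff,
        sub_eq_zero, eq_comm, ← ψ.2.isCharacter.mem_charKer, hk, Subgroup.mem_bot] at this
      simp [this] at hz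
  refine Or.inr ⟨ψ, charDegree ψ.1, ψ.2, ψ.2.apply_one_eq_charDegree, by
    rw [s.apply_X_of_dvd hψ hx, hδ]; simp, ?_, fun z hz => ?_, fun a ha => ?_, ?_⟩
  · rw [show charDegree ψ.1 - 1 = charDegree (φ 1).1 by omega]
    exact (φ 1).2.charDegree_dvd_card
  · obtain ⟨⟨⟨u, v⟩, e₀⟩⟩ := (Nat.card_pos_iff.1 (Nat.pos_of_ne_zero (hN z hz))).1
    have hz' : z * z = 1 := by rw [← sq, ← hz, pow_orderOf_eq_one]
    have h15 : u * z * u⁻¹ * x * (u * z * u⁻¹)⁻¹ = x⁻¹ := by
      rw [← e₀]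
      simp only [mul_inv_rev, inv_inv, inv_eq_of_mul_eq_one_right hz', mul_assoc, inv_mul_cancel_left]
      rw [← mul_assoc z z, hz', one_mul, mul_inv_cancel_left]
    refine (hc ⟨u * z * u⁻¹, mem_Nx_of_conj_xp h.ord one_ne_zero (by
      rw [xp_one h.ord, h15]; exact inv_mem (Subgroup.mem_zpowers x))⟩ fun e => ?_).trans
        (isConj_iff.2 ⟨u, rfl⟩).symm
    rw [expo_eq_one_iff] at e
    rw [← e, mul_inv_cancel_right, eq_inv_iff_mul_eq_one, ← sq] at h15
    have := Nat.le_of_dvd two_pos (h.ord ▸ orderOf_dvd_of_pow_eq_one h15)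
    omega
  · have := pairs s h1 hX hδ hε hn1 (hpo _ h2)
    rw [h.card_pairs (by omega) htt (hN _ h2), ha, ψ.2.apply_one_eq_charDegree] at this
    exact_mod_cast this.symm
  rcases (show fixd p x ψ.1 = 1 ∨ fixd p x ψ.1 = 2 by omega) with h15 | h15
  · refine Or.inl ⟨by rw [h15] at h13; omega, ?_, ?_⟩
    · have h16 := norm_le_fixd h.ord ψ.2.isCharacter ht
      rw [h15] at h13 h16
      rw [hk4, ← Int.cast_natCast, show ((charDegree ψ.1 : ℤ) : ℂ) - 4 * k = ((charDegree ψ.1 - 4 * k : ℤ) : ℂ) by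
        push_cast; rfl] at h16 ⊢
      rw [Complex.norm_intCast, ← Int.cast_abs, Nat.cast_one, ← Int.cast_one, Int.cast_le, abs_le] at h16
      have := hp.out.eq_two_or_odd
      exact_mod_cast (show (charDegree ψ.1 - 4 * k : ℤ) = 1 by omega)
    · obtain ⟨ζ, hζ, h16⟩ := exists_ne_zero_of_sum_ne_zero (show
        ∑ χ ∈ Rest p x (irrOne (⊥ : Subgroup G)), c χ * fixd p x χ.1 ≠ 0 by omega)
      rw [← add_sum_erase _ _ hζ] at hf
      have h17 : c ζ * fixd p x ζ.1 = 1 := by omega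
      rw [h17, h15, ← add_assoc, left_eq_add] at hf
      refine ⟨ζ, ζ.2, by rw [ζ.2.apply_one_eq_charDegree, h.rest_degree hζ, Nat.eq_one_of_mul_eq_one_left h17,
        mul_one], h.rest_apply hζ hx, funext fun g => ?_⟩
      rw [pch, hval, ← add_sum_erase _ _ hζ, Nat.eq_one_of_mul_eq_one_right h17, sum_eq_zero fun χ hχ => ?_]
      · simp
      rw [(mul_eq_zero.1 (sum_eq_zero_iff.1 hf χ hχ)).resolve_right fun e => by
        have := χ.2.charDegree_pos
        rw [h.rest_degree (mem_of_mem_erase hχ), e] at this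
        omega]
      simp
  · exact Or.inr ⟨by rw [h15] at h13; omega, funext fun g => by rw [pch, hval, hR (by omega)]; simp⟩

end Cfsg.Agent.CH.Three
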