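import Cfsg.Agent.CH.Three1

/-! Simple groups with `|N(P)| = 2p` acting transitively on `3p` points: the rank three case. -/

set_option autoImplicit false
open Cfsg

namespace Cfsg.Agent.CH.Three

open Finset Cfsg.Agent.Small Cfsg.Agent.Char Cfsg.Agent.Perm MulAction

theorem srg_arith {p k s r l u : ℤ} (h5 : 3 < p) (e1 : k + (2 * p - 1) * s + p * r = 0)
    (e2 : k ^ 2 = k + l * k + u * (3 * p - 1 - k)) (e3 : s ^ 2 = k + l * s - u * (1 + s))
    (e4 : r ^ 2 = k + l * r - u * (1 + r)) (h1 : 0 < k) (h2 : k < 3 * p - 1) (hl : l % 2 = 1)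
    (hu : u % 2 = 1 → 2 * l = 3 * k - 3 * p - 1) : p = 5 ∧ k = 6 := by
  obtain ⟨m, rfl⟩ : ∃ m, r = -m - 2 * s := ⟨-r - 2 * s, by ring⟩
  obtain rfl : k = s + m * p := by linear_combination e1
  have e5 : p * (m * (3 - m)) = 6 * s ^ 2 + (6 * m - 3) * s + m ^ 2 :=
    mul_left_cancel₀ (show p ≠ 0 by omega) (by linear_combination -e2 - (2 * p - 1) * e3 - p * e4)
  have e6 : (3 * s + m) * (l - u + m + s) = 0 := by linear_combination e4 - e3
  have h3 : 0 ≤ m * (3 - m) := by nlinarith [sq_nonneg (4 * s + 2 * m - 1)]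
  have h4 : 0 ≤ m := by nlinarith
  have h6 : m ≤ 3 := by nlinarith
  interval_cases m
  · have : s * (2 * s - 1) = 0 := mul_left_cancel₀ three_ne_zero (by linear_combination -e5)
    rcases mul_eq_zero.1 this with h | h <;> omega
  · obtain rfl : l = u - 1 - s := by have := (mul_eq_zero.1 e6).resolve_left (by omega); omega
    obtain ⟨w, hw⟩ : ∃ w, w = s ^ 2 := ⟨_, rfl⟩
    have e7 : u = p - 2 * w := by rw [hw]; linear_combination e3
    rw [← hw] at e5
    have e8 : s * (s - 1) = 0 := by have := hu (by omega); rw [mul_sub, ← sq, ← hw]; omega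
    rcases mul_eq_zero.1 e8 with h | h
    · omega
    · obtain rfl : s = 1 := by omega
      omega
  · obtain rfl : l = u - 2 - s := by have := (mul_eq_zero.1 e6).resolve_left (by omega); omega
    obtain ⟨w, hw⟩ : ∃ w, w = s ^ 2 := ⟨_, rfl⟩
    have e7 : u = 2 * p - s - 2 * w := by rw [hw]; linear_combination e3
    rw [← hw] at e5
    omega
  · have : (s + 1) * (2 * s + 3) = 0 := mul_left_cancel₀ three_ne_zero (by linear_combination -e5)
    rcases mul_eq_zero.1 this with h | h <;> omega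

variable {G Ω : Type*} [Group G] [MulAction G Ω]

theorem sum_parity [Fintype Ω] {t : G} (ht : t * t = 1) {a b c : Ω} (hab : a ≠ b) (hac : a ≠ c) (hbc : b ≠ c)
    (hf : ∀ y, t • y = y → y = a ∨ y = b ∨ y = c) (hf' : t • a = a ∧ t • b = b ∧ t • c = c) (F : Ω → ℤ)
    (hF : ∀ y, F (t • y) = F y) : (∑ y, F y) % 2 = (F a + F b + F c) % 2 := by
  classical
  have htt : ∀ y : Ω, t • t • y = y := fun y => by rw [← mul_smul, ht, one_smul]
  have h1 : ∑ y ∈ ({a, b, c} : Finset Ω)ᶜ, (F y : ZMod 2) = 0 :=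
    sum_involution (fun y _ => t • y) (fun y _ => by rw [hF]; exact CharTwo.add_self_eq_zero _)
      (fun y hy _ e => mem_compl.1 hy (by simpa using hf y e)) (fun y hy => by
        simp only [mem_compl, mem_insert, mem_singleton] at hy ⊢
        rintro (e | e | e) <;> rw [← htt y, e] at hy <;> simp [hf'] at hy) fun y _ => htt y
  rw [← Int.cast_sum, ZMod.intCast_zmod_eq_zero_iff_dvd] at h1
  rw [← sum_add_sum_compl {a, b, c}, sum_insert (by simp [hab, hac]), sum_pair hbc]
  omega

theorem card_le_of_semi [Finite G] {S : Subgroup G} (hS : IsPGroup 2 S) {N : Finset Ω} {d : Ω}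
    (hN : ∀ u ∈ S, u • d ∈ N) (h : ∀ w ∈ S, orderOf w = 2 → w • d ≠ d) : Nat.card S ≤ N.card := by
  rw [← Nat.card_eq_finsetCard]
  refine Nat.card_le_card_of_injective (fun u : S => (⟨(u : G) • d, hN u u.2⟩ : N)) fun u v e => ?_
  by_contra h1
  obtain ⟨k, hk⟩ := IsPGroup.iff_orderOf.1 hS (v⁻¹ * u)
  obtain _ | k := k
  · exact h1 (inv_mul_eq_one.1 (orderOf_eq_one_iff.1 hk)).symm
  have h2 : ((v⁻¹ * u : S) : G) ∈ stabilizer G d := by
    rw [mem_stabilizer_iff, Subgroup.coe_mul, mul_smul, Subgroup.coe_inv, inv_smul_eq_iff]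
    exact congrArg Subtype.val e
  refine h _ ((v⁻¹ * u) ^ 2 ^ k).2 ?_ (pow_mem h2 _)
  rw [Subgroup.orderOf_coe, orderOf_pow_of_dvd (by positivity) (hk ▸ pow_dvd_pow 2 k.le_succ), hk, pow_succ,
    Nat.mul_div_cancel_left _ (by positivity)]

theorem rank_three [Finite Ω] [IsPretransitive G Ω] {a b : Ω} (hab : a ≠ b)
    (h : Nat.card (orbitRel.Quotient (stabilizer G a) Ω) = 3) : ∃ d, a ≠ d ∧ (a, d) ∉ orbit G (a, b) ∧
      ∀ u v, u = v ∨ (u, v) ∈ orbit G (a, b) ∨ (u, v) ∈ orbit G (a, d) := by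
  classical
  have := Fintype.ofFinite (orbitRel.Quotient (stabilizer G a) Ω)
  let mk : Ω → orbitRel.Quotient (stabilizer G a) Ω := Quotient.mk _
  have h1 : ∀ u v, mk u = mk v ↔ (a, u) ∈ orbit G (a, v) := fun u v => by
    rw [mem_orbit_pair]; exact Quotient.eq
  have h2 : ∀ y, mk y = mk a → y = a := fun y e => by
    obtain ⟨g, hg⟩ := (h1 _ _).1 e
    exact (congrArg Prod.snd hg).symm.trans (congrArg Prod.fst hg)
  obtain ⟨q, hq⟩ := card_eq_one.1 (show #((univ.erase (mk a)).erase (mk b)) = 1 by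
    rw [card_erase_of_mem (by simpa using mt (h2 b) hab.symm), card_erase_of_mem (mem_univ _), card_univ,
      ← Nat.card_eq_fintype_card, h])
  obtain ⟨d, rfl⟩ := Quotient.mk_surjective q
  have h3 := hq.ge (mem_singleton_self _)
  simp only [mem_erase, mem_univ, and_true] at h3
  refine ⟨d, fun e => h3.2 (e ▸ rfl), mt (h1 _ _).2 h3.1, fun u v => ?_⟩
  obtain ⟨g, rfl⟩ := exists_smul_eq G a u
  obtain ⟨v, rfl⟩ := (MulAction.toPerm g).surjective v
  have h4 : ∀ w, (a, v) ∈ orbit G (a, w) → (g • a, g • v) ∈ orbit G (a, w) := fun w h =>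
    mem_orbit_of_mem_orbit g h
  by_cases e1 : mk v = mk a
  · exact Or.inl (h2 v e1 ▸ rfl)
  by_cases e2 : mk v = mk b
  · exact Or.inr (Or.inl (h4 _ ((h1 _ _).1 e2)))
  exact Or.inr (Or.inr (h4 _ ((h1 _ _).1 (mem_singleton.1 (hq.le (by simp [e1, e2]))))))

theorem srg [Fintype G] [Fintype Ω] [IsPretransitive G Ω] {p : ℕ} (h3 : 3 < p) (hΩ : Nat.card Ω = 3 * p)
    {ψ ζ : G → ℂ} (hψ : IsIrrCharacter G ψ) (hζ : IsIrrCharacter G ζ) (d1 : ψ 1 = 2 * p - 1) (d2 : ζ 1 = p)
    {x t : G} (x1 : ψ x = -1) (x2 : ζ x = 0) (t1 : ψ t = 1) (hπ : pch G Ω = (fun _ => 1) + ψ + ζ)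
    (ht : orderOf t = 2) (hc : ∀ z, orderOf z = 2 → IsConj t z) (hf : Nat.card (fixedBy Ω t) = 3) :
    p = 5 ∧ ¬ 16 ∣ Nat.card G := by
  classical
  have htt : t * t = 1 := by rw [← sq, ← ht, pow_orderOf_eq_one]
  have htt' : ∀ y : Ω, t • t • y = y := fun y => by rw [← mul_smul, htt, one_smul]
  obtain ⟨a, b, c, hab, hac, hbc, hΔ⟩ := Set.ncard_eq_three.1 hf
  have f1 : ∀ y, t • y = y → y = a ∨ y = b ∨ y = c := fun y hy => by simpa using hΔ.le hy
  have f2 : t • a = a ∧ t • b = b ∧ t • c = c := ⟨hΔ.ge (by simp), hΔ.ge (by simp), hΔ.ge (by simp)⟩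
  have : Nonempty Ω := ⟨a⟩
  have h1 : IsIrrCharacter G fun _ => 1 := isIrrCharacter_one
  have n1 : ψ ≠ fun _ => 1 := fun e => by simp [e] at x1; norm_num at x1
  have n2 : ζ ≠ fun _ => 1 := fun e => by simp [e] at x2
  have n3 : ψ ≠ ζ := fun e => by simp [e, x2] at x1
  have hi : ∀ χ, IsIrrCharacter G χ → classInner (pch G Ω) χ = (if (fun _ => 1) = χ then 1 else 0) +
      (if ψ = χ then 1 else 0) + if ζ = χ then 1 else 0 := fun χ hχ => by
    rw [hπ, classInner_add_left, classInner_add_left, h1.classInner_eq_ite hχ, hψ.classInner_eq_ite hχ,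
      hζ.classInner_eq_ite hχ]
  have i1 : classInner (pch G Ω) ψ = 1 := by simp [hi ψ hψ, n1.symm, n3.symm]
  have i2 : classInner (pch G Ω) ζ = 1 := by simp [hi ζ hζ, n2.symm, n3]
  obtain ⟨d, had, hd, tri⟩ := rank_three (G := G) hab (by
    have := inner_pch_self (G := G) a
    nth_rw 2 [hπ] at this
    rw [classInner_add_right, classInner_add_right, inner_pch_one, i1, i2] at this
    exact_mod_cast this.symm.trans (show (1 : ℂ) + 1 + 1 = (3 : ℕ) by norm_num))
  have sym0 : (b, a) ∈ orbit G (a, b) := by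
    obtain ⟨y, hy⟩ : ∃ y : Ω, t • y ≠ y := by
      by_contra! h
      rw [show fixedBy Ω t = Set.univ from Set.eq_univ_of_forall h, Nat.card_univ] at hf
      omega
    have key : ∀ u v : Ω, (y, t • y) ∈ orbit G (u, v) → (v, u) ∈ orbit G (u, v) := fun u v ⟨g, hg⟩ => by
      obtain ⟨e1, e2⟩ := Prod.mk.inj hg
      exact ⟨g⁻¹ * t * g, by simp [mul_smul, e1, e2, htt', inv_smul_eq_iff]⟩
    by_contra h
    rcases (tri y (t • y)).resolve_left hy.symm with e | e
    · exact h (key _ _ e)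
    · rw [← orbit_eq_iff.2 (((tri b a).resolve_left hab.symm).resolve_left h)] at e
      exact h (mem_orbit_symm.1 (key _ _ e))
  let B : Ω → Ω → ℤ := fun u v => if (u, v) ∈ orbit G (a, b) then 1 else 0
  have hA : ∀ u v, orb G a b u v = B u v := fun u v => by simp [orb_apply, B]
  have Binv : ∀ (g : G) u v, B (g • u) (g • v) = B u v := fun g u v => by
    exact_mod_cast (hA _ _).symm.trans ((mInv_orb a b g u v).trans (hA _ _))
  have Bsym : ∀ u v, B u v = B v u := by
    have : ∀ u v, (u, v) ∈ orbit G (a, b) → (v, u) ∈ orbit G (a, b) := fun u v ⟨g, hg⟩ => by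
      obtain ⟨rfl, rfl⟩ := Prod.mk.inj hg
      exact mem_orbit_of_mem_orbit g sym0
    exact fun u v => if_congr ⟨this u v, this v u⟩ rfl rfl
  have B0 : ∀ u, B u u = 0 := fun u => by exact_mod_cast (hA _ _).symm.trans (orb_diag hab.symm u)
  have B01 : ∀ u v, B u v = 0 ∨ B u v = 1 := fun u v => by simp only [B]; split_ifs <;> simp
  have Bab : B a b = 1 := if_pos (mem_orbit_self _)
  have BB : ∀ u v, B u v * B u v = B u v := fun u v => by rcases B01 u v with e | e <;> simp [e]
  obtain ⟨k, hk0⟩ : ∃ k : ℤ, k = Nat.card (orbit (stabilizer G a) b) := ⟨_, rfl⟩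
  have hk : ∀ u, ∑ v, B u v = k := fun u => by
    have := sum_orb (G := G) a b u
    simp only [hA] at this
    rw [hk0]; exact_mod_cast this
  have par := sum_parity htt hab hac hbc f1 f2
  have tr : B a c = 1 ∧ B b c = 1 := by
    have e1 := par (B a) fun y => by rw [← Binv t a y, f2.1]
    have e2 := par (B b) fun y => by rw [← Binv t b y, f2.2.1]
    have e3 := par (B c) fun y => by rw [← Binv t c y, f2.2.2]
    rw [hk, B0] at e1 e2 e3
    rw [Bsym b a, Bsym c a, Bsym c b, Bab] at *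
    have := B01 a c
    have := B01 b c
    omega
  obtain ⟨l, hl⟩ : ∃ l, l = ∑ w, B a w * B w b := ⟨_, rfl⟩
  obtain ⟨m, hm⟩ : ∃ m, m = ∑ w, B a w * B w d := ⟨_, rfl⟩
  have cinv : ∀ u v y z, (u, v) ∈ orbit G (y, z) → ∑ w, B u w * B w v = ∑ w, B y w * B w z :=
    fun u v y z ⟨g, hg⟩ => by
      obtain ⟨rfl, rfl⟩ := Prod.mk.inj hg
      rw [← Equiv.sum_comp (MulAction.toPerm g)]
      simp [Binv]
  have hBB : ∀ u v, ∑ w, B u w * B w v = k * (if u = v then 1 else 0) + l * B u v +
      m * (1 - (if u = v then 1 else 0) - B u v) := fun u v => by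
    by_cases e : u = v
    · simp [e, B0, Bsym _ v, BB, hk]
    by_cases e' : (u, v) ∈ orbit G (a, b)
    · rw [cinv _ _ _ _ e', ← hl, show B u v = 1 from if_pos e']; simp [e]
    · rw [cinv _ _ _ _ (((tri u v).resolve_left e).resolve_left e'), ← hm, show B u v = 0 from if_neg e']; simp [e]
  have hcard : ∑ _y : Ω, (1 : ℤ) = 3 * p := by simp [← Nat.card_eq_fintype_card, hΩ]
  have hM := mInv_orb (G := G) a b
  have i0 : classInner (mtw G (orb G a b)) (fun _ => 1) = k :=
    inner_one_of_sum fun u => by simp only [hA]; exact_mod_cast hk u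
  have hmt : mtw G (orb G a b) = (k : ℂ) • (fun _ => 1) + classInner (mtw G (orb G a b)) ψ • ψ +
      classInner (mtw G (orb G a b)) ζ • ζ := by
    refine hM.isClassFunction.eq_of_forall_classInner (((h1.isClassFunction.smul _).add
      (hψ.isClassFunction.smul _)).add (hζ.isClassFunction.smul _)) fun χ hχ => ?_
    rw [classInner_add_left, classInner_add_left, classInner_smul_left, classInner_smul_left, classInner_smul_left,
      h1.classInner_eq_ite hχ, hψ.classInner_eq_ite hχ, hζ.classInner_eq_ite hχ]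
    by_cases e1 : (fun _ => 1) = χ
    · simp [← e1, n1, n2, i0]
    by_cases e2 : ψ = χ
    · simp [← e2, n1.symm, n3.symm]
    by_cases e3 : ζ = χ
    · simp [← e3, n2.symm, n3]
    simp [e1, e2, e3, hM.inner_eq_zero hχ.isCharacter (by simp [hi χ hχ, e1, e2, e3])]
  have hv : ∀ g, ((∑ y, B y (g • y) : ℤ) : ℂ) = k + classInner (mtw G (orb G a b)) ψ * ψ g +
      classInner (mtw G (orb G a b)) ζ * ζ g := fun g => by simpa [mtw, hA] using congrFun hmt g
  obtain ⟨s, hs⟩ : ∃ s : ℤ, classInner (mtw G (orb G a b)) ψ = s :=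
    ⟨k - ∑ y, B y (x • y), by have := hv x; rw [x1, x2] at this; rw [Int.cast_sub]; linear_combination this⟩
  obtain ⟨r, hr⟩ : ∃ r : ℤ, classInner (mtw G (orb G a b)) ζ = r := ⟨∑ y, B y (t • y) - k - s, by
    have e1 := congrFun hπ t
    have e2 := hv t
    simp only [pch, hf, Pi.add_apply, t1] at e1
    rw [t1, hs, show ζ t = 1 by push_cast at e1; linear_combination -e1] at e2
    rw [Int.cast_sub, Int.cast_sub]; linear_combination -e2⟩
  have e1 := hv 1
  simp only [one_smul, B0, sum_const_zero, hs, hr, d1, d2] at e1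
  have hsq : mtw G (orb G a b * orb G a b) = ((k - m : ℤ) : ℂ) • pch G Ω + ((l - m : ℤ) : ℂ) • mtw G (orb G a b) +
      ((m * (3 * p) : ℤ) : ℂ) • fun _ => 1 := funext fun g => by
    simp only [← mtw_one, mtw, Matrix.mul_apply, hA, Pi.add_apply, Pi.smul_apply, smul_eq_mul, ← hcard, mul_sum,
      Int.cast_sum, sum_mul, ← sum_add_distrib, Matrix.one_apply]
    refine sum_congr rfl fun y _ => ?_
    have := congrArg (Int.cast : ℤ → ℂ) (hBB y (g • y))
    push_cast at this ⊢
    linear_combination this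
  have hin : ∀ χ, IsIrrCharacter G χ → classInner (pch G Ω) χ = 1 → ∀ v : ℤ,
      classInner (mtw G (orb G a b)) χ = v → (v : ℂ) ^ 2 = (k - m : ℤ) + (l - m : ℤ) * v +
        (m * (3 * p) : ℤ) * classInner (fun _ => 1) χ := fun χ hχ e v hv => by
    rw [← hv, ← hM.inner_sq hχ.isCharacter e, hsq, classInner_add_left, classInner_add_left,
      classInner_smul_left, classInner_smul_left, classInner_smul_left, e, mul_one]
  have e2 := hin _ h1 inner_pch_one k i0
  have e3 := hin _ hψ i1 s hs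
  have e4 := hin _ hζ i2 r hr
  rw [h1.classInner_self] at e2
  rw [h1.classInner_eq_zero_of_ne hψ n1.symm] at e3
  rw [h1.classInner_eq_zero_of_ne hζ n2.symm] at e4
  have lodd : l % 2 = 1 := by
    rw [hl, par _ fun y => by rw [← Binv t a y, ← Binv t y b, f2.1, f2.2.1]]
    simp [B0, tr, Bsym c b]
  have hlt : ∀ u, ∑ y ∈ univ.filter fun y => y ≠ u ∧ B u y = 0, (1 : ℤ) = 3 * p - 1 - k := fun u => by
    rw [← hcard, ← hk u, ← sum_ite_eq' univ u (fun _ => (1 : ℤ)) |>.trans (if_pos (mem_univ u)), sum_filter,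
      ← sum_sub_distrib, ← sum_sub_distrib]
    refine sum_congr rfl fun y _ => ?_
    by_cases e : y = u
    · simp [e, B0]
    · rcases B01 u y with e' | e' <;> simp [e, e']
  obtain ⟨h5, h6⟩ := srg_arith (p := p) (k := k) (s := s) (r := r) (l := l) (u := m) (by omega)
    (by apply Int.cast_injective (α := ℂ); push_cast; linear_combination -e1)
    (by apply Int.cast_injective (α := ℂ); push_cast at e2 ⊢; linear_combination e2)
    (by apply Int.cast_injective (α := ℂ); push_cast at e3 ⊢; linear_combination e3)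
    (by apply Int.cast_injective (α := ℂ); push_cast at e4 ⊢; linear_combination e4)
    (by have : Nonempty (orbit (stabilizer G a) b) := ⟨⟨b, mem_orbit_self b⟩⟩; rw [hk0]; exact_mod_cast Nat.card_pos) (by
      have := hlt a
      rw [sum_const, nsmul_one] at this
      have := card_pos.2 ⟨d, show d ∈ univ.filter fun y => y ≠ a ∧ B a y = 0 by simp [B, hd, had.symm]⟩
      omega) lodd fun modd => by
      have key : ∀ y, (B a y + B b y + B c y - 1) * (B a y + B b y + B c y - 3) =
          if y ∈ ({a, b, c} : Finset Ω) then -1 else 0 := fun y => by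
        split_ifs with hy
        · simp only [mem_insert, mem_singleton] at hy
          rcases hy with e | e | e <;> simp [e, B0, tr, Bab, Bsym c, Bsym b a]
        · have e5 := par (fun w => B y w * B w (t • y)) fun w => by
            rw [Binv, ← Binv t y, htt', mul_comm, Bsym w y, Bsym w]
          rw [hBB, if_neg fun e => hy (by simpa using f1 y e.symm)] at e5
          have e6 : ∀ w, t • w = w → B y w * B w (t • y) = B w y := fun w hw => by
            rw [← Binv t w, htt', hw, Bsym y, BB]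
          rw [e6 a f2.1, e6 b f2.2.1, e6 c f2.2.2] at e5
          rcases B01 y (t • y) with e | e <;> rcases B01 a y with ea | ea <;> rcases B01 b y with eb | eb <;>
            rcases B01 c y with ec | ec <;> simp only [e, ea, eb, ec] at e5 ⊢ <;> omega
      have e5 := sum_congr rfl fun y (_ : y ∈ univ) => key y
      rw [sum_ite_mem, univ_inter, sum_insert (by simp [hab, hac]), sum_pair hbc, sum_congr rfl fun y _ =>
        show _ = 2 * (B a y * B y b) + 2 * (B a y * B y c) + 2 * (B b y * B y c) -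
          3 * B a y - 3 * B b y - 3 * B c y + 3 * 1 by
            rw [Bsym y, Bsym y]; linear_combination BB a y + BB b y + BB c y] at e5
      simp only [sum_add_distrib, sum_sub_distrib, ← mul_sum, hBB, hk, hcard, hab, hac, hbc, Bab, tr, if_false] at e5
      omega
  obtain rfl : p = 5 := by omega
  refine ⟨rfl, fun h16 => ?_⟩
  obtain ⟨S, hS⟩ := Sylow.exists_subgroup_card_pow_prime 2 (n := 4) h16
  have hS' := IsPGroup.of_card hS
  obtain ⟨u, -, hu⟩ := exists_fixed_of_not_dvd hS' (Set.univ : Set Ω) (by simp) (by rw [Nat.card_univ, hΩ]; decide)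
  have e5 := hlt u
  rw [sum_const, nsmul_one, h6] at e5
  obtain ⟨v, hv⟩ := card_pos.1 (show 0 < #{y | y ≠ u ∧ B u y = 0} by omega)
  have hv' := (mem_filter.1 hv).2
  have := card_le_of_semi hS' (N := {y | y ≠ u ∧ B u y = 0}) (d := v) (fun g hg => by
    rw [mem_filter, ← hu g hg, Binv, ne_eq, smul_left_cancel_iff]
    exact ⟨mem_univ _, hv'⟩) fun w hw h2 e => by
      obtain ⟨g, rfl⟩ := isConj_iff.1 (hc w h2)
      have e6 : ∀ y : Ω, (g * t * g⁻¹) • y = y → g⁻¹ • y = a ∨ g⁻¹ • y = b ∨ g⁻¹ • y = c := fun y hy =>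
        f1 _ (by rw [eq_inv_smul_iff, ← mul_smul, ← mul_smul, hy])
      have e7 := Binv g⁻¹ u v
      have e8 : g⁻¹ • v ≠ g⁻¹ • u := mt (smul_left_cancel g⁻¹) hv'.1
      rcases e6 u (hu _ hw) with e9 | e9 | e9 <;> rcases e6 v e with e0 | e0 | e0 <;>
        simp [e9, e0, hv'.2, Bab, tr, Bsym b a, Bsym c] at e7 e8
  omega

end Cfsg.Agent.CH.Three
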